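import Cfsg.Agent.Leech.Loop
import Mathlib.GroupTheory.Perm.Basic

/-! Determination of a permutation of few points from the permutations commuting with it. -/

set_option autoImplicit false

namespace CF.StdZ

open Equiv CF.Leech

/-- an entry of a table -/
def ap4 (g i : ℕ) : ℕ := Nat.land (Nat.shiftRight g (Nat.mul (nat_lit 4) i)) (nat_lit 15)

/-- the table of a permutation -/
def Tb {n : ℕ} (σ : Perm (Fin n)) (g : ℕ) : Prop := ∀ i : Fin n, (σ i).val = ap4 g i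

instance {n : ℕ} (σ : Perm (Fin n)) (g : ℕ) : Decidable (Tb σ g) := inferInstanceAs (Decidable (∀ _, _))

theorem Tb.eq {n : ℕ} {σ τ : Perm (Fin n)} {g : ℕ} (h : Tb σ g) (k : Tb τ g) : σ = τ :=
  Equiv.ext fun i => Fin.ext ((h i).trans (k i).symm)

/-- the value of a word -/
noncomputable def evN (w : List ℕ) (j : ℕ) : ℕ := List.rec j (fun g _ x => ap4 g x) w

/-- a choice among three values and constants -/
noncomputable def sel (a b c k : ℕ) : ℕ :=
  Bool.rec (Bool.rec (Bool.rec (Nat.sub k 3) c (Nat.beq k 2)) b (Nat.beq k 1)) a (Nat.beq k 0)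

/-- the candidate -/
noncomputable def cand (W : List (ℕ × List ℕ)) (a b c i : ℕ) : ℕ :=
  evN (W.getD i (0, [])).2 (sel a b c (W.getD i (0, [])).1)

/-- the conditions on a candidate -/
noncomputable def good (n : ℕ) (Ys : List ℕ) (s : ℕ) (f : ℕ → ℕ) : Bool :=
  Bool.rec false (Bool.rec false
    (allLt n fun i => allLt n fun j => Bool.rec true (Nat.beq i j) (Nat.beq (f i) (f j)))
    (allL Ys fun y => allLt n fun i => Nat.beq (f (ap4 y i)) (ap4 y (f i))))
    (Bool.rec (allLt n fun i => Nat.beq (f (f i)) (ap4 s i)) true (Nat.beq s 0))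

/-- the test -/
noncomputable def detOK (n : ℕ) (Ys : List ℕ) (W : List (ℕ × List ℕ)) (p q r m s : ℕ) (Al : List ℕ) : Bool :=
  Bool.rec false (allLt n fun a => allLt n fun b => allLt n fun c => Bool.rec true
      (anyL Al fun al => allLt n fun i => Nat.beq (cand W a b c i) (ap4 al i)) (good n Ys s (cand W a b c)))
    (allLt n fun i => Bool.rec false (Bool.rec false
      (Bool.rec true (Bool.rec false (Nat.testBit m ((W.getD i (0, [])).1 - 3)) (Nat.ble ((W.getD i (0, [])).1 - 2) n))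
        (Nat.ble 3 (W.getD i (0, [])).1))
      (allL (W.getD i (0, [])).2 fun g => anyL Ys (Nat.beq g))) (Nat.beq (cand W p q r i) i))

theorem det {n : ℕ} (τ : Perm (Fin n)) (Y A : List (Perm (Fin n) × ℕ)) (W : List (ℕ × List ℕ)) (p q r : Fin n)
    (m s : ℕ) (hT : ∀ y ∈ Y ++ A, Tb y.1 y.2) (hc : detOK n (Y.map Prod.snd) W p q r m s (A.map Prod.snd) = true)
    (hY : ∀ y ∈ Y, Commute y.1 τ) (hm : ∀ i : Fin n, m.testBit i = true → τ i = i) (hs : s = 0 ∨ Tb (τ * τ) s) :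
    τ ∈ A.map Prod.fst := by
  obtain ⟨h1, h2⟩ := brec_and.1 hc
  have st : ∀ g ∈ Y.map Prod.snd, ∀ i : Fin n, ∃ j : Fin n, ap4 g i = j ∧ ap4 g (τ i) = τ j := fun g hg i => by
    obtain ⟨y, hy, rfl⟩ := List.mem_map.1 hg
    have t := hT y (List.mem_append_left _ hy)
    exact ⟨y.1 i, (t i).symm, (t _).symm.trans (congrArg Fin.val (DFunLike.congr_fun (hY y hy).eq i))⟩
  have ev : ∀ w : List ℕ, (∀ g ∈ w, g ∈ Y.map Prod.snd) → ∀ i : Fin n, ∃ j : Fin n, evN w i = j ∧ evN w (τ i) = τ j :=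
    fun w hw i => by
      induction w with
      | nil => exact ⟨i, rfl, rfl⟩
      | cons g w ih =>
        obtain ⟨j, a, b⟩ := ih fun x hx => hw x (List.mem_cons_of_mem _ hx)
        obtain ⟨k, c, d⟩ := st g (hw g List.mem_cons_self) j
        exact ⟨k, (congrArg (ap4 g) a).trans c, (congrArg (ap4 g) b).trans d⟩
  have f : ∀ i : Fin n, cand W (τ p) (τ q) (τ r) i = τ i := fun i => by
    obtain ⟨a, b⟩ := brec_and.1 (allLt_iff.1 h1 i i.2)
    obtain ⟨b, c⟩ := brec_and.1 b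
    obtain ⟨x, e1, e2⟩ : ∃ x : Fin n, sel p q r (W.getD i (0, [])).1 = x ∧
        sel (τ p) (τ q) (τ r) (W.getD i (0, [])).1 = τ x := by
      generalize (W.getD i (0, [])).1 = k at c
      match k, c with
      | 0, _ => exact ⟨p, rfl, rfl⟩
      | 1, _ => exact ⟨q, rfl, rfl⟩
      | 2, _ => exact ⟨r, rfl, rfl⟩
      | k + 3, c =>
        obtain ⟨c, d⟩ := brec_and.1 (brec_imp.1 c (ble_iff.2 (Nat.le_add_left 3 k)))
        exact ⟨⟨k, ble_iff.1 c⟩, rfl, (congrArg Fin.val (hm ⟨k, ble_iff.1 c⟩ d)).symm⟩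
    obtain ⟨j, e3, e4⟩ := ev _ (fun g hg => by
      obtain ⟨y, hy, e⟩ := anyL_iff.1 (allL_iff.1 b g hg)
      exact beq_iff.1 e ▸ hy) x
    have : j = i := Fin.ext (by rw [← e3, ← e1]; exact beq_iff.1 a)
    rw [cand, e2, e4, this]
  obtain ⟨al, hal, e⟩ := anyL_iff.1 (brec_imp.1 (allLt_iff.1 (allLt_iff.1 (allLt_iff.1 h2 _ (τ p).2) _ (τ q).2) _ (τ r).2)
    (brec_and.2 ⟨brec_or.2 (hs.imp beq_iff.2 fun k => allLt_iff.2 fun i hi => beq_iff.2 (by
      rw [f ⟨i, hi⟩, f]; exact k ⟨i, hi⟩)), brec_and.2 ⟨allL_iff.2 fun g hg => allLt_iff.2 fun i hi => beq_iff.2 (by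
        obtain ⟨j, a, b⟩ := st g hg ⟨i, hi⟩
        rw [f ⟨i, hi⟩, b, a, f]), allLt_iff.2 fun i hi => allLt_iff.2 fun j hj => brec_imp.2 fun e => beq_iff.2 (by
          have := beq_iff.1 e
          rw [f ⟨i, hi⟩, f ⟨j, hj⟩] at this
          exact congrArg Fin.val (τ.injective (Fin.ext this)))⟩⟩))
  obtain ⟨a, ha, rfl⟩ := List.mem_map.1 hal
  refine List.mem_map.2 ⟨a, ha, (hT a (List.mem_append_right _ ha)).eq fun i => ?_⟩
  rw [← f]; exact beq_iff.1 (allLt_iff.1 e i i.2)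

end CF.StdZ
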