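import Cfsg.Agent.StdZ.Base
import Cfsg.Agent.StdZ.Det
import Cfsg.Agent.Recog.DC

/-! Involutions of the symmetric groups of degree eight and eleven. -/

set_option autoImplicit false

namespace CF.StdZ.Alt

open Equiv Equiv.Perm Subgroup

section

variable {Ω : Type*} [DecidableEq Ω] {a b c d : Ω} {τ u y σ κ : Perm Ω}

/-- a three-cycle -/
def c3 (a b c : Ω) : Perm Ω := swap a b * swap b c

theorem ap_inv (y : Perm Ω) (a : Ω) : y (y⁻¹ a) = a := y.apply_symm_apply a

theorem inv_ap (y : Perm Ω) (a : Ω) : y⁻¹ (y a) = a := y.symm_apply_apply a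

theorem sw_conj (y : Perm Ω) (a b : Ω) : y * swap a b * y⁻¹ = swap (y a) (y b) := (swap_apply_apply y a b).symm

theorem c3_conj (y : Perm Ω) (a b c : Ω) : y * c3 a b c * y⁻¹ = c3 (y a) (y b) (y c) := by
  rw [c3, ← conj_mul, sw_conj, sw_conj, c3]

theorem c3_a (h1 : a ≠ b) (h2 : a ≠ c) : c3 a b c a = b := by simp [c3, swap_apply_of_ne_of_ne h1 h2]

theorem c3_b (h2 : a ≠ c) (h3 : b ≠ c) : c3 a b c b = c := by
  simp [c3, swap_apply_of_ne_of_ne h2.symm h3.symm]

theorem c3_c : c3 a b c c = a := by simp [c3]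

theorem c3_d (h1 : d ≠ a) (h2 : d ≠ b) (h3 : d ≠ c) : c3 a b c d = d := by
  simp [c3, swap_apply_of_ne_of_ne h1 h2, swap_apply_of_ne_of_ne h2 h3]

theorem c3_inv (h1 : a ≠ b) (h2 : a ≠ c) (h3 : b ≠ c) : (c3 a c b)⁻¹ = c3 a b c := by
  refine inv_eq_of_mul_eq_one_right (Equiv.ext fun x => ?_)
  simp only [c3, Perm.mul_apply, swap_apply_def, Perm.one_apply]
  split_ifs <;> simp_all

theorem c3_rot (h1 : a ≠ b) (h2 : a ≠ c) (h3 : b ≠ c) : c3 b c a = c3 a b c := Equiv.ext fun x => by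
  simp only [c3, Perm.mul_apply, swap_apply_def]
  split_ifs <;> simp_all

theorem c3_mul (h : [a, b, c, d].Nodup) : c3 a b c * c3 a b d = swap a c * swap b d := Equiv.ext fun x => by
  simp only [List.nodup_cons, List.mem_cons, List.not_mem_nil, not_or] at h
  obtain ⟨⟨h1, h2, h3, -⟩, ⟨h4, h5, -⟩, ⟨h6, -⟩, -⟩ := h
  simp only [Perm.mul_apply]
  by_cases x1 : x = a
  · rw [x1, c3_a h1 h3, c3_b h2 h4, swap_apply_of_ne_of_ne h1 h3, swap_apply_left]
  by_cases x2 : x = b
  · rw [x2, c3_b h3 h5, c3_d (Ne.symm h3) (Ne.symm h5) (Ne.symm h6), swap_apply_left,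
      swap_apply_of_ne_of_ne (Ne.symm h3) (Ne.symm h6)]
  by_cases x3 : x = c
  · rw [x3, c3_d (Ne.symm h2) (Ne.symm h4) h6, c3_c, swap_apply_of_ne_of_ne (Ne.symm h4) h6, swap_apply_right]
  by_cases x4 : x = d
  · rw [x4, c3_c, c3_a h1 h2, swap_apply_right, swap_apply_of_ne_of_ne (Ne.symm h1) h4]
  rw [c3_d x1 x2 x4, c3_d x1 x2 x3, swap_apply_of_ne_of_ne x2 x4, swap_apply_of_ne_of_ne x1 x3]

theorem fix3 (h1 : a ≠ b) (h2 : a ≠ c) (h3 : b ≠ c) (ττ : τ * τ = 1) (h : Commute (c3 a b c) τ) : τ a = a := by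
  have e : c3 a b c (τ a) = τ b := by rw [← Perm.mul_apply, h.eq, Perm.mul_apply, c3_a h1 h2]
  have i := Recog.inv_apply2 ττ
  by_contra n
  by_cases k : τ a = b
  · rw [k, c3_b h2 h3, ← k, i] at e; exact h2 e.symm
  by_cases l : τ a = c
  · rw [l, c3_c] at e; exact k (by rw [e, i])
  rw [c3_d n k l] at e
  exact h1 (τ.injective e)

/-- the transposition of a pair -/
def fl (τ : Perm Ω) (a : Ω) : Perm Ω := swap a (τ a)

theorem fl_conj (h : Commute κ τ) (a : Ω) : κ * fl τ a * κ⁻¹ = fl τ (κ a) := by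
  rw [fl, sw_conj, ← Perm.mul_apply, h.eq]; rfl

theorem fl_comm (ττ : τ * τ = 1) (a b : Ω) : Commute (fl τ a) (fl τ b) := Recog.swap_comm_swap_inv ττ a b

theorem mv (h : Commute κ τ) (n : τ a ≠ a) : τ (κ a) ≠ κ a := by
  rw [← Perm.mul_apply, ← h.eq]; exact fun e => n (κ.injective e)

theorem fx (h : Commute κ τ) (n : τ a = a) : τ (κ a) = κ a := by rw [← Perm.mul_apply, ← h.eq, Perm.mul_apply, n]

/-- commuting with the products of two of the transpositions -/
def Cf (τ σ : Perm Ω) : Prop := ∀ a b, τ a ≠ a → τ b ≠ b → Commute (fl τ a * fl τ b) σ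

/-- at least three pairs -/
def H3p (τ : Perm Ω) : Prop := ∀ a x, ∃ b, τ b ≠ b ∧ b ≠ a ∧ b ≠ τ a ∧ b ≠ x ∧ τ b ≠ x

theorem Cf.pair (h : Cf τ σ) (ττ : τ * τ = 1) (k : H3p τ) (n : τ a ≠ a) : σ a = a ∨ σ a = τ a := by
  by_contra e
  rw [not_or] at e
  obtain ⟨b, h1, h2, h3, h4, h5⟩ := k a (σ a)
  have i := Recog.inv_apply2 ττ
  have := DFunLike.congr_fun (h a b n h1).eq a
  simp only [Perm.mul_apply, fl] at this
  rw [swap_apply_of_ne_of_ne h4.symm h5.symm, swap_apply_of_ne_of_ne e.1 e.2,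
    swap_apply_of_ne_of_ne h2.symm (fun f => h3 (by rw [f, i])), swap_apply_left] at this
  exact n (σ.injective this).symm

theorem Cf.fix (h : Cf τ σ) (ττ : τ * τ = 1) (k : H3p τ) (c : Commute σ τ) {m : ℕ} (o : Odd m) (e : σ ^ m = 1)
    (n : τ a ≠ a) : σ a = a := by
  refine (h.pair ττ k n).resolve_right fun f => ?_
  have : (σ * σ) a = a := by
    rw [Perm.mul_apply, f, ← Perm.mul_apply, c.eq, Perm.mul_apply, f, Recog.inv_apply2 ττ]
  obtain ⟨j, rfl⟩ := o
  have := DFunLike.congr_fun e a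
  rw [pow_succ', pow_mul, pow_two, Perm.mul_apply, pow_apply_eq_self_of_apply_eq_self ‹_› j, f] at this
  exact n this

theorem Cf.conj (h : Cf τ σ) (c : Commute y τ) : Cf τ (y * σ * y⁻¹) := fun a b ha hb => by
  have := (h _ _ (mv c.inv_left ha) (mv c.inv_left hb)).conj y
  rwa [← conj_mul, fl_conj c, fl_conj c, ap_inv, ap_inv] at this

variable [Fintype Ω]

local notation "A" => alternatingGroup Ω

theorem mem_of_odd {m : ℕ} (o : Odd m) (e : σ ^ m = 1) : σ ∈ A := by
  have := congrArg sign e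
  rw [map_pow, map_one] at this
  rcases Int.units_eq_one_or (sign σ) with k | k
  · exact mem_alternatingGroup.2 k
  · rw [k, o.neg_one_pow] at this; exact absurd this (by decide)

theorem cube_X0 (c : Commute σ u) (e : σ ^ 3 = 1) : σ ∈ X0 A u := odd_mem_X0 (mem_of_odd (by decide) e) c (by decide) e

theorem c3_cube (h1 : a ≠ b) (h2 : a ≠ c) (h3 : b ≠ c) : c3 a b c ^ 3 = 1 := by
  rw [c3, swap_comm a b, ← (isThreeCycle_swap_mul_swap_same h1.symm h3 h2).orderOf, pow_orderOf_eq_one]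

theorem c3_X0 (h1 : a ≠ b) (h2 : a ≠ c) (h3 : b ≠ c) (fa : u a = a) (fb : u b = b) (fc : u c = c) :
    c3 a b c ∈ X0 A u := cube_X0 (comm_of_conj (by rw [c3_conj, fa, fb, fc])) (c3_cube h1 h2 h3)

/-- at least three fixed points -/
def H3 (u : Perm Ω) : Prop := ∀ a, u a = a → ∃ b c, a ≠ b ∧ a ≠ c ∧ b ≠ c ∧ u b = b ∧ u c = c

theorem fixR (k : H3 u) (ττ : τ * τ = 1) (h : ∀ x ∈ X0 A u, Commute x τ) (n : u a = a) : τ a = a := by
  obtain ⟨b, c, h1, h2, h3, fb, fc⟩ := k a n
  exact fix3 h1 h2 h3 ττ (h _ (c3_X0 h1 h2 h3 n fb fc))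

/-- at least four fixed points -/
def H4 (u : Perm Ω) : Prop := ∀ a b c, ∃ d, u d = d ∧ d ≠ a ∧ d ≠ b ∧ d ≠ c

theorem fix_of_uniq {N : Subgroup (Perm Ω)} (hN : ∀ x ∈ X0 A τ, ∀ u ∈ N, x * u * x⁻¹ ∈ N)
    (uq : ∀ u ∈ N, u * u = 1 → u = 1 ∨ u = τ) (k : H4 τ) (hy : y ∈ N) (yy : y * y = τ) (fa : τ a = a) : y a = a := by
  have dbl : ∀ {b c d}, [a, b, c, d].Nodup → c3 a b c * c3 a b d ∉ N := fun {b c d} n m => by
    rw [c3_mul n] at m
    have n' : [a, c, b, d].Nodup := by
      simp only [List.nodup_cons, List.mem_cons, List.not_mem_nil, not_or] at n ⊢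
      tauto
    simp only [List.nodup_cons, List.mem_cons, List.not_mem_nil, not_or] at n
    have e : (swap a c * swap b d) a = c := by simp [swap_apply_of_ne_of_ne n.1.1 n.1.2.2.1]
    rcases uq _ m (Recog.dbl_mul_self n') with f | f <;> rw [f] at e
    exacts [n.1.2.1 e, n.1.2.1 (fa.symm.trans e)]
  have cy : Commute y τ := yy ▸ (Commute.refl y).mul_right (Commute.refl y)
  by_contra n
  have ba : y (y a) = a := by rw [← Perm.mul_apply, yy, fa]
  obtain ⟨c, fc, c1, c2, -⟩ := k a (y a) a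
  have m := mul_mem (hN _ (c3_X0 (Ne.symm n) c1.symm c2.symm fa (fx cy fa) fc) _ hy) (inv_mem hy)
  have d1 : y c ≠ a := fun e => c2 (y.injective (e.trans ba.symm))
  have d2 : y c ≠ y a := fun e => c1 (y.injective e)
  rw [mul_assoc, mul_assoc, ← mul_assoc y, ← conj_inv, c3_conj, ba, ← c3_rot n d2.symm d1.symm,
    c3_inv (Ne.symm n) d1.symm d2.symm] at m
  by_cases e : y c = c
  · obtain ⟨d, fd, e1, e2, e3⟩ := k a (y a) c
    rw [e] at m
    have m1 : c3 a (y a) c ∈ N := by
      have := mul_mem m m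
      rwa [mul_assoc, ← mul_assoc (c3 _ _ _) (c3 _ _ _) (c3 _ _ _), ← pow_three', c3_cube (Ne.symm n) c1.symm c2.symm,
        mul_one] at this
    have m2 := inv_mem (hN _ (c3_X0 e2.symm c2.symm e3 (fx cy fa) fd fc) _ m1)
    rw [c3_conj, c3_d (Ne.symm n) e1.symm c1.symm, c3_a e2.symm c2.symm, c3_c, c3_inv (Ne.symm n) e1.symm e2.symm] at m2
    exact dbl (by simp [Ne.symm n, c1.symm, c2.symm, e1.symm, e2.symm, e3.symm]) (mul_mem m1 m2)
  · exact dbl (by simp [Ne.symm n, c1.symm, c2.symm, d1.symm, d2.symm, Ne.symm e]) m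

/-- the products of two of the transpositions lift to commuting elements -/
def HF (τ : Perm Ω) : Prop := ∀ a b, τ a ≠ a → τ b ≠ b → fl τ a * fl τ b ∈ X0 A τ

theorem cf_of (ττ : τ * τ = 1) (k : HF τ) (c : Commute κ τ) {m : ℕ} (o : Odd m) (e : κ ^ m = 1)
    (h : ∀ x ∈ X0 A τ, x * κ * x⁻¹ * κ⁻¹ * (x * κ * x⁻¹ * κ⁻¹) = 1 → x * κ * x⁻¹ * κ⁻¹ = 1 ∨ x * κ * x⁻¹ * κ⁻¹ = τ) :
    Cf τ κ := fun a b ha hb => by
  set f := fl τ a * fl τ b with hf
  have ff : ∀ a b, (fl τ a * fl τ b) * (fl τ a * fl τ b) = 1 := fun a b => by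
    rw [← pow_two, (fl_comm ττ a b).mul_pow]; simp [fl, pow_two]
  have fi : f⁻¹ = f := inv_eq_of_mul_eq_one_right (ff a b)
  have e1 : f * κ * f⁻¹ * κ⁻¹ = f * (fl τ (κ a) * fl τ (κ b)) := by
    rw [fi, ← fl_conj c, ← fl_conj c, conj_mul, ← hf]; group
  rcases h f (k a b ha hb) (by
    rw [e1, ← pow_two, (((fl_comm ττ _ _).mul_left (fl_comm ττ _ _)).mul_right
      ((fl_comm ττ _ _).mul_left (fl_comm ττ _ _))).mul_pow, pow_two, pow_two, ff, ff, one_mul]) with g | g
  · exact commutatorElement_eq_one_iff_commute.1 g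
  · have g1 : κ * f * κ⁻¹ = f * τ := by
      rw [← g, fi, mul_assoc f κ f, mul_assoc f (κ * f), ← mul_assoc f f, ff, one_mul]
    have : ∀ i : ℕ, κ ^ i * f * (κ ^ i)⁻¹ = f * τ ^ i := fun i => by
      induction i with
      | zero => simp
      | succ i ih =>
        rw [pow_succ', pow_succ', mul_inv_rev, ← mul_assoc f, ← g1, ← conj_of_comm (c.symm.pow_left i), conj_mul, ← ih]
        group
    have := this m
    rw [e, pow_odd ττ o] at this
    rw [show τ = 1 by simpa using this] at ha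
    exact absurd rfl ha

end

set_option maxRecDepth 100000

variable {m : ℕ}

/-- the standard involutions -/
def r (m : ℕ) : ℕ → Perm (Fin (m + 8))
  | 0 => 1
  | 1 => swap 0 1
  | 2 => swap 0 1 * swap 2 3
  | 3 => swap 0 1 * swap 2 3 * swap 4 5
  | 4 => swap 0 1 * swap 2 3 * swap 4 5 * swap 6 7
  | _ => swap 0 1 * swap 2 3 * swap 4 5 * swap 6 7 * swap 8 9

local notation "A" => alternatingGroup (Fin (m + 8))

variable (hn : m = 0 ∨ m = 3) {τ u y : Perm (Fin (m + 8))}
include hn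

theorem r_spec : ∀ k < 6, 2 * k ≤ m + 8 → r m k * r m k = 1 ∧ (r m k).support.card = 2 * k := by
  rcases hn with rfl | rfl <;> decide +kernel

theorem cls (h : τ * τ = 1) : ∃ κ : Perm (Fin (m + 8)), ∃ k < 6, 2 * k ≤ m + 8 ∧ τ.support.card = 2 * k ∧ κ * τ * κ⁻¹ = r m k := by
  obtain ⟨k, e⟩ := two_dvd_card_support (σ := τ) (by rwa [pow_two])
  have : 2 * k ≤ m + 8 := e ▸ (Finset.card_le_univ _).trans (by simp)
  have k6 : k < 6 := by omega
  obtain ⟨κ, -, f⟩ := Recog.exists_even_conj h (r_spec hn k k6 this).1 (e.trans (r_spec hn k k6 this).2.symm)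
  exact ⟨κ, k, k6, this, e, f⟩

theorem sq_X0 {w v : Perm (Fin (m + 8))} (h : sign w = 1 ∧ w * u = u * w ∧ v = w * w) : v ∈ X0 A u :=
  h.2.2 ▸ sq_mem_X0 (mem_alternatingGroup.2 h.1) h.2.1

theorem fi1 (ττ : τ * τ = 1) (h : ∀ x ∈ X0 A (r m 1), Commute x τ) : τ = 1 ∨ τ = r m 1 := by
  have f := fun i => fixR (u := r m 1) (a := i) (by unfold H3; rcases hn with rfl | rfl <;> decide +kernel) ττ h
  rcases hn with rfl | rfl
  · simpa [r] using det τ [] [(1, 1985229328), (swap 0 1, 1985229313)]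
      [(0, []), (1, []), (5, []), (6, []), (7, []), (8, []), (9, []), (10, [])] 0 1 0 252 1985229328
      (by decide +kernel) (by decide +kernel) (by simp) (fun i e => f i (by revert i; decide +kernel))
      (.inr (by rw [ττ]; decide +kernel))
  · simpa [r] using det τ [] [(1, 11649936536080), (swap 0 1, 11649936536065)]
      [(0, []), (1, []), (5, []), (6, []), (7, []), (8, []), (9, []), (10, []), (11, []), (12, []), (13, [])] 0 1 0 2044 11649936536080
      (by decide +kernel) (by decide +kernel) (by simp) (fun i e => f i (by revert i; decide +kernel))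
      (.inr (by rw [ττ]; decide +kernel))

theorem fi2 (ττ : τ * τ = 1) (h : ∀ x ∈ X0 A (r m 2), Commute x τ) : τ = 1 ∨ τ = r m 2 := by
  have f := fun i => fixR (u := r m 2) (a := i) (by unfold H3; rcases hn with rfl | rfl <;> decide +kernel) ττ h
  have g := h (swap 0 2 * swap 1 3 * swap 0 1 * swap 4 5) (root_mem_X0 (n := 2) (mem_alternatingGroup.2 (by
    rcases hn with rfl | rfl <;> decide +kernel)) (by rcases hn with rfl | rfl <;> decide +kernel))
  rcases hn with rfl | rfl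
  · simpa [r] using det τ [(swap 0 2 * swap 1 3 * swap 0 1 * swap 4 5, 1984237603)] [(1, 1985229328), (swap 0 1 * swap 2 3, 1985225473)]
      [(0, []), (0, [1984237603, 1984237603]), (0, [1984237603, 1984237603, 1984237603]), (0, [1984237603]), (7, []), (8, []), (9, []), (10, [])] 0 0 0 240 1985229328
      (by decide +kernel) (by decide +kernel) (by simpa using g) (fun i e => f i (by revert i; decide +kernel))
      (.inr (by rw [ττ]; decide +kernel))
  · simpa [r] using det τ [(swap 0 2 * swap 1 3 * swap 0 1 * swap 4 5, 11649935544355)] [(1, 11649936536080), (swap 0 1 * swap 2 3, 11649936532225)]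
      [(0, []), (0, [11649935544355, 11649935544355]), (0, [11649935544355, 11649935544355, 11649935544355]), (0, [11649935544355]), (7, []), (8, []), (9, []), (10, []), (11, []), (12, []), (13, [])] 0 0 0 2032 11649936536080
      (by decide +kernel) (by decide +kernel) (by simpa using g) (fun i e => f i (by revert i; decide +kernel))
      (.inr (by rw [ττ]; decide +kernel))

theorem gens {k : ℕ} (hk : k = 3 ∨ k = 4 ∨ k = 5 ∧ m = 3) : swap 0 2 * swap 2 4 * swap 1 3 * swap 3 5 ∈ X0 A (r m k) ∧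
    swap 0 1 * swap 2 3 ∈ X0 A (r m k) := by
  refine ⟨cube_X0 (show _ = _ from ?_) ?_, sq_X0 hn (w := swap 0 2 * swap 1 3 * swap 0 1 * swap 4 5) ?_⟩ <;>
  rcases hk with rfl | rfl | ⟨rfl, rfl⟩ <;> (try rcases hn with rfl | rfl) <;> decide +kernel

theorem fi3 (ττ : τ * τ = 1) (h : ∀ x ∈ X0 A (r m 3), Commute x τ) :
    τ = 1 ∨ τ = r m 3 ∨ m = 0 ∧ (τ = swap 6 7 ∨ τ = r m 4) := by
  have g := gens hn (.inl rfl)
  rcases hn with rfl | rfl
  · simpa [r] using det τ [(swap 0 2 * swap 2 4 * swap 1 3 * swap 3 5, 1980781618), (swap 0 1 * swap 2 3, 1985225473)] [(1, 1985229328), (swap 0 1 * swap 2 3 * swap 4 5, 1984242433), (swap 6 7, 1733571088), (swap 0 1 * swap 2 3 * swap 4 5 * swap 6 7, 1732584193)]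
      [(0, []), (0, [1985225473]), (0, [1980781618]), (0, [1985225473, 1980781618]), (0, [1980781618, 1980781618]), (0, [1980781618, 1985225473, 1980781618]), (1, []), (2, [])] 0 6 7 0 1985229328
      (by decide +kernel) (by decide +kernel) (by simpa using ⟨h _ g.1, h _ g.2⟩) (by simp)
      (.inr (by rw [ττ]; decide +kernel))
  · have f := fun i => fixR (u := r 3 3) (a := i) (by unfold H3; decide +kernel) ττ h
    simpa [r] using det τ [(swap 0 2 * swap 2 4 * swap 1 3 * swap 3 5, 11649932088370), (swap 0 1 * swap 2 3, 11649936532225)] [(1, 11649936536080), (swap 0 1 * swap 2 3 * swap 4 5, 11649935549185)]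
      [(0, []), (0, [11649936532225]), (0, [11649932088370]), (0, [11649936532225, 11649932088370]), (0, [11649932088370, 11649932088370]), (0, [11649932088370, 11649936532225, 11649932088370]), (9, []), (10, []), (11, []), (12, []), (13, [])] 0 0 0 1984 11649936536080
      (by decide +kernel) (by decide +kernel) (by simpa using ⟨h _ g.1, h _ g.2⟩)
      (fun i e => f i (by revert i; decide +kernel)) (.inr (by rw [ττ]; decide +kernel))

theorem fi4 (ττ : τ * τ = 1) (h : ∀ x ∈ X0 A (r m 4), Commute x τ) : τ = 1 ∨ τ = r m 4 := by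
  have g := gens hn (.inr (.inl rfl))
  have g2 := h (swap 2 4 * swap 4 6 * swap 3 5 * swap 5 7) (cube_X0 (show _ = _ by
    rcases hn with rfl | rfl <;> decide +kernel) (by rcases hn with rfl | rfl <;> decide +kernel))
  rcases hn with rfl | rfl
  · simpa [r] using det τ [(swap 0 2 * swap 2 4 * swap 1 3 * swap 3 5, 1980781618), (swap 2 4 * swap 4 6 * swap 3 5 * swap 5 7, 846615568), (swap 0 1 * swap 2 3, 1985225473)] [(1, 1985229328), (swap 0 1 * swap 2 3 * swap 4 5 * swap 6 7, 1732584193)]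
      [(0, []), (0, [1985225473]), (0, [1980781618]), (0, [1985225473, 1980781618]), (0, [1980781618, 1980781618]), (0, [1980781618, 1985225473, 1980781618]), (0, [846615568, 1980781618, 1980781618]), (0, [846615568, 1980781618, 1985225473, 1980781618])] 0 0 0 0 1985229328
      (by decide +kernel) (by decide +kernel) (by simpa using ⟨h _ g.1, g2, h _ g.2⟩) (by simp)
      (.inr (by rw [ττ]; decide +kernel))
  · have f := fun i => fixR (u := r 3 4) (a := i) (by unfold H3; decide +kernel) ττ h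
    simpa [r] using det τ [(swap 0 2 * swap 2 4 * swap 1 3 * swap 3 5, 11649932088370), (swap 2 4 * swap 4 6 * swap 3 5 * swap 5 7, 11648797922320), (swap 0 1 * swap 2 3, 11649936532225)] [(1, 11649936536080), (swap 0 1 * swap 2 3 * swap 4 5 * swap 6 7, 11649683890945)]
      [(0, []), (0, [11649936532225]), (0, [11649932088370]), (0, [11649936532225, 11649932088370]), (0, [11649932088370, 11649932088370]), (0, [11649932088370, 11649936532225, 11649932088370]), (0, [11648797922320, 11649932088370, 11649932088370]), (0, [11648797922320, 11649932088370, 11649936532225, 11649932088370]), (11, []), (12, []), (13, [])] 0 0 0 1792 11649936536080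
      (by decide +kernel) (by decide +kernel) (by simpa using ⟨h _ g.1, g2, h _ g.2⟩)
      (fun i e => f i (by revert i; decide +kernel)) (.inr (by rw [ττ]; decide +kernel))

omit hn in
theorem fi5 {τ : Perm (Fin (3 + 8))} (ττ : τ * τ = 1) (h : ∀ x ∈ X0 (alternatingGroup _) (r 3 5), Commute x τ) :
    τ = 1 ∨ τ = r 3 5 := by
  have g := gens (.inr rfl) (.inr (.inr ⟨rfl, rfl⟩))
  have g2 := h (swap 4 6 * swap 6 8 * swap 5 7 * swap 7 9) (cube_X0 (show _ = _ by decide +kernel) (by decide +kernel))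
  simpa [r] using det τ [(swap 0 2 * swap 2 4 * swap 1 3 * swap 3 5, 11649932088370), (swap 4 6 * swap 6 8 * swap 5 7 * swap 7 9, 11358451413520), (swap 0 1 * swap 2 3, 11649936532225)] [(1, 11649936536080), (swap 0 1 * swap 2 3 * swap 4 5 * swap 6 7 * swap 8 9, 11585259381505)]
      [(0, []), (0, [11649936532225]), (0, [11649932088370]), (0, [11649936532225, 11649932088370]), (0, [11649932088370, 11649932088370]), (0, [11649932088370, 11649936532225, 11649932088370]), (0, [11358451413520, 11649932088370, 11649932088370]), (0, [11358451413520, 11649932088370, 11649936532225, 11649932088370]), (0, [11358451413520, 11358451413520, 11649932088370, 11649932088370]), (0, [11358451413520, 11358451413520, 11649932088370, 11649936532225, 11649932088370]), (1, [])] 0 10 0 0 11649936536080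
      (by decide +kernel) (by decide +kernel) (by simpa using ⟨h _ g.1, g2, h _ g.2⟩) (by simp)
      (.inr (by rw [ττ]; decide +kernel))

theorem fi (ττ : τ * τ = 1) (n1 : τ ≠ 1) (mt : τ ∈ A) : FI A τ := fun u uu u1 uτ _ h1 h2 => by
  obtain ⟨κ, k, k6, kn, -, e⟩ := cls hn uu
  have tr : ∀ {v}, (∀ x ∈ X0 A v, Commute x τ) → ∀ x ∈ X0 A (κ * v * κ⁻¹), Commute x (κ * τ * κ⁻¹) := fun h x hx => by
    have := (h _ (by simpa [mul_assoc] using X0_conj hx κ⁻¹)).conj κ
    simpa [mul_assoc] using this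
  have h1 := tr h1
  have h2 := tr h2
  rw [← conj_mul] at h2
  rw [e] at h1 h2
  have s : κ * τ * κ⁻¹ * (κ * τ * κ⁻¹) = 1 := by rw [conj_mul, ττ]; simp
  have a : κ * τ * κ⁻¹ ≠ 1 := by simpa using n1
  have b : κ * τ * κ⁻¹ ≠ r m k := by rw [← e]; simpa using uτ.symm
  have c : κ * τ * κ⁻¹ ∈ A := (alternatingGroup.normal (α := Fin (m + 8))).conj_mem _ mt κ
  generalize κ * τ * κ⁻¹ = σ at *
  interval_cases k
  · exact u1 (by simpa [r] using e)
  · exact (fi1 hn s h1).elim a b
  · exact (fi2 hn s h1).elim a b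
  · rcases fi3 hn s h1 with f | f | ⟨rfl, rfl | rfl⟩
    · exact a f
    · exact b f
    · exact absurd (mem_alternatingGroup.1 c) (by decide +kernel)
    · exact absurd (h2 (c3 0 1 2) (cube_X0 (show _ = _ by decide +kernel) (by decide +kernel))).eq (by decide +kernel)
  · exact (fi4 hn s h1).elim a b
  · obtain rfl : m = 3 := by omega
    exact (fi5 s h1).elim a b

theorem exists_w (ττ : τ * τ = 1) : ∃ w ∈ A, Commute w τ ∧ IsConj (w * w) (r m 2) := by
  obtain ⟨κ, k, k6, kn, -, e⟩ := cls hn ττ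
  obtain ⟨w, h⟩ : ∃ w : Perm (Fin (m + 8)), sign w = 1 ∧ w * r m k = r m k * w ∧
      (w * w = r m 2 ∨ swap 0 4 * swap 1 5 * (w * w) * (swap 0 4 * swap 1 5)⁻¹ = r m 2) := by
    by_cases k1 : k = 1
    · exact ⟨swap 2 4 * swap 3 5 * swap 2 3 * swap 6 7, by subst k1; rcases hn with rfl | rfl <;> decide +kernel⟩
    · exact ⟨swap 0 2 * swap 1 3 * swap 0 1 * swap 4 5, by
        rcases hn with rfl | rfl <;> interval_cases k <;> first | omega | decide +kernel⟩
  refine ⟨κ⁻¹ * w * κ, (alternatingGroup.normal (α := Fin (m + 8))).conj_mem' _ (mem_alternatingGroup.2 h.1) κ,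
    (comm_cj.1 (e ▸ (Commute.symm h.2.1))).symm, (isConj_iff.2 ⟨κ, by group⟩ : IsConj _ (w * w)).trans ?_⟩
  rcases h.2.2 with f | f
  exacts [f ▸ IsConj.refl _, isConj_iff.2 ⟨_, f⟩]

theorem iia {N : Subgroup (Perm (Fin (m + 8)))} (hN : ∀ x ∈ X0 A (r m 2), ∀ u ∈ N, x * u * x⁻¹ ∈ N)
    (uq : ∀ u ∈ N, u * u = 1 → u = 1 ∨ u = r m 2) (hy : y ∈ N) (yy : y * y = r m 2) : y ∉ A := fun my => by
  have f := fun i => fix_of_uniq (a := i) hN uq (by unfold H4; rcases hn with rfl | rfl <;> decide +kernel) hy yy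
  have c : Commute (r m 2) y := yy ▸ (Commute.refl y).mul_left (Commute.refl y)
  have my := mem_alternatingGroup.1 my
  rcases hn with rfl | rfl
  · have := det y [(swap 0 1 * swap 2 3, 1985225473)] [(swap 0 2 * swap 1 3 * swap 0 1, 1985220643), (swap 0 1 * swap 0 2 * swap 1 3, 1985216818)]
      [(0, []), (0, [1985225473]), (1, []), (1, [1985225473]), (7, []), (8, []), (9, []), (10, [])] 0 2 0 240 1985225473
      (by decide +kernel) (by decide +kernel) (by simpa [r] using c) (fun i e => f i (by revert i; decide +kernel))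
      (.inr (by rw [yy]; decide +kernel))
    simp only [List.map, List.mem_cons, List.not_mem_nil, or_false] at this
    rcases this with rfl | rfl <;> exact absurd my (by decide +kernel)
  · have := det y [(swap 0 1 * swap 2 3, 11649936532225)] [(swap 0 2 * swap 1 3 * swap 0 1, 11649936527395), (swap 0 1 * swap 0 2 * swap 1 3, 11649936523570)]
      [(0, []), (0, [11649936532225]), (1, []), (1, [11649936532225]), (7, []), (8, []), (9, []), (10, []), (11, []), (12, []), (13, [])] 0 2 0 2032 11649936532225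
      (by decide +kernel) (by decide +kernel) (by simpa [r] using c) (fun i e => f i (by revert i; decide +kernel))
      (.inr (by rw [yy]; decide +kernel))
    simp only [List.map, List.mem_cons, List.not_mem_nil, or_false] at this
    rcases this with rfl | rfl <;> exact absurd my (by decide +kernel)

theorem r4_sq : r m 4 * r m 4 = 1 := (r_spec hn 4 (by decide) (by omega)).1

theorem h3p : H3p (r m 4) := by unfold H3p; rcases hn with rfl | rfl <;> decide +kernel

theorem hf : HF (r m 4) := by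
  have : ∀ a, r m 4 a ≠ a → fl (r m 4) 0 * fl (r m 4) a ∈ X0 A (r m 4) := fun a ha => by
    have : fl (r m 4) 0 * fl (r m 4) a = 1 ∨ ∃ c, sign (swap 0 a * swap 1 (r m 4 a) * swap 0 1 * fl (r m 4) c) = 1 ∧
        swap 0 a * swap 1 (r m 4 a) * swap 0 1 * fl (r m 4) c * r m 4 =
          r m 4 * (swap 0 a * swap 1 (r m 4 a) * swap 0 1 * fl (r m 4) c) ∧ fl (r m 4) 0 * fl (r m 4) a =
        swap 0 a * swap 1 (r m 4 a) * swap 0 1 * fl (r m 4) c * (swap 0 a * swap 1 (r m 4 a) * swap 0 1 * fl (r m 4) c) := by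
      revert a; rcases hn with rfl | rfl <;> decide +kernel
    rcases this with e | ⟨c, e⟩
    exacts [e ▸ one_mem _, sq_X0 hn e]
  intro a b ha hb
  have := mul_mem (inv_mem (this a ha)) (this b hb)
  rwa [mul_inv_rev, mul_assoc, inv_mul_cancel_left, fl, swap_inv] at this

/-- a product of two three-cycles -/
def d3 (m : ℕ) : Perm (Fin (m + 8)) := swap 0 2 * swap 2 4 * swap 1 3 * swap 3 5

theorem d3_spec : d3 m ^ 3 = 1 ∧ Commute (d3 m) (r m 4) := by
  refine ⟨?_, show _ = _ from ?_⟩ <;> rcases hn with rfl | rfl <;> decide +kernel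

theorem iib (yy : y * y = r m 4) : ¬ Cf (r m 4) (y * d3 m * y⁻¹ * (d3 m)⁻¹) := fun h => by
  have c : Commute y (r m 4) := yy ▸ (Commute.refl y).mul_right (Commute.refl y)
  have k : r m 4 6 = 7 ∧ (6 : Fin (m + 8)) ≠ 7 ∧ d3 m 6 = 6 ∧ ∀ a : Fin (m + 8), r m 4 a ≠ a → a ≠ 6 → a ≠ 7 →
      r m 4 (d3 m a) ≠ d3 m a ∧ a ≠ d3 m a ∧ a ≠ r m 4 (d3 m a) := by rcases hn with rfl | rfl <;> decide +kernel
  have e : y (y 6) = 7 := by rw [← Perm.mul_apply, yy, k.1]
  obtain ⟨h1, h2, h3⟩ := k.2.2.2 (y 6) (mv c (by rw [k.1]; exact k.2.1.symm))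
    (fun f => k.2.1 (by rw [← e, f, f])) fun f => k.2.1 (y.injective (by rw [← f] at e ⊢; exact e.symm))
  have := h.pair (r4_sq hn) (h3p hn) h1
  simp only [Perm.mul_apply, inv_ap, k.2.2.1] at this
  exact this.elim h2 h3

omit hn in
theorem p3 {σ : Perm (Fin (3 + 8))} (f : ∀ a, r 3 4 a ≠ a → σ a = a) (m : σ ∈ alternatingGroup (Fin (3 + 8))) :
    σ = 1 ∨ σ = c3 8 9 10 ∨ σ = (c3 8 9 10)⁻¹ := by
  have := det σ [] [(1, 11649936536080), (swap 8 9 * swap 9 10, 9523927724560), (swap 9 10 * swap 8 9, 10490295366160), (swap 8 9, 11585512026640), (swap 9 10, 10619144385040), (swap 8 10, 9459503215120)]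
      [(3, []), (4, []), (5, []), (6, []), (7, []), (8, []), (9, []), (10, []), (0, []), (1, []), (2, [])] 8 9 10 255 0
      (by decide +kernel) (by decide +kernel) (by simp) (fun i e => f i (by revert i; decide +kernel)) (.inl rfl)
  have m := mem_alternatingGroup.1 m
  simp only [List.map, List.mem_cons, List.not_mem_nil, or_false] at this
  rcases this with rfl | rfl | rfl | rfl | rfl | rfl
  exacts [.inl rfl, .inr (.inl rfl), .inr (.inr (by decide +kernel)), absurd m (by decide +kernel),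
    absurd m (by decide +kernel), absurd m (by decide +kernel)]

omit hn in
theorem c3_norm {σ : Perm (Fin (3 + 8))} (c : Commute σ (r 3 4)) :
    σ * c3 8 9 10 * σ⁻¹ = c3 8 9 10 ∨ σ * c3 8 9 10 * σ⁻¹ = (c3 8 9 10)⁻¹ := by
  refine (p3 (fun a ha => ?_) ((alternatingGroup.normal (α := Fin (3 + 8))).conj_mem _
    (mem_alternatingGroup.2 (by decide +kernel)) σ)).resolve_left (by rw [conj_eq_one_iff]; decide +kernel)
  have : ∀ a, r 3 4 a ≠ a → c3 8 9 10 a = a := by decide +kernel
  rw [Perm.mul_apply, Perm.mul_apply, this _ (mv c.inv_left ha), ap_inv]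

end CF.StdZ.Alt
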