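import Cfsg.Agent.StdZ.Fin
import Cfsg.Agent.StdZ.Perm
import Cfsg.Agent.S2119

/-! Standard subgroups which are double covers of the alternating groups of degree eight and eleven. -/

set_option autoImplicit false
set_option maxRecDepth 100000

namespace CF.StdZ.Alt

open Cfsg Equiv Equiv.Perm Subgroup CF.Loc

variable {G : Type*} [Group G] {m : ℕ} {F E : Dt G (Perm (Fin (m + 8)))}

local notation "A" => alternatingGroup (Fin (m + 8))

/-- the lifts of double transpositions have order four -/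
def Q (F : Dt G (Perm (Fin (m + 8)))) : Prop :=
  ∀ l ∈ F.L, ∀ a b c d, [a, b, c, d].Nodup → F.π l = swap a b * swap c d → l * l = F.z

theorem Q.cj (h : Q F) (g : G) : Q (F.cj g) := fun l hl a b c d n e => by
  have := h _ (mem_cj.1 hl) a b c d n e
  show _ = g * F.z * g⁻¹
  rw [← this]; group

theorem nodup_map (κ : Perm (Fin (m + 8))) {a b c d : Fin (m + 8)} (n : [a, b, c, d].Nodup) :
    [κ a, κ b, κ c, κ d].Nodup := n.map κ.injective

theorem Q.tw (h : Q F) (κ : Perm (Fin (m + 8))) : Q (F.tw κ) := fun l hl a b c d n e =>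
  h l hl _ _ _ _ (nodup_map κ⁻¹ n) (by
    rw [← sw_conj, ← sw_conj, conj_mul, ← e]; simp [Dt.tw, mul_assoc])

/-- the action on the points -/
def pL (h : Fr A F) : F.L →* Perm (Fin (m + 8)) := MonoidHom.mk' (fun l => F.π l) fun a b => h.mul (h.cL a.2) (h.cL b.2)

theorem dc (h : Fr A F) (q : Q F) : Recog.DC (pL h) ⟨F.z, h.zL⟩ :=
  ⟨⟨fun e => h.z1 (congrArg Subtype.val e), Subtype.ext h.zz, fun l => Subtype.ext (h.cL l.2).symm, h.πz,
    fun l e => (h.LK l.2 ((h.ker (h.cL l.2)).1 e)).imp Subtype.ext Subtype.ext,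
    fun l => mem_alternatingGroup.1 (h.mem l.2), fun σ e => (h.im σ (mem_alternatingGroup.2 e)).elim fun l a =>
      ⟨⟨l, a.1⟩, a.2⟩⟩, fun l a b c d n e => Subtype.ext (q l l.2 a b c d n e)⟩

theorem sq_mem (σ : Perm (Fin (m + 8))) : σ * σ ∈ A := mem_alternatingGroup.2 (by simp)

/-- a pair of frames of double covers -/
structure AP (F E : Dt G (Perm (Fin (m + 8)))) : Prop extends Pr A F E where
  q : Q F

namespace AP

variable (h : AP F E)
include h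

theorem symm : AP E F := ⟨h.toPr.symm, h.cj.elim fun g e => e ▸ h.q.cj g⟩

theorem tw (κ : Perm (Fin (m + 8))) : AP (F.tw κ) (E.tw κ) := ⟨h.toPr.tw κ, h.q.tw κ⟩

variable (hn : m = 0 ∨ m = 3)
include hn

theorem inner' : E.π F.z ∈ A := by
  obtain ⟨w, hw, c, e⟩ := exists_w hn h.ττ
  obtain ⟨l, hl, rfl⟩ := h.fr.im w hw
  obtain ⟨κ, e⟩ := isConj_iff.1 e.symm
  have c := (h.fr.comm_sq hl h.cm c).symm
  rw [← h.q _ (mul_mem hl hl) _ _ _ _ (nodup_map κ (show [0, 1, 2, 3].Nodup by rcases hn with rfl | rfl <;> decide))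
    (by rw [h.fr.mul (h.fr.cL hl) (h.fr.cL hl), ← e, r, ← conj_mul, sw_conj, sw_conj]), h.fe.mul c c]
  exact sq_mem _

theorem inner : F.π E.z ∈ A := h.symm.inner' hn

theorem fi : FI A (F.π E.z) := Alt.fi hn h.ττ h.τ1 (h.inner hn)

variable [Finite G]

theorem iia' {y : G} (hy : y ∈ E.K) (c : Commute F.z y) (yy : y * y = E.z) (e : F.π E.z = r m 2) : F.π y ∉ A :=
  iia hn (N := h.Kp) (fun x hx u hu => h.Kp_conj hu (e ▸ hx)) (fun u hu uu => e ▸ h.uniq (h.fi hn) hu uu)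
    (h.mem_Kp hy c) (by rw [← h.fr.mul c c, yy, e])

theorem iib' {y : G} (hy : y ∈ E.K) (c : Commute F.z y) (yy : y * y = E.z) (e : F.π E.z = r m 4) : False := by
  obtain ⟨d, hd, e1, e2⟩ := h.fr.odd_lift (mem_of_odd (by decide) (d3_spec hn).1) (by decide) (d3_spec hn).1
  have cd := (h.fr.comm_odd hd h.cm (by rw [e1, e]; exact (d3_spec hn).2) (by decide) e2).symm
  obtain ⟨l, hl, k, hk, f, -, k3, a⟩ := h.fe.split cd (mem_of_odd (m := 3) (by decide) (by rw [← h.fe.pow cd, e2, h.fe.one]))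
    (by decide) e2
  obtain ⟨c1, c2⟩ := a _ h.cm.symm (h.fr.cL hd)
  have m := h.mem_Kp hk c2
  have cf : Cf (r _ 4) (F.π k) := cf_of (r4_sq hn) (hf hn) (e ▸ h.Kp_comm m) (m := 3) (by decide)
    (by rw [← h.fr.pow c2, k3, h.fr.one]) fun x hx xx => e ▸ h.uniq (h.fi hn) (h.Kp_cm m (e ▸ hx)) xx
  refine iib hn (y := F.π y) (by rw [← h.fr.mul c c, yy, e]) fun a b ha hb => ?_
  have : y * d * y⁻¹ * d⁻¹ = y * k * y⁻¹ * k⁻¹ := by
    rw [f, (h.fe.cLK hl hk).eq, ← conj_mul, conj_of_comm (h.fe.cLK hl hy)]; group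
  rw [← e1, ← h.fr.conj c (h.fr.cL hd), ← h.fr.inv (h.fr.cL hd),
    ← h.fr.mul ((c.mul_right (h.fr.cL hd)).mul_right c.inv_right) (h.fr.cL hd).inv_right, this,
    h.fr.mul ((c.mul_right c2).mul_right c.inv_right) c2.inv_right, h.fr.conj c c2, h.fr.inv c2]
  exact (cf.conj (e ▸ h.Kp_comm (h.mem_Kp hy c)) a b ha hb).mul_right (cf a b ha hb).inv_right

omit [Finite G] in
theorem types : ∃ κ, ∃ l ∈ F.L, ∃ k ∈ F.K, E.z = l * k ∧
    (κ * F.π E.z * κ⁻¹ = r m 2 ∧ l * l = F.z ∨ κ * F.π E.z * κ⁻¹ = r m 4 ∧ l * l = 1) := by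
  obtain ⟨κ, i, i6, -, e1, e2⟩ := cls hn h.ττ
  obtain ⟨l, hl, k, hk, e⟩ := h.fr.dec h.cm (h.inner hn)
  have p : F.π E.z = pL h.fr ⟨l, hl⟩ := by rw [e, h.fr.πLK hl hk]; rfl
  obtain ⟨j, a, b⟩ := (dc h.fr h.q).sq_eq ⟨l, hl⟩ (p ▸ h.ττ)
  have b : l * l = F.z ^ j := congrArg Subtype.val b
  rw [← p, e1] at a
  refine ⟨κ, l, hl, k, hk, e, ?_⟩
  obtain rfl | rfl | rfl : j = 0 ∨ j = 1 ∨ j = 2 := by omega
  · obtain rfl : i = 0 := by omega
    exact absurd (by simpa [r] using e2) h.τ1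
  · obtain rfl : i = 2 := by omega
    exact .inl ⟨e2, by simpa using b⟩
  · obtain rfl : i = 4 := by omega
    exact .inr ⟨e2, by rw [b, pow_two, h.fr.zz]⟩

theorem noII {y : G} (hy : y ∈ E.K) (c : Commute F.z y) (yy : y * y = E.z) : F.π y ∉ A ∧ IsConj (F.π E.z) (r m 2) := by
  obtain ⟨κ, l, -, k, -, -, e | e⟩ := h.types hn
  · exact ⟨fun a => (h.tw κ).iia' hn hy c yy e.1 ((alternatingGroup.normal (α := Fin (m + 8))).conj_mem _ a κ),
      isConj_iff.2 ⟨κ, e.1⟩⟩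
  · exact ((h.tw κ).iib' hn hy c yy e.1).elim

theorem type4 : E.z ∈ F.L ∧ IsConj (F.π E.z) (r m 4) := by
  obtain ⟨κ, l, hl, k, hk, e, f⟩ := h.types hn
  have c := h.fr.cLK hl hk
  have ck : Commute E.z k := e ▸ c.mul_left (Commute.refl k)
  have kk : l * l * (k * k) = 1 := by rw [← pow_two, ← pow_two, ← c.mul_pow, ← e, pow_two, h.fe.zz]
  rcases f with f | f
  · refine ((h.symm.noII hn hk ck (by rw [eq_inv_of_mul_eq_one_right kk, f.2, h.fr.zi])).1 ?_).elim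
    obtain ⟨w, hw, w1⟩ : ∃ w ∈ A, w * w = r m 2 := ⟨swap 0 2 * swap 1 3 * swap 0 1 * swap 4 5,
      mem_alternatingGroup.2 (by rcases hn with rfl | rfl <;> decide +kernel), by rcases hn with rfl | rfl <;> decide +kernel⟩
    obtain ⟨x, hx, w2⟩ := h.fr.im _ ((alternatingGroup.normal (α := Fin (m + 8))).conj_mem' _ hw κ)
    have w3 : F.π (x * x) = F.π E.z := by
      rw [h.fr.mul (h.fr.cL hx) (h.fr.cL hx), w2]
      calc _ = κ⁻¹ * (w * w) * κ := by group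
        _ = _ := by rw [w1, ← f.1]; group
    have cx := (h.fr.comm_X0 h.cm hx (root_mem_X0 (n := 2) (h.fr.mem hx)
      (by rw [← h.fr.pow (h.fr.cL hx), pow_two, w3]))).symm
    have cl : Commute E.z l := e ▸ (Commute.refl l).mul_left c.symm
    have : E.π l ∈ A := by
      rcases h.fr.eqL (mul_mem hx hx) hl (w3.trans (by rw [e, h.fr.πLK hl hk])) with a | a <;> rw [a]
      · rw [h.fe.mul cx cx]; exact sq_mem _
      · rw [h.fe.mul (cx.mul_right cx) h.cm.symm, h.fe.mul cx cx]; exact mul_mem (sq_mem _) (h.inner' hn)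
    have e2 := h.fe.πz
    rw [e, h.fe.mul cl ck] at e2
    rw [eq_inv_of_mul_eq_one_right e2]
    exact inv_mem this
  · refine ⟨?_, isConj_iff.2 ⟨κ, f.1⟩⟩
    rcases h.symm.uniq' (h.symm.fi hn) hk ck (by rwa [f.2, one_mul] at kk) with a | a <;> rw [e, a]
    exacts [by simpa using hl, mul_mem hl h.fr.zL]

theorem sm : F.Sm := by
  by_contra n
  obtain ⟨y, hy, c, yy⟩ := h.root (h.fi hn) (h.inner' hn) (mt h.sm_iff.1 n)
  have := ((h.noII hn hy c yy).2.symm.trans (h.type4 hn).2)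
  rw [isConj_iff_cycleType_eq] at this
  have := congrArg Multiset.sum this
  rw [sum_cycleType, sum_cycleType, (r_spec hn 2 (by decide) (by omega)).2, (r_spec hn 4 (by decide) (by omega)).2] at this
  omega

theorem tz : ∃ c ∈ F.L, c * E.z * c⁻¹ = E.z * F.z := by
  obtain ⟨c, e⟩ := (dc h.fr h.q).conj_mul_t (z := ⟨_, (h.type4 hn).1⟩) h.ττ h.τ1
  exact ⟨c, c.2, congrArg Subtype.val e⟩

theorem conj_t {v : G} (hv : v ∈ F.L) (vv : v * v = 1) (v1 : v ≠ 1) : v = F.z ∨ ∃ l ∈ F.L, l * E.z * l⁻¹ = v := by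
  by_cases e : F.π v = 1
  · exact .inl ((h.fr.LK hv ((h.fr.ker (h.fr.cL hv)).1 e)).resolve_left v1)
  have D := dc h.fr h.q
  have c : ∀ {x} (hx : x ∈ F.L), x * x = 1 → F.π x ≠ 1 → (pL h.fr ⟨x, hx⟩).support.card = 8 := fun {x} hx xx e => by
    have := D.card_support (z := ⟨x, hx⟩) (Subtype.ext xx)
    have a : (pL h.fr ⟨x, hx⟩).support.card ≤ m + 8 := (Finset.card_le_univ _).trans (by simp)
    have b : (pL h.fr ⟨x, hx⟩).support.card ≠ 0 := fun b => e (card_support_eq_zero.1 b)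
    omega
  obtain ⟨l, f⟩ := D.exists_conj (x := ⟨_, (h.type4 hn).1⟩) (y := ⟨v, hv⟩) h.ττ
    (by rw [← map_mul]; exact (congrArg F.π vv).trans h.fr.one) e
    ((c _ h.fe.zz h.τ1).trans (c hv vv e).symm)
  exact .inr ⟨l, l.2, congrArg Subtype.val f⟩

theorem all_inner (n : ∀ H : Subgroup G, H.Normal → H.index ≠ 2) {c : G} (hc : Commute F.z c) : F.π c ∈ A := by
  by_contra a
  have i : (A).index = 2 := alternatingGroup.index_eq_two
  have r1 : r m 1 ∉ A := fun e => absurd (mem_alternatingGroup.1 e) (by rcases hn with rfl | rfl <;> decide +kernel)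
  have s := h.sm hn
  obtain ⟨u, uu, cu, nu⟩ : ∃ u, u * u = 1 ∧ Commute F.z u ∧ F.π u ∉ A := by
    obtain ⟨l, hl, e⟩ := h.fr.im _ ((mul_mem_iff_of_index_two i (a := r m 1) (b := (F.π c)⁻¹)).2 (by simp [a, r1]))
    have c1 := (h.fr.cL hl).mul_right hc
    obtain ⟨j, k, o, e1⟩ := exists_two (l * c)
    have c2 := c1.pow_right j
    have rr := (r_spec hn 1 (by decide) (by omega)).1
    have e2 : F.π ((l * c) ^ j) = r m 1 := by
      rw [h.fr.pow c1, h.fr.mul (h.fr.cL hl) hc, e, inv_mul_cancel_right, pow_odd rr o]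
    generalize (l * c) ^ j = x at *
    rcases s (x * x) ((h.fr.ker (c2.mul_right c2)).1 (by rw [h.fr.mul c2 c2, e2, rr])) k
      (by rw [(Commute.refl x).mul_pow, e1, one_mul]) with d | d
    · exact ⟨x, d, c2, e2 ▸ r1⟩
    · obtain ⟨w, w1, w2, w3⟩ : ∃ w : Perm (Fin (m + 8)), sign w = 1 ∧ w * r m 1 = r m 1 * w ∧
          w * w = swap 2 3 * swap 4 5 ∧ [(2 : Fin (m + 8)), 3, 4, 5].Nodup :=
        ⟨swap 2 4 * swap 3 5 * swap 2 3 * swap 6 7, by rcases hn with rfl | rfl <;> decide +kernel⟩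
      obtain ⟨y, hy, rfl⟩ := h.fr.im w (mem_alternatingGroup.2 w1)
      have c3 := h.fr.comm_sq hy c2 (e2 ▸ w2)
      have m := mul_mem hy hy
      refine ⟨y * y * x, ?_, (h.fr.cL m).mul_right c2, fun f => r1 ?_⟩
      · rw [← pow_two, c3.mul_pow, pow_two, pow_two x, d,
          h.q _ m _ _ _ _ w3.2 ((h.fr.mul (h.fr.cL hy) (h.fr.cL hy)).trans w3.1), h.fr.zz]
      · rwa [h.fr.mul (h.fr.cL m) c2, mul_mem_cancel_left (h.fr.mem m), e2] at f
  have u1 : u ≠ 1 := fun e => nu (by rw [e, h.fr.one]; exact one_mem _)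
  obtain ⟨g, c1, c2⟩ := h.fr.thompson n i (fun T hT => h.fr.syl_top hT fun E p =>
    ((AP.mk p h.q).tz hn).imp fun c a => ⟨h.fr.cL a.1, a.2⟩) (ord2 uu u1) cu
  have vv : g * u * g⁻¹ * (g * u * g⁻¹) = 1 := by rw [conj_mul, uu]; simp
  obtain ⟨x, e⟩ : ∃ x, x * F.z * x⁻¹ = u := isConj_iff.1 (IsConj.trans (by
    rcases h.conj_t hn (h.fr.inv_mem_L s c1 c2 vv) vv (by simpa using u1) with e | ⟨l, -, e⟩
    exacts [e ▸ IsConj.refl _, h.conj.trans (isConj_iff.2 ⟨l, e⟩)]) (isConj_iff.2 ⟨g, rfl⟩).symm)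
  subst e
  exact nu ((AP.mk (h.fr.pr cu fun e => nu (by rw [e, h.fr.πz]; exact one_mem _)) h.q).inner hn)

omit [Finite G] in
theorem fix_of {σ : Perm (Fin (m + 8))} {j : ℕ} (o : Odd j) (e : σ ^ j = 1) (c : Commute σ (r m 4))
    (k : ∀ x ∈ X0 A (r m 4), Odd (orderOf (x * σ * x⁻¹ * σ⁻¹))) (a : Fin (m + 8)) (ha : r m 4 a ≠ a) : σ a = a :=
  (cf_of (r4_sq hn) (hf hn) c o e fun x hx xx => .inl (eq_one_of_odd (k x hx) (k := 1) (by rwa [pow_one, pow_two]))).fix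
    (r4_sq hn) (h3p hn) c o e ha

theorem fixO (e : E.π F.z = r m 4) {k : G} (hk : k ∈ F.K) (o : Odd (orderOf k)) (a : Fin (m + 8)) (ha : r m 4 a ≠ a) :
    E.π k a = a := by
  have ck := h.fr.cLK (h.type4 hn).1 hk
  obtain ⟨O, -, b⟩ := h.fr.exists_O (h.sm hn)
  refine h.fix_of hn o (by rw [← h.fe.pow ck, pow_orderOf_eq_one, h.fe.one])
    (e ▸ h.fe.comm ck h.cm.symm (h.fr.cK hk).symm) (fun x hx => ?_) a ha
  obtain ⟨l, hl, c, rfl⟩ := h.fe.lift_X0 h.cm.symm (e ▸ hx)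
  have cl := h.fe.cL hl
  have c2 := ((cl.mul_right ck).mul_right cl.inv_right).mul_right ck.inv_right
  have := ((b _).1 (mul_mem ((b _).2 ⟨h.fr.nK c.symm hk, (ord_cj l k).symm ▸ o⟩) (inv_mem ((b _).2 ⟨hk, o⟩)))).2
  rw [← h.fe.conj cl ck, ← h.fe.inv ck, ← h.fe.mul ((cl.mul_right ck).mul_right cl.inv_right) ck.inv_right]
  exact this.of_dvd_nat (orderOf_dvd_of_pow_eq_one (by rw [← h.fe.pow c2, pow_orderOf_eq_one, h.fe.one]))

end AP

theorem odd_le8 [Finite G] {F E : Dt G (Perm (Fin (0 + 8)))} (h : AP F E) {k : G} (hk : k ∈ F.K) (o : Odd (orderOf k)) :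
    k ∈ E.K := by
  obtain ⟨κ, e⟩ := isConj_iff.1 (h.symm.type4 (.inl rfl)).2
  have := (h.tw κ).fixO (.inl rfl) e hk o
  exact ((h.tw κ).fe.ker (h.fr.cLK (h.type4 (.inl rfl)).1 hk)).1 (Equiv.ext fun a => this a (by revert a; decide +kernel))

theorem odd_le11 [Finite G] {F E : Dt G (Perm (Fin (3 + 8)))} (h : AP F E) {k : G} (hk : k ∈ F.K) (o : Odd (orderOf k)) :
    k ∈ E.K := by
  have hn : 3 = 0 ∨ 3 = 3 := .inr rfl
  obtain ⟨κ, e⟩ := isConj_iff.1 (h.symm.type4 hn).2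
  obtain ⟨μ, f⟩ := isConj_iff.1 (h.type4 hn).2
  have h1 := h.tw κ
  have h2 := h.tw μ
  change (E.tw κ).π (F.tw κ).z = _ at e
  change (F.tw μ).π E.z = _ at f
  have ck := h.fr.cLK (h.type4 hn).1 hk
  have cc : c3 (8 : Fin (3 + 8)) 9 10 ^ 3 = 1 := by decide +kernel
  obtain ⟨c, hc, c1, c2⟩ := h2.fr.odd_lift (mem_of_odd (by decide) cc) (by decide) cc
  have ct : Commute E.z c := (h2.fr.comm_odd hc h.cm (by rw [c1, f]; show _ = _; decide +kernel) (by decide) c2).symm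
  have lift : ∀ {x}, Commute F.z x → ((F.tw μ).π x * c3 8 9 10 * ((F.tw μ).π x)⁻¹ = (c3 8 9 10)⁻¹ → x * c * x⁻¹ = c⁻¹) ∧
      (Commute ((F.tw μ).π x) (r 3 4) → x * c * x⁻¹ = c ∨ x * c * x⁻¹ = c⁻¹) := fun {x} cx => by
    have t : ∀ y ∈ F.L, y ^ 3 = 1 → (F.tw μ).π x * c3 8 9 10 * ((F.tw μ).π x)⁻¹ = (F.tw μ).π y → x * c * x⁻¹ = y :=
      fun y hy y3 a => by
        refine (h2.fr.eqL hy (h.fr.nL cx hc) (by rw [h2.fr.conj cx (h.fr.cL hc), c1, a])).resolve_right fun b => ?_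
        have := congrArg (· ^ 3) b
        simp only [conj_pow, c2, (h2.fr.cL hy).symm.mul_pow, y3, pow_odd h2.fr.zz (show Odd 3 by decide)] at this
        exact h2.fr.z1 (by simpa using this.symm)
    have t2 := t c⁻¹ (inv_mem hc) (by rw [inv_pow, c2, inv_one])
    rw [h2.fr.inv (h.fr.cL hc), c1] at t2
    exact ⟨t2, fun a => (c3_norm a).imp (fun b => t c hc c2 (b.trans c1.symm)) t2⟩
  by_contra n
  have ω1 : (E.tw κ).π k ≠ 1 := fun a => n ((h1.fe.ker ck).1 a)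
  have ω := (p3 (h1.fixO hn e hk o) (mem_of_odd o (by rw [← h1.fe.pow ck, pow_orderOf_eq_one, h1.fe.one]))).resolve_left ω1
  have γ3 : (E.tw κ).π c ^ 3 = 1 := by rw [← h1.fe.pow ct, c2, h1.fe.one]
  have γ := p3 (h1.fix_of hn (by decide) γ3 (e ▸ h1.fe.comm ct h.cm.symm (h.fr.cL hc).symm) fun x hx => by
    obtain ⟨l, hl, a, rfl⟩ := h1.fe.lift_X0 h.cm.symm (e ▸ hx)
    have cl := h1.fe.cL hl
    rw [← h1.fe.conj cl ct]
    rcases (lift a.symm).2 (f ▸ h2.fr.comm a.symm h.cm cl.symm) with b | b <;> rw [b]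
    · simp
    · refine Odd.of_dvd_nat (show Odd 3 by decide) (orderOf_dvd_of_pow_eq_one ?_)
      rw [h1.fe.inv ct, (Commute.refl _).mul_pow, inv_pow, γ3]; simp) (mem_of_odd (by decide) γ3)
  obtain ⟨ε, ε1, ε2, ε3⟩ : ∃ ε : Perm (Fin (3 + 8)), sign ε = 1 ∧ ε ^ 4 = r 3 4 ∧ ε * c3 8 9 10 * ε⁻¹ = (c3 8 9 10)⁻¹ :=
    ⟨swap 0 7 * swap 0 5 * swap 0 3 * swap 0 1 * swap 0 6 * swap 0 4 * swap 0 2 * swap 8 9, by decide +kernel⟩
  obtain ⟨x, hx, rfl⟩ := h2.fr.im ε (mem_alternatingGroup.2 ε1)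
  have cx := (h2.fr.comm_X0 h.cm hx (root_mem_X0 (h2.fr.mem hx) (ε2.trans f.symm))).symm
  have x1 := congrArg (E.tw κ).π ((lift (h.fr.cL hx)).1 ε3)
  rw [h1.fe.conj cx ct, h1.fe.inv ct] at x1
  have x2 : Commute ((E.tw κ).π x) (c3 8 9 10) := by
    have := h1.fe.comm cx ck (h.fr.cLK hx hk)
    rcases ω with a | a <;> rw [a] at this
    exacts [this, by simpa using this]
  have cK : c ∈ E.K := (h1.fe.ker ct).1 (γ.resolve_right fun a => by
    rcases a with a | a <;> rw [a] at x1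
    · rw [conj_of_comm x2.symm] at x1; exact absurd x1 (by decide +kernel)
    · rw [conj_of_comm x2.symm.inv_left] at x1; exact absurd x1 (by decide +kernel))
  obtain ⟨y, hy, y1⟩ := h.tz hn
  obtain ⟨w, hw, w1⟩ := h.symm.tz hn
  obtain ⟨g, rfl⟩ := h.cj
  have cy := h.fr.cL hy
  have k1 : y * c * y⁻¹ ∈ (F.cj (y * g)).K := by rw [← Dt.cj_cj]; exact conj_mem_cj y cK
  rw [(h.fr.cj_eq (b := w) (by rw [← conj_conj', w1, h.cm.eq]; exact y1)).2] at k1
  have k2 : c ∈ (F.cj w).K := by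
    rcases (lift cy).2 (f ▸ (comm_of_conj (by
      rw [← h2.fr.conj cy h.cm]
      exact (congrArg _ y1).trans ((h2.fr.mul h.cm (Commute.refl _)).trans (by rw [h2.fr.πz, mul_one])))).symm)
      with a | a <;> rw [a] at k1
    exacts [k1, inv_mem_iff.1 k1]
  have k3 := mem_cj.1 k2
  rw [mul_assoc, ← (h.fe.cLK hw cK).eq, inv_mul_cancel_left] at k3
  exact absurd (c1.symm.trans (h2.fr.πK k3)) (by decide +kernel)

theorem cent [Finite G] [IsSimpleGroup G] (hG : ¬ IsMulCommutative G) (hn : m = 0 ∨ m = 3) {L : Subgroup G}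
    (hL : IsStandardSubgroup L) (hX : IsNonsplitDoubleCover L A) :
    ∃ z : G, orderOf z = 2 ∧ IsNonsplitDoubleCover (centralizer {z}) A := by
  obtain ⟨p, t, D, hc⟩ := Recog.exists_dc hX
  have b := Cfsg.Agent.S2119.result (m + 8) (by omega) (by omega)
  obtain ⟨F, h, rfl, -, hπ, -⟩ := exists_fr hL hX.1 (S0 := A) p
    (by ext σ; exact ⟨fun ⟨l, e⟩ => e ▸ mem_alternatingGroup.2 (D.sgn l), fun e => D.surj σ (mem_alternatingGroup.1 e)⟩)
    (by ext l; exact ⟨fun e => (hc l).2 (D.ker l e), fun e => by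
      rcases (hc l).1 e with rfl | rfl
      exacts [one_mem _, D.πt]⟩)
    (fun α => (b.2 α).imp fun s e x => by rw [← e]; rfl)
    fun s hs => b.1 (by
      ext x : 2
      rw [map_one]
      exact conj_of_comm (hs x x.2).symm)
  have tz : t.1 = F.z := (h.LK t.2 ((h.ker (h.cL t.2)).1 ((hπ t).trans D.πt))).resolve_left fun e => D.ne (Subtype.ext e)
  have q : Q F := fun l hl a b c d n e =>
    (congrArg Subtype.val (D.q ⟨l, hl⟩ a b c d n ((hπ ⟨l, hl⟩).symm.trans e))).trans tz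
  obtain ⟨E, pr⟩ := h.exists_pr' hG
  have k : AP F E := ⟨pr, q⟩
  have i : ∀ c, Commute F.z c → F.π c ∈ A := fun c => k.all_inner hn fun H n => no_two hG H
  have s := k.sm hn
  refine ⟨F.z, h.oz, h.cent_eq (fun x => h.K_le (h.odd_bot s fun v o c => ?_) s) i ▸ hX⟩
  refine or_iff_not_imp_left.2 fun n => ?_
  obtain ⟨g, rfl⟩ : ∃ g, g * F.z * g⁻¹ = v := isConj_iff.1 (by
    obtain ⟨l, -, e⟩ := (k.conj_t hn (h.inv_mem_L s c (i v c) (sq_of o)) (sq_of o) (ne_of o)).resolve_left n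
    exact pr.conj.trans (isConj_iff.2 ⟨l, e⟩))
  refine ⟨g, rfl, fun x hx ox => ?_⟩
  rcases hn with rfl | rfl
  exacts [odd_le8 ⟨h.pr c n, q⟩ hx ox, odd_le11 ⟨h.pr c n, q⟩ hx ox]

end CF.StdZ.Alt
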