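import Cfsg.Agent.StdZ.E8E
import Cfsg.Agent.Recog.Stem
import Cfsg.Agent.Invol.Count

/-! A standard double cover of the orthogonal group of plus type in dimension eight over the field with two elements. -/

set_option autoImplicit false
set_option maxRecDepth 100000

namespace CF.StdZ.E8

open Cfsg Subgroup CF.Comp CF.Bt CF.Schur CF.Loc CF.Recog Function

/-- a perfect double cover -/
structure Dc {L K : Type*} [Group L] [Group K] (σ : L →* K) : Prop where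
  st : IsStemExtension σ
  pf : _root_.commutator L = ⊤
  c2 : Nat.card σ.ker = 2

section

variable {E K L M : Type*} [Group E] [Group K] [Group L] [Group M] {ε : E →* K}
  (α : mul ε ≃* Multiplicative (ZMod 2 × ZMod 2))

/-- the element of the multiplier killed by the lift -/
def Kl (φ : E →* L) (n : Multiplicative (ZMod 2 × ZMod 2)) : Prop :=
  ∀ x : _root_.commutator E, φ x = 1 ↔ ∃ h : x.1 ∈ mul ε, α ⟨x, h⟩ = 1 ∨ α ⟨x, h⟩ = n

theorem Dc.exists_kl (hε : IsCov ε) {σ : L →* K} (h : Dc σ) : ∃ φ : E →* L, σ.comp φ = ε ∧ ∃ n, n ≠ 1 ∧ Kl α φ n := by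
  obtain ⟨φ, e⟩ := hε.exists_lift' (stem_cext h.st)
  let μ := (mulMap φ (MonoidHom.id K) e).comp α.symm.toMonoidHom
  have hs : Surjective μ := (mulMap_surjective h.st.2.1 hε.toCExt.1 e).comp α.symm.surjective
  have c := μ.ker.card_mul_index
  rw [index_ker, MonoidHom.range_eq_top.2 hs, card_top, show Nat.card (mul σ) = 2 from stem_mul h.st ▸ h.c2,
    show Nat.card (Multiplicative (ZMod 2 × ZMod 2)) = 2 * 2 by simp] at c
  obtain ⟨n, n1, hn⟩ := (Nat.card_eq_two_iff' (1 : μ.ker)).1 (Nat.eq_of_mul_eq_mul_right two_pos c)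
  refine ⟨φ, e, n, fun e => n1 (Subtype.ext e), fun x => ⟨fun hx => ⟨mem_mul.2 ⟨by
    rw [← e, MonoidHom.comp_apply, hx, map_one], x.2⟩, or_iff_not_imp_left.2 fun k => congrArg Subtype.val
      (hn ⟨_, Subtype.ext (by simpa [μ, coe_mulMap] using hx)⟩ fun a => k (congrArg Subtype.val a))⟩, fun ⟨hx, k⟩ => ?_⟩⟩
  have : α ⟨x, hx⟩ ∈ μ.ker := by
    rcases k with k | k <;> rw [k]
    exacts [one_mem _, n.2]
  simpa [μ, coe_mulMap] using congrArg Subtype.val this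

theorem Kl.equiv (hε : Surjective ε) {σ : L →* K} {τ : M →* K} (h : Dc σ) (k : Dc τ) {φ : E →* L} {ψ : E →* M}
    (a : σ.comp φ = ε) (b : τ.comp ψ = ε) {n} (p : Kl α φ n) (q : Kl α ψ n) : ∃ e : M ≃* L, ∀ x, σ (e x) = τ x := by
  obtain ⟨e, he⟩ := exists_equiv_of_ker (stem_surj hε k.st b k.pf) (stem_surj hε h.st a h.pf)
    (Subgroup.ext fun x => (q x).trans (p x).symm)
  refine ⟨e, fun y => ?_⟩
  obtain ⟨x, rfl⟩ := stem_surj hε k.st b k.pf y
  rw [he]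
  exact (DFunLike.congr_fun a x.1).trans (DFunLike.congr_fun b x.1).symm

theorem three [Finite K] (hA : HasSchurMultiplier K (Multiplicative (ZMod 2 × ZMod 2))) {σ : L →* K} (hσ : Dc σ)
    {τ : Fin 3 → M →* K} (hτ : ∀ i, Dc (τ i)) (hd : ∀ i j, (∃ e : M ≃* M, ∀ x, τ j (e x) = τ i x) → i = j) :
    Nonempty (M ≃* L) := by
  have hε := isCov_taut K
  obtain ⟨α⟩ := hε.hasSchurMultiplier_iff.1 hA
  obtain ⟨φ, a, n, n1, p⟩ := hσ.exists_kl α hε
  choose ψ b l l1 q using fun i => (hτ i).exists_kl α hε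
  have d : ∀ i j, l i = l j → i = j := fun i j e =>
    hd i j (Kl.equiv α hε.toCExt.1 (hτ j) (hτ i) (b j) (b i) (q j) (e ▸ q i))
  obtain ⟨i, e⟩ : ∃ i, l i = n := by
    have : ∀ n a b c : ZMod 2 × ZMod 2, n ≠ 0 ∧ a ≠ 0 ∧ b ≠ 0 ∧ c ≠ 0 ∧ a ≠ b ∧ a ≠ c ∧ b ≠ c →
      a = n ∨ b = n ∨ c = n := fun n a => by revert n a; set_option synthInstance.maxSize 1000 in decide
    rcases this n _ _ _ ⟨n1, l1 0, l1 1, l1 2, mt (d 0 1) (by decide), mt (d 0 2) (by decide),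
      mt (d 1 2) (by decide)⟩ with e | e | e <;> exact ⟨_, e⟩
  exact ⟨(Kl.equiv α hε.toCExt.1 hσ (hτ i) a (b i) p (e ▸ q i)).choose⟩

end

theorem perfH : _root_.commutator HH = ⊤ := by
  apply map_injective HH.subtype_injective
  rw [map_subtype_commutator, ← MonoidHom.range_eq_map, range_subtype]
  refine le_antisymm (commutator_le.2 fun a ha b hb => mul_mem (mul_mem (mul_mem ha hb) (inv_mem ha)) (inv_mem hb))
    (clo_le.2 fun w hw => ?_)
  obtain ⟨i, hi, rfl⟩ := mem_gensW' hw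
  have := allFrom_zero.1 hpc i hi
  simp only [lall_iff, List.forall_mem_cons] at this
  rw [he _ _ this.2.2.1, ev_cmW]
  exact commutator_mem_commutator (hH _ this.1) (hH _ this.2.1)

variable {K : Type*} [Group K] [IsSimpleGroup K] {x : ℕ → K} (hx : ∀ r ∈ O82.relsp, ev x r = 1)
  (ht : clo x (gensW 8) = ⊤) (hc : Nat.card K = 174182400)
include hx ht hc

theorem exists_psi {T : List (List ℕ)} (h : relM T = true) : ∃ ψ : HH →* K, Dc ψ ∧ (∀ y, ψ y = 1 ↔ y.1 = 1 ∨ y.1 = mm) ∧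
    ∀ w, wordIn (gensW 8) w = true → ∀ y : HH, y.1 = ev g0 (subst T w) → ψ y = ev x w := by
  obtain ⟨h1, h2, h3⟩ := relM_spec h
  obtain ⟨φ, i, e, k⟩ := (O82.bndp (ug_rels _)).exists_inj hx ht hc h3 (w := [1]) (by decide +kernel) h2
  have r : φ.range = HH.map (QuotientGroup.mk' _) := Comp.eq_of_le_of_card_le
    (e.le.trans (clo_le.2 fun w _ => ev_mem (fun i => mem_map_of_mem _ (h1 i)) w)) (by
      rw [← Nat.card_congr (φ.ofInjective i).toEquiv, hc]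
      exact (card_le_of_le (map_le_iff_le_comap.2 H_le)).trans (O82.bndp (relM_spec hY0).2.2).2)
  let ψ : HH →* K := (φ.ofInjective i).symm.toMonoidHom.comp
    (((QuotientGroup.mk' _).comp HH.subtype).codRestrict φ.range fun y => r.ge (mem_map_of_mem _ y.2))
  have p : ∀ y, φ (ψ y) = QuotientGroup.mk' _ y.1 := fun y => MonoidHom.apply_ofInjective_symm i _
  have q : ∀ y, ψ y = 1 ↔ y.1 = 1 ∨ y.1 = mm := fun y => by
    rw [← mem_m, ← QuotientGroup.eq_one_iff, ← map_eq_one_iff φ i, p]; rfl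
  refine ⟨ψ, ⟨⟨fun s => ?_, fun y hy => mem_center_iff.2 fun g => Subtype.ext ?_, perfH ▸ le_top⟩, perfH, ?_⟩, q,
    fun w hw y e => i (by rw [p, k w hw, ev_gq, e])⟩
  · obtain ⟨y, hy, e⟩ := r.le ⟨s, rfl⟩
    exact ⟨⟨y, hy⟩, i ((p _).trans e)⟩
  · rcases (q y).1 hy with e | e <;> rw [coe_mul, coe_mul, e]
    exacts [by simp, (mc _).symm]
  · exact (Nat.card_eq_two_iff' 1).2 ⟨⟨⟨mm, mH⟩, (q _).2 (.inr rfl)⟩, fun e => m1 (congrArg (·.1.1) e),
      fun y hy => Subtype.ext (Subtype.ext (((q _).1 y.2).resolve_left fun e => hy (Subtype.ext (Subtype.ext e))))⟩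

theorem exists_three : ∃ τ : Fin 3 → HH →* K, (∀ i, Dc (τ i)) ∧ (∀ i y, τ i y = 1 ↔ y.1 = 1 ∨ y.1 = mm) ∧
    ∀ i j, (∃ e : HH ≃* HH, ∀ x, τ j (e x) = τ i x) → i = j := by
  obtain ⟨ψ0, a0, b0, c0⟩ := exists_psi hx ht hc hY0
  obtain ⟨ψ1, a1, b1, c1⟩ := exists_psi hx ht hc hY1
  obtain ⟨ψ2, a2, b2, c2⟩ := exists_psi hx ht hc hY2
  have key : ∀ {S T : List (List ℕ)} {φ ψ : HH →* K} {u : List ℕ}, relM S = true → relM T = true →
      (∀ y, ψ y = 1 ↔ y.1 = 1 ∨ y.1 = mm) → (∀ y : HH, y.1 = ev g0 (subst S u) → φ y = ev x u) →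
      (∀ y : HH, y.1 = ev g0 (subst T u) → ψ y = ev x u) → sameW NN 240 8 (subst S (lapp u u)) [] = true →
      sameW NN 240 8 (subst T (lapp u u)) [27] = true → ¬ ∃ e : HH ≃* HH, ∀ x, ψ (e x) = φ x :=
    fun {S T φ ψ u} s t b c d p q ⟨e, k⟩ => by
      have m := fun {S} (s : relM S = true) => ev_evs (f := g0) S u ▸ ev_mem (relM_spec s).1 u
      have p := he _ _ p
      have q := he _ _ q
      rw [← ev_evs, ev_lapp, ev_evs] at p q
      have := (b ((e ⟨_, m s⟩)⁻¹ * ⟨_, m t⟩)).1 (by rw [map_mul, map_inv, k, c _ rfl, d _ rfl, inv_mul_cancel])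
      have z : (e ⟨_, m s⟩).1 * (e ⟨_, m s⟩).1 = 1 := by
        rw [← coe_mul, ← map_mul, show (⟨_, m s⟩ : HH) * ⟨_, m s⟩ = 1 from Subtype.ext p, map_one]; rfl
      simp only [coe_mul, coe_inv, inv_mul_eq_iff_eq_mul] at this
      refine m1 (q.symm.trans ?_)
      rcases this with e | e <;> rw [e]
      exacts [by rw [mul_one, z], by rw [← (mc _).eq, w0.msq, z]]
  have sy : ∀ {φ ψ : HH →* K}, (∃ e : HH ≃* HH, ∀ x, ψ (e x) = φ x) → ∃ e : HH ≃* HH, ∀ x, φ (e x) = ψ x :=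
    fun ⟨e, k⟩ => ⟨e.symm, fun x => by rw [← k, e.apply_symm_apply]⟩
  have k := hu
  simp only [lall_iff, List.forall_mem_cons] at k
  obtain ⟨k1, k2, k3, k4, k5, k6, -⟩ := k
  have w1 : wordIn (gensW 8) [1] = true := by decide +kernel
  have n1 := key (u := [1]) hY0 hY1 b1 (c0 _ w1) (c1 _ w1) k2 k3
  have n2 := key (u := [1]) hY0 hY2 b2 (c0 _ w1) (c2 _ w1) k2 k4
  have n3 := key hY1 hY2 b2 (c1 _ k1) (c2 _ k1) k5 k6
  refine ⟨![ψ0, ψ1, ψ2], fun i => by fin_cases i <;> assumption, fun i => by fin_cases i <;> assumption, fun i j e => ?_⟩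
  fin_cases i <;> fin_cases j
  exacts [rfl, (n1 e).elim, (n2 e).elim, (n1 (sy e)).elim, rfl, (n3 e).elim, (n2 (sy e)).elim, (n3 (sy e)).elim, rfl]

theorem autH (ho : Nat.card (Out K) = 6) (β : HH ≃* HH) : ∃ w : WW, ∀ y : HH, (β y).1 = w * y * w⁻¹ := by
  obtain ⟨τ, a, b, c⟩ := exists_three hx ht hc
  have s := (a 0).st.1
  let A : Subgroup (MulAut K) :=
    { carrier := {α | ∃ e : HH ≃* HH, ∀ y, τ 0 (e y) = α (τ 0 y)}
      one_mem' := ⟨.refl _, fun _ => rfl⟩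
      mul_mem' := fun ⟨e, k⟩ ⟨e', k'⟩ => ⟨e'.trans e, fun y => by rw [MulEquiv.trans_apply, k, k']; rfl⟩
      inv_mem' := fun ⟨e, k⟩ => ⟨e.symm, fun y => (MulEquiv.eq_symm_apply _).2 (by rw [← k, e.apply_symm_apply])⟩ }
  have ind : ∀ e : HH ≃* HH, ∃ α : MulAut K, ∀ y, τ 0 (e y) = α (τ 0 y) := fun e => by
    have z : ∀ e : HH ≃* HH, ∀ y, τ 0 y = 1 → τ 0 (e y) = 1 := fun e y h => (b 0 _).2 (w0.cen _ fun g hg => by
      obtain ⟨g', k⟩ := e.surjective ⟨g, hg⟩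
      have := congrArg (fun t => (e t).1) (mem_center_iff.1 ((a 0).st.2.1 h) g')
      simp only [map_mul, k, coe_mul] at this
      exact this.symm)
    exact (exists_equiv_of_ker s (ψ₂ := (τ 0).comp e.toMonoidHom) (s.comp e.surjective) (Subgroup.ext fun y =>
      ⟨z e y, fun h => by simpa using z e.symm _ h⟩)).imp fun _ k y => (k y).symm
  have un : ∀ {e : HH ≃* HH} {w : WW}, (∀ y, τ 0 (e y) = τ 0 ⟨_, w0.cj y.2 w⟩) → ∀ y, (e y).1 = w * y * w⁻¹ :=
    fun {e w} h y => congrArg Subtype.val (DFunLike.congr_fun (eq_of_perfect (a 0).st.2.1 (φ := e.toMonoidHom)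
      (ψ := (HH.normalizerMonoidHom ⟨w, (normalizer_eq_top_iff.2 (normal_of_index_eq_two idx)).ge trivial⟩).toMonoidHom)
      (MonoidHom.ext h) perfH) y)
  have inn : ∀ {e : HH ≃* HH} {α : MulAut K}, α ∈ Inn K → (∀ y, τ 0 (e y) = α (τ 0 y)) →
      ∃ w ∈ HH, ∀ y, (e y).1 = w * y * w⁻¹ := by
    rintro e _ ⟨k, rfl⟩ h
    obtain ⟨w, rfl⟩ := s k
    exact ⟨w, w.2, un fun y => by rw [h, MulAut.conj_apply, ← map_inv, ← map_mul, ← map_mul]; rfl⟩
  have le : Inn K ≤ A := by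
    rintro _ ⟨k, rfl⟩
    obtain ⟨w, rfl⟩ := s k
    exact ⟨MulAut.conj w, fun y => by simp⟩
  let ρ := HH.normalizerMonoidHom ⟨ev g0 [17], (normalizer_eq_top_iff.2 (normal_of_index_eq_two idx)).ge trivial⟩
  obtain ⟨α, hα⟩ := ind ρ
  have nα : α ∉ Inn K := fun h => by
    obtain ⟨w, hw, e⟩ := inn h hα
    rcases w0.cen (w⁻¹ * ev g0 [17]) fun y hy => (comm_of_conj (by
      rw [← conj_conj', show ev g0 [17] * y * (ev g0 [17])⁻¹ = _ from e ⟨y, hy⟩]; group)).symm with k | k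
    exacts [rH (inv_mul_eq_one.1 k ▸ hw), rH (inv_mul_eq_iff_eq_mul.1 k ▸ mul_mem hw mH)]
  have i2 : (Inn K).relIndex A = 2 := by
    have h1 := relIndex_mul_index le
    have h2 : A.index ≠ 1 := fun e => by
      obtain ⟨γ, k⟩ := exists_equiv_of_ker s (a 1).st.1 (Subgroup.ext fun y => (b 0 y).trans (b 1 y).symm)
      obtain ⟨e, k'⟩ : γ ∈ A := index_eq_one.1 e ▸ mem_top _
      exact absurd (c 1 0 ⟨e, fun y => (k' y).trans (k y)⟩) (by decide)
    have h3 : 2 ∣ (Inn K).relIndex A := by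
      let u : A := ⟨α, ρ, hα⟩
      refine (ord2 (t := QuotientGroup.mk' ((Inn K).subgroupOf A) u)
        ((QuotientGroup.eq_one_iff (N := (Inn K).subgroupOf A) (u * u)).2
        (show α * α ∈ Inn K from ?_)) fun e => nα ((QuotientGroup.eq_one_iff (N := (Inn K).subgroupOf A) _).1
          e)).symm.dvd.trans (orderOf_dvd_natCard _)
      refine (show α * α = 1 from MulEquiv.ext fun k => ?_) ▸ one_mem _
      obtain ⟨y, rfl⟩ := s k
      rw [MulAut.mul_apply, ← hα, ← hα]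
      exact congrArg (τ 0) (Subtype.ext (show ev g0 [17] * (ev g0 [17] * y * (ev g0 [17])⁻¹) * (ev g0 [17])⁻¹ = y by
        rw [show ∀ a b : WW, a * (a * b * a⁻¹) * a⁻¹ = (a * a) * b * (a * a)⁻¹ from fun a b => by group, r2]; simp))
    rw [show (Inn K).index = 6 from ho] at h1
    obtain ⟨k, e⟩ := h3
    rw [e] at h1 ⊢
    have : k * A.index = 3 := by nlinarith
    rcases (Nat.prime_three.eq_one_or_self_of_dvd k ⟨_, this.symm⟩) with rfl | rfl <;> omega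
  obtain ⟨γ, hγ⟩ := ind β
  by_cases h : γ ∈ Inn K
  · exact (inn h hγ).imp fun _ k => k.2
  · have := (mul_mem_iff_of_index_two i2 (a := ⟨γ, β, hγ⟩) (b := ⟨α, ρ, hα⟩)).2 (iff_of_false h nα)
    obtain ⟨w, -, e⟩ := inn (e := ρ.trans β) this fun y => by rw [MulEquiv.trans_apply, hγ, hα]; rfl
    refine ⟨w * (ev g0 [17])⁻¹, fun y => ?_⟩
    obtain ⟨y, rfl⟩ := ρ.surjective y
    rw [show (β (ρ y)).1 = _ from e y, show (ρ y).1 = ev g0 [17] * y * (ev g0 [17])⁻¹ from rfl]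
    group

theorem normal (ho : Nat.card (Out K) = 6) (hA : HasSchurMultiplier K (Multiplicative (ZMod 2 × ZMod 2)))
    {G : Type*} [Group G] [Finite G] (hO : oddCore G = ⊥) {L : Subgroup G} (hL : IsStandardSubgroup L)
    (hZ : Nat.card (center L) = 2) (e : L ⧸ center L ≃* K) (hR : ∀ R : Sylow 2 𝐂(L), IsCyclic (R : Subgroup 𝐂(L))) :
    L.Normal := by
  classical
  have : Fact (Nat.Prime 2) := ⟨Nat.prime_two⟩
  have := (finite_of_hasSchurMultiplier hA).1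
  obtain ⟨τ, a, -, c⟩ := exists_three hx ht hc
  have p := hL.1.1.commutator_eq_top
  obtain ⟨θ⟩ := three hA ⟨(stem_center p e).1, p, by rw [(stem_center p e).2, hZ]⟩ a c
  let ι : WW → G := fun y => if h : y ∈ HH then θ ⟨y, h⟩ else 1
  have e : ∀ y : HH, ι y = θ y := fun y => dif_pos y.2
  have k : ∀ {k}, Act HH ι k 1 → k ∈ 𝐂(L) := fun h l hl => by
    obtain ⟨y, q⟩ := θ.surjective ⟨l, hl⟩
    have := h.cm y.2
    rwa [e, q] at this
  have zK : ι mm ∈ 𝐂(L) := fun l hl => by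
    obtain ⟨y, q⟩ := θ.surjective ⟨l, hl⟩
    rw [e ⟨_, mH⟩, show l = θ y from congrArg Subtype.val q.symm, ← coe_mul, ← coe_mul, ← map_mul, ← map_mul]
    exact congrArg (fun t => (θ t).1) (Subtype.ext (mc y).symm)
  have mul : ∀ x ∈ HH, ∀ y ∈ HH, ι (x * y) = ι x * ι y := fun x hx y hy => by
    rw [e ⟨x, hx⟩, e ⟨y, hy⟩, ← coe_mul, ← map_mul]; exact e ⟨_, mul_mem hx hy⟩
  have inj : ∀ x ∈ HH, ι x = 1 → x = 1 := fun x hx q =>
    congrArg Subtype.val (θ.map_eq_one_iff.1 (Subtype.ext ((e ⟨x, hx⟩).symm.trans q)))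
  have oz : orderOf (ι mm) = 2 := ord2 (by rw [← mul _ mH _ mH, m2]; simpa using e 1) fun q => m1 (inj _ mH q)
  have zn : ∀ {g}, Commute (ι mm) g → g ∈ 𝐍(L) := fun c =>
    hL.2.2.2 ▸ te_mem hL.2.1 zK oz (by rwa [conj_of_comm c])
  have M : Mo HH mm (ι mm) ι := by
    refine ⟨w0, mul, inj, rfl, fun g hg => ?_, fun g hg gg => or_iff_not_imp_left.2 fun n => ?_, fun u v hu hv s t => ?_⟩
    · obtain ⟨w, q⟩ := autH hx ht hc ho ((θ.trans (L.normalizerMonoidHom ⟨g, zn hg⟩)).trans θ.symm)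
      refine ⟨w, fun y hy => ?_⟩
      rw [← q ⟨y, hy⟩, e, e ⟨y, hy⟩]
      simp only [MulEquiv.trans_apply, MulEquiv.apply_symm_apply]
      rfl
    · have o := ord2 gg n
      obtain ⟨T, hT, a⟩ := exists_isSyl_ge (isPGroup_zpowers_of_orderOf (p := 2) (k := 1) o) (zpowers_le.2 (k hg))
      exact Invol.eq_of_invol_of_isCyclic (cy_of hR T hT) (zpowers_le.1 a) (zpowers_le.1 (hT.le_of_le_normalizer'
        (isPGroup_zpowers_of_orderOf (k := 1) oz) (zpowers_le.2 zK)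
        (zpowers_le.2 (centralizer_le_normalizer _ fun x hx => (hT.le hx _ (e ⟨_, mH⟩ ▸ (θ _).2)).symm)))) o oz
    · obtain ⟨T⟩ : Nonempty (Sylow 2 𝐂(L)) := inferInstance
      obtain ⟨N, _, hN⟩ := Invol.exists_normal_complement_of_isCyclic T (hR T)
      obtain ⟨n, hn⟩ := T.isPGroup'.exists_card_eq
      have m : ∀ x : 𝐂(L), Odd (orderOf x.1) → x ∈ N := fun x o => (QuotientGroup.eq_one_iff x).1
        (eq_one_of_odd (k := n) (o.of_dvd_nat (orderOf_coe x ▸ orderOf_map_dvd (QuotientGroup.mk' N) x))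
          (by rw [← hn, ← hN.symm.index_eq_card]; exact pow_card_eq_one'))
      have := orderOf_dvd_natCard N (mul_mem (m ⟨u, k hu⟩ s) (m ⟨v, k hv⟩ t))
      rw [← orderOf_coe, ← hN.index_eq_card] at this
      exact (Nat.not_even_iff_odd.1 fun q => T.not_dvd_index (even_iff_two_dvd.1 q)).of_dvd_nat this
  obtain ⟨N, hN, o, c⟩ := Char.inZStar_of_isolated (u := ι mm) ⟨oz, fun g c => isol wf0 M g c⟩
  exact normalizer_eq_top_iff.1 (eq_top_iff.2 fun g _ => zn (commutatorElement_eq_one_iff_commute.1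
    ((Solv.le_pPrimeCore (Nat.coprime_two_right.2 o)).trans hO.le (c g))))

end CF.StdZ.E8
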