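import Cfsg.Agent.StdZ.RuC
import Cfsg.Agent.StdZ.Cyc
import Cfsg.Agent.Recog.Stem
import Cfsg.Agent.Bt.Out.Ru

/-! A standard double cover of the Rudvalis group. -/

set_option autoImplicit false
set_option maxRecDepth 100000

namespace CF.StdZ.Ru

open Cfsg Subgroup CF.Comp CF.Bt CF.Comp.Ru CF.Schur CF.Schur.Pc CF.Schur.Ru CF.Loc

/-- the facts used in the simple group -/
structure SD {S : Type*} [Group S] (a b x y : S) : Prop where
  cl : ∀ v : S, v * v = 1 → v ≠ 1 → (∃ g, g * v * g⁻¹ = a) ∨ ∃ g, g * v * g⁻¹ = b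
  sq : ∀ y : S, y ^ 4 = 1 → ∀ g, g * (y * y) * g⁻¹ ≠ b
  two : ∃ U : Subgroup S, IsPGroup 2 U ∧ (∀ s ∈ U, Commute s a) ∧ ∀ c, (∀ s ∈ U, Commute s c) → c * c = 1
  aa : a * a = 1
  bb : b * b = 1
  cx : Commute x a
  cy : Commute y a
  ux : ∃ u, Commute a u ∧ u * x * u⁻¹ = x * a
  uy : ∃ u, Commute a u ∧ u * y * u⁻¹ = y * a
  jx : ∃ g, g * x * g⁻¹ = a
  jy : ∃ g, g * y * g⁻¹ = a

theorem clE_fus {S Ω : Type*} [Group S] [MulAction S Ω] {n : ℕ} {D : Dom Ω n} {f : ℕ → S} {nets : List Net}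
    {c : List Lvl} {P : Subgroup S} (hE : Exact D nets f c P) (hf : ∀ i, f i ∈ P) {k e : ℕ} {reps : List (List ℕ)}
    {F : FD} (h : clE nets n k e c reps F = true) {g : S} (hg : g ∈ P) (he : g ^ e = 1) (g1 : g ≠ 1) :
    ∃ w ∈ reps, ∃ x : S, x * g * x⁻¹ = ev f w := by
  simp only [clE, force_eq] at h
  obtain ⟨w, hw, x, -, e⟩ := fusion hE (labOK_spec (and_of_rec h).1) hE.faithful hf (and_of_rec h).2 hg he g1
  exact ⟨w, hw, x, e⟩

theorem sd' {S Ω : Type*} [Group S] [MulAction S Ω] {D : Dom Ω 4060} {f : ℕ → S} (hE : Exact D NN f KC ⊤)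
    (hc : Nat.card S = 145926144000) : SD (ev f aw) (ev f bw) (ev f (cw p1)) (ev f (cw p2)) := by
  have := Exact.finite_top hE
  have he : Eqv f (sameW NN 4060 12) := eqv_sameW hE.reps (by decide) hE.faithful
  have P := he.pc h3
  have cle : Nat.card (clo f qs) ≤ 16384 := P.card_le (by decide)
  have hT := exact_sel hE.reps h4 (by decide) h5 (A := clo f qs) (fun w hw => ev_mem_clo f hw) cle (c := c2) h6
  have cT : Nat.card (clo f qs) = 16384 := le_antisymm cle (hT.card ▸ Nat.le_of_ble_eq_true (and_of_rec (a := chainOK Z 220 c2) h6).2)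
  have j : ∀ p, ∃ g, g * ev f (cw p) * g⁻¹ = ev f aw := fun p =>
    ⟨(ev f p)⁻¹, by rw [cw, ev_lapp, ev_lapp, ev_winv]; group⟩
  have sy : ∀ g : S, g ^ 2 ^ 2 = 1 → ∃ x, x * g * x⁻¹ ∈ clo f qs := fun g e =>
    (exists_conj_mem (H := ⊤) le_top Nat.prime_two (m := 8906625) (by rw [card_top, hc, cT]) (by decide) trivial e).imp
      fun _ a => a.2
  have d := fun t (h : t ∈ _) => he _ _ (lall_iff.1 h14 t h)
  simp only [List.forall_mem_cons, ev_lapp, ev_nil] at d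
  obtain ⟨a1, a2, a3, a4, a5, a6, a7, a8, a9, -⟩ := d
  refine ⟨fun v vv v1 => ?_, fun y y4 g e => ?_, ?_, a2, a3, a4, a5, ⟨_, a6, by rw [a8, mul_inv_cancel_right]⟩,
    ⟨_, a7, by rw [a9, mul_inv_cancel_right]⟩, j _, j _⟩
  · obtain ⟨x, hx⟩ := sy v (by rw [show 2 ^ 2 = 2 * 2 by rfl, pow_mul, pow_two v, vv, one_pow])
    obtain ⟨w, hw, y, e⟩ := clE_fus hT (Bt.evs_mem fun w hw => ev_mem_clo f hw) h8 hx
      (by rw [conj_pow, pow_two, vv]; simp) (by simpa using v1)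
    obtain ⟨⟨w, u, i⟩, ht, rfl⟩ := List.mem_map.1 (lmap_eq Prod.fst fus ▸ hw)
    have := he.conj (lall_iff.1 h10 _ ht)
    rw [← ev_evs, ← e, conj_conj', conj_conj'] at this
    rcases i with _ | _ | i
    exacts [.inl ⟨_, this⟩, .inr ⟨_, this⟩, .inl ⟨_, this⟩]
  · obtain ⟨x, hx⟩ := sy y y4
    have k := h9
    simp only [force_eq] at k
    obtain ⟨v, p, q⟩ := enum_sound hT (by decide) k _ hx
    rcases or_of_rec q with q | q
    · obtain ⟨i, -, q⟩ := lany_iff.1 q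
      obtain ⟨q1, q2⟩ := and_of_rec q
      have := (p.labN (labOK_spec h7) 2 (Nat.le_of_ble_eq_true q1)).2
      rw [Nat.eq_of_beq_eq_true q2, eq_inv_smul_iff, sel_pt] at this
      have m : (g * x⁻¹) • D.pt (nth 0 l i) ∈ D.set (fixS NN 4060 12 bw) := by
        rw [set_fixS hE.reps (by decide)]
        refine ⟨hE.reps.smul_full (Exact.le_range hE trivial)
          (Dom.mem_set_full.2 ⟨_, selIs_lt h4 (Nat.le_of_ble_eq_true q1), rfl⟩), ?_⟩
        conv_rhs => rw [← this]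
        rw [← e, ← mul_smul, ← mul_smul, pow_two]
        congr 1; group
      rw [Nat.eq_of_beq_eq_true h15, set_zero] at m
      exact m
    · exact p.powNe (labOK_spec h7) q (by rw [conj_pow, y4]; simp)
  · have n := nev_difW hE.reps (by decide) 12 _ _ h16
    have c := card_cent_clo_le hE (by decide) (by decide) (std_of_S h11)
    have m := he.comAll h13 (ev_mem_clo f List.mem_cons_self)
    have e : ev f a0 = ev f r * ev f aw * (ev f r)⁻¹ := by rw [a1, mul_inv_cancel_right]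
    refine ⟨cj[(ev f r)⁻¹] (clo f ts), isPGroup_cj _ ((P.pgroup (by decide)).to_le (he.memAll h12)), fun s hs => ?_,
      fun s hs => ?_⟩
    · have := (show Commute _ _ from m _ (mem_cj.1 hs)).conj (ev f r)⁻¹
      simpa [e, mul_assoc] using this
    · have := eq_of_card_le_two c m (by simpa [e] using n) (y := ev f r * s * (ev f r)⁻¹) fun x hx =>
        (comm_cj.2 (hs _ (by simpa using conj_mem_cj (ev f r)⁻¹ hx)).symm).symm
      rcases this with k | k
      · rw [conj_eq_one_iff.1 k, one_mul]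
      · rw [e, mul_left_inj, mul_right_inj] at k
        rw [k, a2]

theorem sd : SD (ev g0 aw) (ev g0 bw) (ev g0 (cw p1)) (ev g0 (cw p2)) := by
  have hR := reps0.extend (k := 12) (by decide) g0_one (slp_of_slpOK h1)
  have := sd' (exact_of_ge hR (by decide) (fun _ _ => trivial) card_le.2 h2) card
  have e := fun w => ev_slp (f := g0) (m := 2) (ws := [aw, bw, cw p1, cw p2]) (by decide +kernel) (lapp KW YW) (w := w)
  simp only [List.forall_mem_cons] at e
  rwa [show K0.length = 2 from rfl, e.1, e.2.1, e.2.2.1, e.2.2.2.1] at this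

section

universe u

variable {G : Type*} {S Γ : Type u} [Group G] [Finite G] [Group S] [Group Γ] {F : Dt G S}

theorem exists_lift [Finite Γ] (h : Fr ⊤ F) (p : Group.IsPerfect F.L) (hA : HasCyclicSchurMultiplier S 2) {ψ : Γ →* S}
    (c : CExt ψ) {w : Γ} (w1 : w ≠ 1) (wc : w ∈ _root_.commutator Γ) (wk : ψ w = 1) :
    ∃ e : _root_.commutator Γ ≃* F.L, ∀ x, F.π (e x) = ψ x := by
  let σ : F.L →* S := MonoidHom.mk' (fun l => F.π l) fun a b => h.mul (h.cL a.2) (h.cL b.2)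
  have kr : ∀ x ∈ σ.ker, x = 1 ∨ x = ⟨F.z, h.zL⟩ := fun x hx =>
    (h.LK x.2 ((h.ker (h.cL x.2)).1 hx)).imp Subtype.ext Subtype.ext
  have s1 : IsStemExtension σ := ⟨fun s => (h.im s trivial).elim fun l a => ⟨⟨l, a.1⟩, a.2⟩, fun x hx => by
    rcases kr x hx with rfl | rfl
    exacts [one_mem _, mem_center_iff.2 fun g => Subtype.ext (h.cL g.2).symm], p.commutator_eq_top ▸ le_top⟩
  have := Finite.of_surjective σ s1.1
  have pK : _root_.commutator S = ⊤ := by
    have := map_commutator_eq F.L σ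
    rwa [p.commutator_eq_top, ← MonoidHom.range_eq_map, MonoidHom.range_eq_top.2 s1.1, ← _root_.commutator_def,
      eq_comm] at this
  obtain ⟨s2, p2⟩ := c.stem_commutator pK
  have i : (powMonoidHom 2 : Multiplicative (ZMod 2) →* _).range.index ≤ 2 :=
    (Nat.le_of_dvd Nat.card_pos (index_dvd_card _)).trans (by simp)
  exact Recog.stem_unique hA s2 s1 p2 p.commutator_eq_top (n := 2) (fun x hx => by
      obtain ⟨φ, hφ⟩ := hA.2 _ _ s2
      obtain ⟨y, e⟩ := hφ ⟨x, hx⟩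
      have : y ^ 2 = 1 := by simpa using pow_card_eq_one' (x := y)
      exact congrArg Subtype.val (show (⟨x, hx⟩ : MonoidHom.ker _) ^ 2 = 1 by rw [← e, ← map_pow, this, map_one]))
    (fun x hx => by
      rcases kr x hx with rfl | rfl
      exacts [one_pow _, Subtype.ext ((pow_two _).trans h.zz)])
    (i.trans (Finite.one_lt_card_iff_nontrivial.2 ⟨⟨⟨w, wc⟩, wk⟩, 1, fun e => w1 (congrArg (fun x => x.1.1) e)⟩))
    (i.trans (Finite.one_lt_card_iff_nontrivial.2 ⟨⟨⟨F.z, h.zL⟩, h.πz⟩, 1, fun e => h.z1 (congrArg (fun x => x.1.1) e)⟩))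

omit [Finite G] in
theorem exists_tr (h : Fr ⊤ F) {ψ : Γ →* S} {H : Subgroup Γ} {e : H ≃* F.L} (he : ∀ x, F.π (e x) = ψ x) {R : Type*}
    [Neg R] {t : Γ → R} (tc : ∀ g x, t (g * x * g⁻¹) = t x)
    (tn : ∀ z, ψ z = 1 → z * z = 1 → z ≠ 1 → ∀ x, t (x * z) = - t x) : ∃ θ : G → R,
    (∀ x, θ (e x) = t x) ∧ (∀ v ∈ F.L, ∀ l ∈ F.L, θ (l * v * l⁻¹) = θ v) ∧ ∀ v ∈ F.L, θ (v * F.z) = - θ v := by
  classical
  refine ⟨fun g => if m : g ∈ F.L then t (e.symm ⟨g, m⟩) else t 1,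
    fun x => (dif_pos (e x).2).trans (congrArg (fun y => t y.1) (e.symm_apply_apply x)),
    fun v hv l hl => ?_, fun v hv => ?_⟩
  · simp only [dif_pos hv, dif_pos (mul_mem (mul_mem hl hv) (inv_mem hl))]
    rw [← tc (e.symm ⟨l, hl⟩) (e.symm ⟨v, hv⟩), ← coe_inv, ← coe_mul, ← coe_mul, ← map_inv, ← map_mul, ← map_mul]
    rfl
  · simp only [dif_pos hv, dif_pos (mul_mem hv h.zL)]
    rw [← tn (e.symm ⟨F.z, h.zL⟩) ((he _).symm.trans (by rw [e.apply_symm_apply]; exact h.πz))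
      (by rw [← coe_mul, ← map_mul, show (⟨F.z, h.zL⟩ : F.L) * ⟨F.z, h.zL⟩ = 1 from Subtype.ext h.zz, map_one]; rfl)
      (fun k => h.z1 (congrArg Subtype.val (e.symm.map_eq_one_iff.1 (Subtype.ext k)))), ← coe_mul, ← map_mul]
    rfl

omit [Finite G] in
theorem rf' (h : Fr ⊤ F) {θ : G → ZMod 5} (h2 : ∀ v ∈ F.L, ∀ l ∈ F.L, θ (l * v * l⁻¹) = θ v)
    (h3 : ∀ v ∈ F.L, θ (v * F.z) = - θ v) {a b x y : G} (la : a ∈ F.L) (lb : b ∈ F.L) (lx : x ∈ F.L) (ly : y ∈ F.L)
    (d : SD (F.π a) (F.π b) (F.π x) (F.π y)) (one : θ 1 = 3) (ta : θ a = 1) (taa : θ (a * a) = 3)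
    (tbb : θ (b * b) = 2) (tx : θ x = 1) (ty : θ y = 1) (txa : θ (x * a) = 1) (tya : θ (y * a) = 4) : RF F := by
  have aa : a * a = 1 := (h.LK (mul_mem la la) ((h.ker (h.cL (mul_mem la la))).1
    ((h.mul (h.cL la) (h.cL la)).trans d.aa))).resolve_right fun e => by
      have := h3 1 (one_mem _)
      rw [one_mul, ← e, taa, one] at this
      exact absurd this (by decide)
  have up : ∀ {v c g}, v ∈ F.L → c ∈ F.L → g * F.π v * g⁻¹ = F.π c →
      ∃ l ∈ F.L, l * v * l⁻¹ = c ∨ l * v * l⁻¹ = c * F.z := fun {v c g} hv hc e => by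
    obtain ⟨l, hl, rfl⟩ := h.im g trivial
    exact ⟨l, hl, h.eqL hc (h.nL (h.cL hl) hv) (by rw [h.conj (h.cL hl) (h.cL hv), e])⟩
  have sz : ∀ {c}, c ∈ F.L → c * F.z * (c * F.z) = c * c := fun hc => by
    rw [mul_assoc, ← mul_assoc F.z, (h.cL hc).eq, mul_assoc, h.zz, mul_one]
  have sq : ∀ {v c l}, c ∈ F.L → l * v * l⁻¹ = c ∨ l * v * l⁻¹ = c * F.z → c * c = l * (v * v) * l⁻¹ := fun hc k => by
    rcases k with k | k
    · rw [← k, conj_mul]
    · rw [← sz hc, ← k, conj_mul]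
  have cls : ∀ {v}, v ∈ F.L → v * v = 1 → v = 1 ∨ v = F.z ∨ ∃ l ∈ F.L, l * v * l⁻¹ = a ∨ l * v * l⁻¹ = a * F.z :=
    fun {v} hv vv => by
      by_cases e : F.π v = 1
      · exact (h.LK hv ((h.ker (h.cL hv)).1 e)).imp_right .inl
      refine .inr (.inr ((d.cl _ (by rw [← h.mul (h.cL hv) (h.cL hv), vv, h.one]) e).elim (fun ⟨_, k⟩ => up hv la k)
        fun ⟨_, k⟩ => ?_))
      obtain ⟨l, -, k⟩ := up hv lb k
      rw [sq lb k, vv, mul_one, mul_inv_cancel, one] at tbb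
      exact absurd tbb (by decide)
  have p1 : ∀ v ∈ F.L, ∀ l ∈ F.L, v * v = 1 → l * v * l⁻¹ ≠ v * F.z := fun v hv l hl vv e => by
    rcases cls hv vv with rfl | rfl | ⟨k, hk, c⟩
    · exact h.z1 (by simpa using e.symm)
    · rw [conj_of_comm (h.cL hl), h.zz] at e; exact h.z1 e
    have := (h2 v hv l hl).symm.trans ((congrArg θ e).trans (h3 v hv))
    rw [← h2 v hv k hk] at this
    rcases c with c | c <;> rw [c] at this
    · rw [ta] at this; exact absurd this (by decide)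
    · rw [h3 a la, ta] at this; exact absurd this (by decide)
  have cm : ∀ {c}, c ∈ F.L → Commute (F.π a) (F.π c) → Commute a c := fun hc k =>
    comm_of_conj ((h.comm_or la (h.cL hc) k).resolve_right (p1 a la _ hc aa))
  have key : ∀ {x}, x ∈ F.L → Commute (F.π x) (F.π a) → (∃ g, g * F.π x * g⁻¹ = F.π a) →
      (∃ u, Commute (F.π a) u ∧ u * F.π x * u⁻¹ = F.π x * F.π a) → x * x = 1 ∧ Commute a x ∧
        ∃ u ∈ F.L, Commute a u ∧ (u * x * u⁻¹ = x * a ∧ θ x = θ (x * a) ∨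
          u * x * u⁻¹ = x * (a * F.z) ∧ θ x = - θ (x * a)) := fun {x} hx c ⟨_, j⟩ ⟨u, c1, c2⟩ => by
    obtain ⟨u, hu, rfl⟩ := h.im u trivial
    obtain ⟨l, -, k⟩ := up hx la j
    refine ⟨conj_eq_one_iff.1 ((sq la k).symm.trans aa), cm hx c.symm, u, hu, cm hu c1,
      (h.eqL (mul_mem hx la) (h.nL (h.cL hu) hx)
        (by rw [h.conj (h.cL hu) (h.cL hx), c2, h.mul (h.cL hx) (h.cL la)])).imp (fun e => ⟨e, ?_⟩) fun e =>
          ⟨e.trans (mul_assoc _ _ _), ?_⟩⟩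
    · rw [← e, h2 x hx u hu]
    · rw [← h3 _ (mul_mem hx la), ← e, h2 x hx u hu]
  have tr : ∀ {v l c x u : G}, l * v * l⁻¹ = c → x * x = 1 → Commute c x → Commute c u → u * x * u⁻¹ = x * c →
      ∃ x u, x * x = 1 ∧ Commute v x ∧ Commute v u ∧ u * x * u⁻¹ = x * v := fun {v l c x u} e xx c1 c2 k => by
    subst e
    refine ⟨l⁻¹ * x * l, l⁻¹ * u * l, by simp [mul_assoc, ← mul_assoc x, xx], comm_cj.1 c1, comm_cj.1 c2, ?_⟩
    calc _ = l⁻¹ * (u * x * u⁻¹) * l := by group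
      _ = _ := by rw [k]; group
  refine ⟨p1, fun v hv vv => (cls hv vv).imp_right (.imp_right ?_), fun s s4 n => ?_⟩
  · rintro ⟨l, -, e | e⟩
    · obtain ⟨xx, c, u, -, cu, ⟨k, -⟩ | ⟨-, k⟩⟩ := key lx d.cx d.jx d.ux
      · exact tr e xx c cu k
      · rw [tx, txa] at k; exact absurd k (by decide)
    · obtain ⟨xx, c, u, hu, cu, ⟨-, k⟩ | ⟨k, -⟩⟩ := key ly d.cy d.jy d.uy
      · rw [ty, tya] at k; exact absurd k (by decide)
      · exact tr e xx (c.mul_left (h.cL ly)) (cu.mul_left (h.cL hu)) k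
  · obtain ⟨g, e⟩ := (d.cl _ (by rw [← pow_two s, ← pow_add]; exact s4) n).resolve_right fun ⟨g, e⟩ => d.sq s s4 g e
    obtain ⟨U, hU, c, k⟩ := d.two
    obtain ⟨l, hl, rfl⟩ := h.im g trivial
    refine ⟨⟨_, h.nL (h.cL (inv_mem hl)) la, by rw [conj_mul, aa]; simp, by
      rw [h.conj (h.cL (inv_mem hl)) (h.cL la), h.inv (h.cL hl), ← e]; group⟩, cj[(F.π l)⁻¹] U, isPGroup_cj _ hU,
      fun t ht => ?_, fun t ht => ?_⟩
    · have := (e ▸ c _ (mem_cj.1 ht)).symm
      simpa [mul_assoc] using (comm_cj.1 this).symm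
    · have := k (F.π l * t * (F.π l)⁻¹) fun x hx =>
        (comm_cj.2 (ht _ (by simpa using conj_mem_cj (F.π l)⁻¹ hx)).symm).symm
      rwa [conj_mul, conj_eq_one_iff] at this

end

/-- the representation modulo five -/
noncomputable def ρ5 : Spor.fourRu →* Matrix (Fin 28) (Fin 28) (ZMod 5) := π5.mapMatrix.toMonoidHom.comp α

theorem trK_spec (A : ℕ) : Matrix.trace (n := Fin 28) (R := ZMod 5) (P5.mat A) = (trK A 28 : ZMod 5) := by
  have s : ∀ j, trK A j = ∑ i ∈ Finset.range j, P5.ent A (28 * i + i) := fun j => by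
    induction j with
    | zero => rfl
    | succ j ih => rw [Finset.sum_range_succ, ← ih]; rfl
  rw [s, Nat.cast_sum, Finset.sum_range]
  rfl

theorem trW_spec {w : List ℕ} {r : ℕ} (h : trW w r = true) : (ρ5 (ev g4 w)).trace = r := by
  obtain ⟨A, e, k⟩ := PM.ev (P := P5) (ρ := ρ5) pm5 h
  rw [← Nat.eq_of_beq_eq_true k, show Nat.mod (trK A 28) 5 = trK A 28 % 5 from rfl, ZMod.natCast_mod, ← trK_spec, ← e]
  rfl

theorem fin4 : Finite Spor.fourRu := by
  refine Nat.finite_of_card_ne_zero ?_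
  rw [card_eq_card_quotient_mul_card_subgroup (center _), card_center, Nat.card_congr eqv.toEquiv, card]
  decide

theorem tr_neg (z : Spor.fourRu) (h : ψ z = 1) (zz : z * z = 1) (z1 : z ≠ 1) (x : Spor.fourRu) :
    (ρ5 (x * z)).trace = - (ρ5 x).trace := by
  classical
  have := fin4
  obtain ⟨i, hi, rfl⟩ := Finset.mem_image.1 ((mem_zpowers_iff_mem_range_orderOf (x := scal)).1 (ker_eq.le h))
  rw [order_scal, Finset.mem_range] at hi
  have : i = 2 := by
    rw [← pow_add, ← orderOf_dvd_iff_pow_eq_one, order_scal] at zz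
    have : i ≠ 0 := by rintro rfl; simp at z1
    omega
  have e : ρ5 (scal ^ 2) = -1 := by
    show π5.mapMatrix (α _) = _
    rw [α_scal, show Spor.gI ^ 2 = -1 by decide, neg_smul, one_smul, map_neg, map_one]
  rw [this, map_mul, e, mul_neg, mul_one, Matrix.trace_neg]

theorem rf {G : Type*} [Group G] [Finite G] {F : Dt G K} (h : Fr ⊤ F) (p : Group.IsPerfect F.L) : RF F := by
  have := fin4
  obtain ⟨e, he⟩ := exists_lift h p (HasSchur.congr_left schur eqv) (ψ := ψ) ⟨ψ_surj, center_eq.ge⟩ (w := ev g4 zW)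
    (fun e => pm5.diff (x := 0) (u := zW) (w := []) (by decide +kernel) (congrArg _ e))
    (ev_mem_commutator g4 (m := 2) (by decide +kernel)) (by
      rw [map_ev, funext ψ_g4]
      exact reps0.eq_of_sameW (k := 12) (w := []) (by decide) faithful trivial trivial (by decide +kernel))
  obtain ⟨θ, h1, h2, h3⟩ := exists_tr h he (t := fun g => (ρ5 g).trace) (fun g x => by
    rw [map_mul, Matrix.trace_mul_comm, ← map_mul, inv_mul_cancel_left]) tr_neg
  have d := sd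
  have m := fun w (hw : w ∈ _) => ev_mem_commutator g4 (lall_iff.1 h18 w hw)
  have t := fun t (ht : t ∈ _) => trW_spec (lall_iff.1 h17 t ht)
  simp only [List.forall_mem_cons, ev_lapp] at m t
  obtain ⟨m1, m2, m3, m4, -⟩ := m
  obtain ⟨t1, t2, t3, t4, t5, t6, t7, -⟩ := t
  have pe : ∀ {w} (m : ev g4 w ∈ _), ev g0 w = F.π (e ⟨_, m⟩) := fun m => by rw [he, map_ev, funext ψ_g4]
  have ml : ∀ x y, θ (e x * e y) = (ρ5 (x * y)).trace := fun x y => by rw [← coe_mul, ← map_mul, h1, coe_mul]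
  rw [pe m1, pe m2, pe m3, pe m4] at d
  exact rf' h h2 h3 (e _).2 (e _).2 (e _).2 (e _).2 d (by
    rw [← (h1 1).trans (show (ρ5 1).trace = 3 by rw [map_one, Matrix.trace_one, Fintype.card_fin]; rfl), map_one]; rfl)
    ((h1 _).trans t1) ((ml _ _).trans t2) ((ml _ _).trans t3) ((h1 _).trans t4) ((h1 _).trans t5) ((ml _ _).trans t6)
    ((ml _ _).trans t7)

theorem normal {G : Type*} [Group G] [Finite G] (hO : oddCore G = ⊥) (A : Subgroup G) (hA : IsStandardSubgroup A)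
    (hZ : Nat.card (center A) = 2) (e : A ⧸ center A ≃* Spor.Ru)
    (hR : ∀ R : Sylow 2 𝐂(A), IsCyclic (R : Subgroup 𝐂(A))) : A.Normal := by
  have := simple
  obtain ⟨F, h, hL, hK, -, hN⟩ := exists_fr' hA hZ _ (surj_quot (e.trans eqv)) (ker_quot (e.trans eqv))
    ((card_out_congr eqv).symm.trans Bt.OutRu.out) (center_simple fun c => by
      have : IsMulCommutative K := ⟨⟨c⟩⟩
      have := (Group.is_simple_iff_prime_card (α := K)).1 simple
      rw [card] at this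
      exact absurd (this.eq_one_or_self_of_dvd 2 (by norm_num)) (by norm_num))
  refine normal_of_top_le_normalizer fun g _ => (hN g).2 (by_contra fun n => ?_)
  obtain ⟨E, p⟩ := h.exists_pr hO fun a => n (a g)
  exact (rf h (hL ▸ hA.1.1)).isol h (hK ▸ cy_of hR) p

end CF.StdZ.Ru
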