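import Cfsg.Agent.StdZ.Co0
import Cfsg.Agent.Invol.Four
import Cfsg.Agent.Bt.Out.Co1

/-! A standard subgroup isomorphic to the automorphism group of the Leech lattice. -/

set_option autoImplicit false
set_option maxRecDepth 100000

namespace CF.StdZ

open Cfsg Subgroup CF.Loc CF.Leech CF.Known.Mon CF.XT.Co
open scoped Pointwise

variable {G : Type*} [Group G] [Finite G]

section

variable {S : Type*} [Group S] {S0 : Subgroup S} {F : Dt G S} (h : Fr S0 F) (cyc : ∀ T, IsSyl 2 T F.K → IsCyclic T)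
include h cyc

theorem Fr.uq {k : G} (hk : k ∈ F.K) (kk : k * k = 1) : k = 1 ∨ k = F.z := by
  have : Fact (Nat.Prime 2) := ⟨Nat.prime_two⟩
  refine or_iff_not_imp_left.2 fun n => ?_
  have o := ord2 kk n
  obtain ⟨T, hT, a⟩ := exists_isSyl_ge (isPGroup_zpowers_of_orderOf (p := 2) (k := 1) o) (zpowers_le.2 hk)
  exact Invol.eq_of_invol_of_isCyclic (cyc T hT) (zpowers_le.1 a) (zpowers_le.1 (hT.le_of_le_normalizer'
    (isPGroup_zpowers_of_orderOf (k := 1) h.oz) (zpowers_le.2 h.zK)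
    (zpowers_le.2 (centralizer_le_normalizer _ fun x hx => (h.cK (hT.le hx)).symm)))) o h.oz

theorem Fr.exists_root {k : G} (hk : k ∈ F.K) (kk : k * k = F.z) {P : Subgroup G} (hP : IsPGroup 2 P) (le : P ≤ F.K) :
    ∃ y ∈ F.K, y * y = F.z ∧ ∀ x ∈ P, Commute y x := by
  have : Fact (Nat.Prime 2) := ⟨Nat.prime_two⟩
  obtain ⟨T, hT, a⟩ := exists_isSyl_ge hP le
  obtain ⟨u, hu, b⟩ := hT.exists_cj_le (isPGroup_zpowers (x := k) (k := 2) (by
    rw [show 2 ^ 2 = 2 * 2 by rfl, pow_mul, pow_two k, kk, pow_two, h.zz])) (zpowers_le.2 hk)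
  have m := b (conj_mem_cj u (mem_zpowers k))
  have := cyc T hT
  exact ⟨_, hT.le m, by rw [conj_mul, kk, conj_of_comm (h.cK hu)], fun x hx =>
    congrArg Subtype.val (mul_comm' (⟨_, m⟩ : T) ⟨x, a hx⟩)⟩

end

theorem cyc_of {K : Subgroup G} (h : ∀ R : Sylow 2 K, IsCyclic (R : Subgroup K)) (T : Subgroup G)
    (hT : IsSyl 2 T K) : IsCyclic T := by
  obtain ⟨R, rfl⟩ := hT.exists_sylow
  have := h R
  exact isCyclic_of_surjective _ (R.1.equivMapOfInjective _ K.subtype_injective).surjective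

namespace Co

/-- a frame for the automorphism group of the lattice -/
structure CFr (F : Dt G Spor.Co1) (ι : Co0 →* G) : Prop where
  fr : Fr ⊤ F
  inj : Function.Injective ι
  mem : ∀ x, ι x ∈ F.L
  π : ∀ x, F.π (ι x) = mk x
  cyc : ∀ T, IsSyl 2 T F.K → IsCyclic T

namespace CFr

variable {F : Dt G Spor.Co1} {ι : Co0 →* G} (h : CFr F ι)
include h

theorem cz (x : Co0) : Commute F.z (ι x) := h.fr.cL (h.mem x)

theorem cK (x : Co0) {k : G} (hk : k ∈ F.K) : Commute (ι x) k := h.fr.cLK (h.mem x) hk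

theorem neg : ι negCo = F.z :=
  (h.fr.LK (h.mem _) ((h.fr.ker (h.cz _)).1 ((h.π _).trans mk_negCo))).resolve_left fun e =>
    negCo_ne_one (h.inj (e.trans (map_one ι).symm))

theorem dec {c : G} (hc : Commute F.z c) : ∃ a, ∃ k ∈ F.K, c = ι a * k := by
  obtain ⟨a, e⟩ := mk_surj (F.π c)
  exact ⟨a, _, (h.fr.πeq (h.cz a) hc).1 ((h.π a).trans e), by group⟩

theorem sq {a : Co0} {k : G} (hk : k ∈ F.K) (e : ι a * k * (ι a * k) = 1) :
    a * a = 1 ∧ k * k = 1 ∨ a * a = negCo ∧ k * k = F.z := by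
  rw [← pow_two, (h.cK a hk).mul_pow, pow_two, pow_two, ← map_mul] at e
  rcases h.fr.LK (h.mem (a * a)) (by rw [eq_inv_of_mul_eq_one_left e]; exact inv_mem (mul_mem hk hk)) with d | d
  · exact .inl ⟨h.inj (d.trans (map_one ι).symm), by rwa [d, one_mul] at e⟩
  · exact .inr ⟨h.inj (d.trans h.neg.symm), by rw [eq_inv_of_mul_eq_one_right e, d, h.fr.zi]⟩

theorem inA {a : Co0} {k : G} (hk : k ∈ F.K) (kk : k * k = 1) : ∃ x, ι a * k = ι x := by
  rcases h.fr.uq h.cyc hk kk with rfl | rfl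
  exacts [⟨a, mul_one _⟩, ⟨a * negCo, by rw [map_mul, h.neg]⟩]

theorem b1 {k : G} (hk : k ∈ F.K) (kk : k * k = F.z) {x : Co0} (e : IsConj F.z (ι x)) : x = negCo := by
  obtain ⟨g, e⟩ := isConj_iff.1 e
  obtain ⟨u, c, hc, d⟩ := inv_cls (x := x) (h.inj (by rw [map_mul, ← e, conj_mul, h.fr.zz]; simp))
  suffices ∀ g, g * F.z * g⁻¹ = ι (ep c) → ι (ep c) = F.z by
    have := h.inj ((this (ι u * g) (by rw [← conj_conj', e, ← d]; simp)).trans h.neg.symm)
    rw [← d, mul_inv_eq_iff_eq_mul, ← negCo_comm] at this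
    exact mul_left_cancel this
  intro g e
  have cs : ∀ s ∈ Sg, Commute F.z (g⁻¹ * ι s * g) := fun s hs =>
    comm_cj.1 (e ▸ (Commute.map (Sg_comm (ep_mem c) hs) ι))
  let P : Subgroup G :=
    { carrier := {k | k ∈ F.K ∧ ∃ a, ∃ s ∈ Sg, g⁻¹ * ι s * g = ι a * k}
      one_mem' := ⟨one_mem _, 1, 1, one_mem _, by simp⟩
      mul_mem' := by
        rintro k l ⟨hk, a, s, hs, d⟩ ⟨hl, b, t, ht, f⟩
        refine ⟨mul_mem hk hl, a * b, s * t, mul_mem hs ht, ?_⟩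
        rw [map_mul, map_mul, mul_assoc (ι a), ← mul_assoc (ι b), (h.cK b hk).eq, mul_assoc k, ← mul_assoc (ι a), ← d, ← f]
        group
      inv_mem' := by
        rintro k ⟨hk, a, s, hs, d⟩
        refine ⟨inv_mem hk, a⁻¹, s⁻¹, inv_mem hs, ?_⟩
        rw [map_inv, map_inv, (h.cK a hk).inv_inv.eq, ← mul_inv_rev (ι a), ← d]
        group }
  obtain ⟨y, hy, yy, cy⟩ := h.fr.exists_root h.cyc hk kk (P := P) (isPGroup_iff_forall.2 (by
    rintro k ⟨hk, a, s, hs, d⟩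
    refine ⟨2, ?_⟩
    rw [show 2 ^ 2 = 2 * 2 by rfl, pow_mul, pow_two k, pow_two]
    rcases h.sq (a := a) hk (by
      rw [← d]
      calc _ = g⁻¹ * ι (s * s) * g := by rw [map_mul]; group
        _ = 1 := by rw [Sg_sq hs]; simp) with d | d <;> rw [d.2]
    exacts [one_mul _, h.fr.zz])) fun _ hk => hk.1
  have cs : ∀ s ∈ Sg, Commute (g * y * g⁻¹) (ι s) := fun s hs => by
    obtain ⟨a, k, hk, d⟩ := h.dec (cs s hs)
    exact comm_cj.2 (d ▸ (h.cK a hy).symm.mul_right (cy k ⟨hk, a, s, hs, d⟩))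
  obtain ⟨a, k, hk, d⟩ := h.dec (h.neg ▸ (cs _ negCo_mem_Sg).symm)
  have aa : a * a = 1 := cent_Sg fun s hs => h.inj (by
    have := (d ▸ cs s hs).symm.mul_right (h.cK s hk).inv_right
    rw [mul_inv_cancel_right] at this
    rw [map_mul, map_mul, this.eq])
  have : g * F.z * g⁻¹ ∈ F.K := by
    rw [← yy, ← conj_mul, d, ← pow_two, (h.cK a hk).mul_pow, ← map_pow, pow_two, aa, map_one, one_mul]
    exact pow_mem hk 2
  rw [← e, conj_of_comm (h.fr.te h.fr.zK h.fr.oz this)]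

theorem b2 {k : G} (hk : k ∈ F.K) (kk : k * k = F.z) {t : G} (e : IsConj F.z t) (c : Commute F.z t) (n : t ≠ F.z) :
    ∃ a, ∃ l ∈ F.K, t = ι a * l ∧ a * a = negCo := by
  obtain ⟨a, l, hl, rfl⟩ := h.dec c
  obtain ⟨g, d⟩ := isConj_iff.1 e
  refine ⟨a, l, hl, rfl, ((h.sq hl (by rw [← d, conj_mul, h.fr.zz]; simp)).resolve_left fun f => ?_).1⟩
  obtain ⟨x, f⟩ := h.inA (a := a) hl f.2
  rw [f] at e n
  exact n (h.b1 hk kk e ▸ h.neg)

theorem conj_ι (u a : Co0) {l : G} (hl : l ∈ F.K) : ι u * (ι a * l) * (ι u)⁻¹ = ι (u * a * u⁻¹) * l := by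
  rw [map_mul, map_mul, map_inv, mul_assoc, mul_assoc, ← (h.cK u hl).inv_left.eq]; group

theorem caseB {k : G} (hk : k ∈ F.K) (kk : k * k = F.z) {t : G} (e : IsConj F.z t) (c : Commute F.z t) :
    t = F.z := by
  have key : ∀ {t}, IsConj F.z t → Commute F.z t → t ≠ F.z → IsConj F.z (F.z * t) := fun e c n => by
    obtain ⟨a, l, hl, rfl, aa⟩ := h.b2 hk kk e c n
    obtain ⟨u, d⟩ := (sqneg aa).1
    exact e.trans (isConj_iff.2 ⟨ι u, by rw [h.conj_ι _ _ hl, d, map_mul, h.neg, mul_assoc]⟩)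
  by_contra n
  obtain ⟨a, l, hl, rfl, aa⟩ := h.b2 hk kk e c n
  obtain ⟨u, x, x1, x2, x3, x4, x5⟩ := (sqneg aa).2
  obtain ⟨g, d⟩ := isConj_iff.1 e
  have c1 : Commute (ι a * l) (ι x) := ((x5.map ι).mul_right (h.cK x hl)).symm
  have := key (t := g⁻¹ * (ι x * (ι a * l)) * g) ((e.trans (isConj_iff.2 ⟨ι u, by
      rw [h.conj_ι _ _ hl, x4, map_mul, mul_assoc]⟩)).trans (isConj_iff.2 ⟨g⁻¹, by simp⟩))
    (comm_cj.1 (d ▸ c1.mul_right (Commute.refl _))) fun f => x2 (h.inj (by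
      rw [← d] at f
      have : ι x = g * (g⁻¹ * (ι x * (g * F.z * g⁻¹)) * g) * F.z⁻¹ * g⁻¹ := by group
      rw [this, f]; simp))
  refine x3 (h.b1 hk kk (this.trans (isConj_iff.2 ⟨g, ?_⟩)))
  calc _ = g * F.z * g⁻¹ * ι x * (g * F.z * g⁻¹) := by rw [← d]; group
    _ = ι x * (g * (F.z * F.z) * g⁻¹) := by rw [d, c1.eq, ← d]; group
    _ = _ := by rw [h.fr.zz]; simp

section

variable (n : ∀ k ∈ F.K, k * k ≠ F.z)
include n

theorem a1 {c : G} (hc : Commute F.z c) (cc : c * c = 1) : ∃ x, c = ι x := by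
  obtain ⟨a, k, hk, rfl⟩ := h.dec hc
  exact h.inA hk ((h.sq hk cc).resolve_right fun e => n k hk e.2).2

theorem a1' {g : G} {s : Co0} (c : Commute (g * F.z * g⁻¹) (ι s)) (ss : s * s = 1) : ∃ x, g⁻¹ * ι s * g = ι x :=
  h.a1 n (comm_cj.1 c) (by
    calc _ = g⁻¹ * ι (s * s) * g := by rw [map_mul]; group
      _ = 1 := by rw [ss]; simp)

theorem tri {a b : Finset GolayPt} (ha : a ∈ CS) (hb : b ∈ CS) (e : IsConj F.z (ι (ep a))) :
    ∃ c ∈ CS, IsConj (ι (ep b)) (ι (ep c)) ∧ IsConj (ι (ep (symmDiff a b))) (ι (ep cᶜ)) := by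
  obtain ⟨g, e⟩ := isConj_iff.1 e
  obtain ⟨x, d⟩ := h.a1' n (g := g) (e ▸ (ep_comm a b).map ι) (ep_sq b)
  obtain ⟨u, c, hc, f⟩ := inv_cls (x := x) (h.inj (by
    rw [map_mul, ← d]
    calc _ = g⁻¹ * ι (ep b * ep b) * g := by rw [map_mul]; group
      _ = _ := by rw [ep_sq]; simp))
  refine ⟨c, hc, isConj_iff.2 ⟨ι u * g⁻¹, ?_⟩, isConj_iff.2 ⟨ι u * g⁻¹, ?_⟩⟩
  · rw [← conj_conj', inv_inv, d, ← f]; simp
  · rw [← ep_mul ha hb, ← ep_compl hc, map_mul, map_mul, ← e, h.neg, ← f, map_mul, map_mul, map_inv, ← d,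
      ← mul_assoc F.z, ← mul_assoc F.z, (h.cz u).eq]
    group

theorem not16 : ¬ IsConj F.z (ι (ep (ofMask 14285763))) := fun e => by
  have w : ofMask 14285763 ∈ CS := ofMask_mem_CS (by decide +kernel)
  have o : ofMask 5286147 ∈ CS := ofMask_mem_CS (by decide +kernel)
  obtain ⟨g, e⟩ := isConj_iff.1 e
  have a : ∀ s ∈ Sg, ∃ x, g⁻¹ * ι s * g = ι x := fun s hs =>
    h.a1' n (e ▸ Commute.map (Sg_comm (ep_mem _) hs) ι) (Sg_sq hs)
  obtain ⟨u, hu⟩ := jA' (X := (cj[g⁻¹] (Sg.map ι)).comap ι) (fun x hx => h.inj (by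
      obtain ⟨_, ⟨s, hs, rfl⟩, d⟩ := hx
      rw [map_mul, ← d, ← map_mul, ← map_mul, Sg_sq hs]; simp))
    (mem_cj.2 ⟨_, ep_mem _, by rw [h.neg, inv_inv, e]⟩) (by
      rw [← card_Sg, ← card_map_of_injective h.inj, map_comap_eq_self, card_cj, card_map_of_injective h.inj]
      rintro _ ⟨_, ⟨s, hs, rfl⟩, rfl⟩
      exact (a s hs).imp fun x d => by simpa using d.symm)
  -- `v` normalises the sign changes and carries the word to the centre
  set v := ι u * g⁻¹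
  have hv : cj[v] (Sg.map ι) = Sg.map ι := by
    rw [cj_mul, ← map_comap_eq_self (H := cj[g⁻¹] (Sg.map ι)) (f := ι), ← map_cj, hu]
    rintro _ ⟨_, ⟨s, hs, rfl⟩, rfl⟩
    exact (a s hs).imp fun x d => by simpa using d.symm
  have vz : v * ι (ep (ofMask 14285763)) * v⁻¹ = F.z := by
    rw [← e, ← conj_conj', inv_inv, show g⁻¹ * (g * F.z * g⁻¹) * g = F.z by group, conj_of_comm (h.cz u)]
  have act : ∀ {σ} (hσ : σ ∈ M24), σ • ofMask 14285763 = ofMask 14285763 → ∃ ρ ∈ M24, ∀ c ∈ CS, ∀ d ∈ CS,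
      v * ι (ep d) * v⁻¹ = ι (ep c) → v * ι (ep (σ • d)) * v⁻¹ = ι (ep (ρ • c)) := fun {σ} hσ f => by
    have m := mono_ep w hσ empty_mem_CS
    obtain ⟨b, k, hk, d⟩ := h.dec (c := v * ι (mono hσ empty_mem_CS) * v⁻¹) (by
      rw [← vz]; exact ((comm_of_conj (m.trans (congrArg ep f))).map ι).conj v)
    have q : ∀ s t, v * ι t * v⁻¹ = ι s →
        v * ι (mono hσ empty_mem_CS * t * (mono hσ empty_mem_CS)⁻¹) * v⁻¹ = ι (b * s * b⁻¹) := fun s t e => by
      rw [map_mul ι (b * s), map_mul ι b, ← conj_of_comm (h.cK s hk), map_inv, conj_conj', ← d, ← e, map_mul, map_mul,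
        map_inv]
      group
    obtain ⟨ρ, hρ, r⟩ := act_Mon (g := b) (mem_normalizer_of_conj_mem fun s hs => by
      obtain ⟨_, ⟨t, ht, rfl⟩, e⟩ := hv.ge (mem_map_of_mem ι hs)
      obtain ⟨x, hx, e⟩ := q s t e ▸ hv.le (conj_mem_cj v (mem_map_of_mem ι (conj_mem_Sg (mono_mem _ _) ht)))
      exact h.inj e ▸ hx)
    exact ⟨ρ, hρ, fun c hc d hd e => by rw [← mono_ep hd hσ empty_mem_CS, q _ _ e, r c hc]⟩
  have fw : ∀ d, ∃ c ∈ CS, v * ι (ep d) * v⁻¹ = ι (ep c) := fun d => by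
    obtain ⟨x, hx, e⟩ := hv.le (conj_mem_cj v (mem_map_of_mem ι (ep_mem d)))
    obtain ⟨c, hc, rfl⟩ := exists_ep hx
    exact ⟨c, hc, e.symm⟩
  have bw : ∀ c, ∃ d ∈ CS, v * ι (ep d) * v⁻¹ = ι (ep c) := fun c => by
    obtain ⟨_, ⟨x, hx, rfl⟩, e⟩ := hv.ge (mem_map_of_mem ι (ep_mem c))
    obtain ⟨d, hd, rfl⟩ := exists_ep hx
    exact ⟨d, hd, e⟩
  obtain ⟨x, hx, ex⟩ := fw (ofMask 5286147)
  obtain ⟨ρ, hρ, r⟩ := act t2_mem dat.2.2.2.1
  have := r x hx _ o ex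
  rw [dat.2.2.2.2, ← ep_mul w o, map_mul, ← conj_mul, vz, ex, ← h.neg, ← map_mul, ep_compl hx] at this
  have := congrArg Finset.card (ep_inj (compl_mem_CS hx) (smul_mem_CS hρ hx) (h.inj this))
  rw [Finset.card_compl, card_pts, card_smul] at this
  obtain ⟨ρ, hρ, r⟩ := act s7_mem dat.2.1
  refine no7 hρ (perm_one fun c hc => ?_) (fun e => ?_) (mem_dodecads.2 ⟨hx, by omega⟩) ?_
  · obtain ⟨d, hd, e⟩ := bw c
    have : ∀ i : ℕ, v * ι (ep (s7 ^ i • d)) * v⁻¹ = ι (ep (ρ ^ i • c)) := fun i => by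
      induction i with
      | zero => simpa using e
      | succ i ih =>
        rw [pow_succ', pow_succ', mul_smul, mul_smul]
        exact r _ (smul_mem_CS (pow_mem hρ i) hc) _ (smul_mem_CS (pow_mem s7_mem i) hd) ih
    have := this 7
    rw [s7_pow, one_smul, e] at this
    exact (ep_inj hc (smul_mem_CS (pow_mem hρ 7) hc) (h.inj this)).symm
  · obtain ⟨c, hc, d⟩ := fw (ofMask 5279)
    have := r c hc _ a_oct.1 d
    rw [e, one_smul, ← d] at this
    exact dat.2.2.1 (ep_inj (smul_mem_CS s7_mem a_oct.1) a_oct.1 (h.inj (by simpa using this)))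
  · have := r x hx _ o ex
    rw [dat.1, ex] at this
    exact (ep_inj hx (smul_mem_CS hρ hx) (h.inj this)).symm

theorem caseA {t : G} (e : IsConj F.z t) (c : Commute F.z t) : t = F.z := by
  let s : ℕ → Prop := fun k => ∀ c ∈ CS, c.card = k → IsConj F.z (ι (ep c))
  have si : ∀ {c k}, c ∈ CS → c.card = k → (IsConj F.z (ι (ep c)) ↔ s k) := fun {c k} hc e =>
    ⟨fun a d hd f => a.trans (ι.map_isConj (ep_conj hc hd (e.trans f.symm))), fun a => a c hc e⟩
  have mk : ∀ {m k}, isCode m = true ∧ pc m = k → ofMask m ∈ CS ∧ (ofMask m).card = k := fun a =>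
    ⟨ofMask_mem_CS a.1, (card_ofMask (isCode_lt a.1)).trans a.2⟩
  have n16 : ¬ s 16 := fun a => h.not16 n (a _ (mk (k := 16) (by decide +kernel)).1 (mk (by decide +kernel)).2)
  have tr : ∀ a b i j k, (isCode a = true ∧ pc a = i) ∧ (isCode b = true ∧ pc b = j) ∧
      (isCode (Nat.xor a b) = true ∧ pc (Nat.xor a b) = k) ∧ j ≠ 0 ∧ k ≠ 0 → s i →
      (s j ↔ s 8) ∧ ¬ s k ∨ ((s j ↔ s 12) ∧ (s k ↔ s 12)) ∨ ¬ s j ∧ (s k ↔ s 8) := fun a b i j k ⟨h1, h2, h3, h4, h5⟩ e => by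
    obtain ⟨c, hc, d, f⟩ := h.tri n (mk h1).1 (mk h2).1 (e _ (mk h1).1 (mk h1).2)
    rw [← ofMask_xor] at f
    have one : ∀ {m k}, isCode m = true ∧ pc m = k → IsConj (ι (ep (ofMask m))) (ι (ep ∅)) → k = 0 := fun a b => by
      rw [ep_empty, map_one, isConj_one_left, ← map_one ι, ← ep_empty] at b
      rw [← (mk a).2, ep_inj (mk a).1 empty_mem_CS (h.inj b), Finset.card_empty]
    have d' : ∀ {l}, c.card = l → (s j ↔ s l) := fun q => by
      rw [← si (mk h2).1 (mk h2).2, ← si hc q]; exact ⟨fun a => a.trans d, fun a => a.trans d.symm⟩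
    have f' : ∀ {l}, cᶜ.card = l → (s k ↔ s l) := fun q => by
      rw [← si (mk h3).1 (mk h3).2, ← si (compl_mem_CS hc) q]; exact ⟨fun a => a.trans f, fun a => a.trans f.symm⟩
    have cc : cᶜ.card = 24 - c.card := by rw [Finset.card_compl, card_pts]
    rcases card_of_mem_CS hc with q | q | q | q | q
    · exact absurd (one h2 (Finset.card_eq_zero.1 q ▸ d)) h4
    · exact .inl ⟨d' q, fun a => n16 ((f' (by omega)).1 a)⟩
    · exact .inr (.inl ⟨d' q, f' (by omega)⟩)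
    · exact .inr (.inr ⟨fun a => n16 ((d' q).1 a), f' (by omega)⟩)
    · exact absurd (one h3 (Finset.card_eq_zero.1 (show cᶜ.card = 0 by omega) ▸ f)) h5
  have t1 := tr 28637 16771936 12 16 16 (by decide +kernel)
  have t3 := tr 5279 10558 8 8 8 (by decide +kernel)
  have t4 := tr 28637 57274 12 12 8 (by decide +kernel)
  obtain ⟨g, d⟩ := isConj_iff.1 e
  obtain ⟨x, rfl⟩ := h.a1 n c (by rw [← d, conj_mul, h.fr.zz]; simp)
  obtain ⟨u, c, hc, f⟩ := inv_cls (x := x) (h.inj (by rw [map_mul, ← d, conj_mul, h.fr.zz]; simp))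
  have e' : IsConj F.z (ι (ep c)) := e.trans (ι.map_isConj (isConj_iff.2 ⟨u, f⟩))
  rcases card_of_mem_CS hc with q | q | q | q | q
  · rw [Finset.card_eq_zero.1 q, ep_empty, map_one, isConj_one_left] at e'
    exact absurd e' h.fr.z1
  · have a := (si hc q).1 e'
    clear_value s
    tauto
  · have a := (si hc q).1 e'
    clear_value s
    tauto
  · exact absurd ((si hc q).1 e') n16
  · rw [Finset.eq_univ_of_card c (q.trans card_pts.symm), ep_univ, mul_inv_eq_iff_eq_mul, ← negCo_comm] at f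
    rw [mul_left_cancel f, h.neg]

end

theorem isol {t : G} (e : IsConj F.z t) (c : Commute F.z t) : t = F.z := by
  by_cases n : ∀ k ∈ F.K, k * k ≠ F.z
  · exact h.caseA n e c
  · simp only [not_forall, not_not] at n
    obtain ⟨k, hk, kk⟩ := n
    exact h.caseB hk kk e c

end CFr

theorem normal (hO : oddCore G = ⊥) (A : Subgroup G) (hA : IsStandardSubgroup A) (e : A ≃* Co0)
    (hR : ∀ R : Sylow 2 𝐂(A), IsCyclic (R : Subgroup 𝐂(A))) : A.Normal := by
  have k : (mk.comp e.toMonoidHom).ker = center A := by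
    rw [← MonoidHom.comap_ker, QuotientGroup.ker_mk']
    ext x
    simp only [mem_comap, Subgroup.mem_center_iff]
    exact ⟨fun a y => e.injective (by simpa using a (e y)), fun a y => e.symm.injective (by simpa using a (e.symm y))⟩
  have := simple_Co1
  obtain ⟨F, h, hL, hK, hπ, hN⟩ := exists_fr' hA
    ((Nat.card_congr (Subgroup.centerCongr e).toEquiv).trans card_center) (mk.comp e.toMonoidHom)
    (fun x => (mk_surj x).elim fun g a => ⟨e.symm g, by simpa using a⟩) k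
    Bt.OutCo1.out (center_simple fun c => by
      have : IsMulCommutative Spor.Co1 := ⟨⟨c⟩⟩
      have := (Group.is_simple_iff_prime_card (α := Spor.Co1)).1 simple_Co1
      rw [card_Co1] at this
      exact absurd (this.eq_one_or_self_of_dvd 2 (by norm_num)) (by norm_num))
  have c : CFr F (A.subtype.comp e.symm.toMonoidHom) := ⟨h, A.subtype_injective.comp e.symm.injective,
    fun x => hL ▸ (e.symm x).2, fun x => (hπ (e.symm x)).trans (by simp), hK ▸ cyc_of hR⟩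
  refine normal_of_top_le_normalizer fun g _ => (hN g).2 (by_contra fun n => ?_)
  obtain ⟨E, p⟩ := h.exists_pr hO fun a => n (a g)
  exact p.ne (c.isol p.conj p.cm)

end Co

end CF.StdZ
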