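import Cfsg.Agent.StdZ.Ex
import Cfsg.Agent.XT.CoM
import Cfsg.Agent.MonU.A1
import Cfsg.Agent.Leech.MonMax

/-! Involutions and elements of order four of the automorphism group of the Leech lattice. -/

set_option autoImplicit false
set_option maxRecDepth 100000

namespace CF.StdZ.Co

open Cfsg Subgroup CF.Loc CF.Leech CF.Known.Mon CF.XT.Co
open scoped Pointwise

open _root_.Classical in
/-- a change of signs -/
noncomputable def ep (c : Finset GolayPt) : Co0 := if h : c ∈ CS then mono M24.one_mem h else 1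

variable {c d : Finset GolayPt} {σ : Equiv.Perm GolayPt}

theorem ep_eq (h : c ∈ CS) : ep c = mono M24.one_mem h := dif_pos h

theorem ep_mul (h : c ∈ CS) (k : d ∈ CS) : ep c * ep d = ep (symmDiff c d) := by
  rw [ep_eq h, ep_eq k, ep_eq (symmDiff_mem_CS h k), mono_mul]
  exact mono_congr _ _ _ _ (one_mul _) (by rw [one_smul])

theorem ep_mono (h : c ∈ CS) (hσ : σ ∈ M24) (k : d ∈ CS) :
    ep c * mono hσ k = mono hσ (symmDiff_mem_CS h k) := by
  rw [ep_eq h, mono_mul]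
  exact mono_congr _ _ _ _ (one_mul _) (by rw [one_smul])

theorem mono_ep (h : c ∈ CS) (hσ : σ ∈ M24) (k : d ∈ CS) :
    mono hσ k * ep c * (mono hσ k)⁻¹ = ep (σ • c) := by
  rw [mul_inv_eq_iff_eq_mul, ep_mono (smul_mem_CS hσ h), ep_eq h, mono_mul]
  exact mono_congr _ _ _ _ (mul_one _) (symmDiff_comm _ _)

theorem ep_empty : ep ∅ = 1 := (ep_eq empty_mem_CS).trans mono_one

theorem ep_univ : ep Finset.univ = negCo := (ep_eq univ_mem_CS).trans mono_neg

theorem ep_inj (h : c ∈ CS) (k : d ∈ CS) (e : ep c = ep d) : c = d := by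
  rw [ep_eq h, ep_eq k] at e; exact (mono_inj _ _ _ _ e).2

theorem ep_mem (c : Finset GolayPt) : ep c ∈ Sg := by
  unfold ep; split_ifs with h
  exacts [mem_Sg.2 ⟨_, h, rfl⟩, one_mem _]

theorem ep_sq (c : Finset GolayPt) : ep c * ep c = 1 := Sg_sq (ep_mem c)

theorem ep_comm (c d : Finset GolayPt) : Commute (ep c) (ep d) := Sg_comm (ep_mem c) (ep_mem d)

theorem univ_sd (c : Finset GolayPt) : symmDiff Finset.univ c = cᶜ := top_symmDiff c

theorem ep_compl (h : c ∈ CS) : negCo * ep c = ep cᶜ := by rw [← ep_univ, ep_mul univ_mem_CS h, univ_sd]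

theorem exists_ep {s : Co0} (h : s ∈ Sg) : ∃ c ∈ CS, s = ep c :=
  (mem_Sg.1 h).elim fun c k => k.elim fun hc e => ⟨c, hc, e.trans (ep_eq hc).symm⟩

theorem inv_cls {x : Co0} (h : x * x = 1) : ∃ g, ∃ c ∈ CS, g * x * g⁻¹ = ep c := by
  have key : ∀ c ∈ CS, IsConj (sg c) (mk x) → ∃ g, ∃ c ∈ CS, g * x * g⁻¹ = ep c := fun c hc e => by
    obtain ⟨g, e⟩ := isConj_iff.1 e.symm
    obtain ⟨g, rfl⟩ := mk_surj g
    rw [← map_mul, ← map_inv, ← map_mul, sg_eq hc, ← ep_eq hc] at e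
    rcases mk_eq.1 e with e | e
    exacts [⟨g, c, hc, e⟩, ⟨g, _, compl_mem_CS hc, e.trans (ep_compl hc)⟩]
  by_cases e : mk x = 1
  · exact key ∅ empty_mem_CS (by rw [e, sg_empty])
  rcases cls mapA.2.ge (x := mk x) (by rw [← map_mul, h, map_one]) e with k | k | k
  · exact key _ a_oct.1 (a_eq ▸ k)
  · exact key _ u_dod.1 (u_eq ▸ k)
  · exact absurd ((spl_of h).conj k.symm) f_not

theorem fix_all (hσ : σ ∈ M24) (h : ∀ o ∈ octads, σ • o = o) (hc : c ∈ CS) : σ • c = c := by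
  refine CS_induction (P := fun c => σ • c = c) (by simp) (fun j hj => ?_)
    (fun s t _ _ a b => by rw [smul_symmDiff, a, b]) hc
  obtain ⟨a, ha, e⟩ := anyL_iff.1 (allLt_iff.1 basis_octad_sum j hj)
  have hj' : 2 ^ j < 4096 := Nat.pow_lt_pow_right (by norm_num) hj
  have hc := isCode_xor (isCode_of_mem_octL ha).1 (isCode_enc hj')
  have hb : Nat.xor a (enc (2 ^ j)) ∈ octL := mem_octL_iff.2 ⟨hc, Leech.beq_iff.1 e⟩
  have : ofMask (enc (2 ^ j)) = symmDiff (ofMask a) (ofMask (Nat.xor a (enc (2 ^ j)))) := by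
    rw [ofMask_xor, symmDiff_symmDiff_cancel_left]
  rw [this, smul_symmDiff, h _ (ofMask_mem_octads ha), h _ (ofMask_mem_octads hb)]

theorem univ_ne : (Finset.univ : Finset GolayPt) ≠ ∅ := by decide

theorem sqneg_mon {a : Co0} (m : a ∈ Mon) (h : a * a = negCo) : (∃ g, g * a * g⁻¹ = negCo * a) ∧
    ∃ g e, e * e = 1 ∧ e ≠ 1 ∧ e ≠ negCo ∧ g * a * g⁻¹ = e * a ∧ Commute e a := by
  obtain ⟨σ, c, hσ, hc, rfl⟩ := mem_Mon.1 m
  rw [mono_mul, ← mono_neg] at h
  obtain ⟨h1, h2⟩ := mono_inj _ _ _ _ h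
  have key : ∀ d ∈ CS, ep d * mono hσ hc * (ep d)⁻¹ = ep (symmDiff d (σ • d)) * mono hσ hc := fun d hd => by
    rw [← ep_mul hd (smul_mem_CS hσ hd), ← mono_ep hd hσ hc, inv_eq_of_mul_eq_one_left (ep_sq d)]
    group
  refine ⟨⟨_, by rw [key c hc, h2, ep_univ]⟩, ?_⟩
  by_cases k : ∀ o ∈ octads, σ • o = o
  · rw [fix_all hσ k hc, symmDiff_self] at h2
    exact absurd h2.symm univ_ne
  simp only [not_forall] at k
  obtain ⟨o, ho, k⟩ := k
  have m := symmDiff_mem_CS ho.1 (smul_mem_CS hσ ho.1)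
  refine ⟨_, _, ep_sq _, fun e => k (symmDiff_eq_bot.1 (ep_inj m empty_mem_CS (e.trans ep_empty.symm))).symm,
    fun e => ?_, key o ho.1, comm_of_conj ?_⟩
  · have := card_symmDiff_add o (σ • o)
    rw [ep_inj m univ_mem_CS (e.trans ep_univ.symm), card_smul, (mem_octads.1 ho).2, Finset.card_univ,
      card_pts] at this
    omega
  · rw [mono_ep m, smul_symmDiff, smul_smul, h1, one_smul, symmDiff_comm]

theorem sqneg {a : Co0} (h : a * a = negCo) : (∃ g, g * a * g⁻¹ = negCo * a) ∧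
    ∃ g e, e * e = 1 ∧ e ≠ 1 ∧ e ≠ negCo ∧ g * a * g⁻¹ = e * a ∧ Commute e a := by
  have cn : ∀ g : Co0, g * negCo * g⁻¹ = negCo := fun g => by rw [negCo_comm, mul_inv_cancel_right]
  obtain ⟨g, s, hs, k⟩ := inv_S (x := mk a) (by rw [← map_mul, h]; exact mk_negCo)
  obtain ⟨g, rfl⟩ := mk_surj g
  have m : mk (g * a * g⁻¹) ∈ NS := by
    rw [map_mul, map_mul, map_inv]
    rcases k with k | k | k <;> rw [k]
    exacts [AS_le hs, mul_mem (AS_le hs) (pm_mem _), mul_mem (AS_le hs) (pm_mem _)]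
  obtain ⟨b, hb, e⟩ := m
  have m : g * a * g⁻¹ ∈ Mon := by
    rcases mk_eq.1 e.symm with e | e <;> rw [e]
    exacts [hb, mul_mem negCo_mem_Mon hb]
  obtain ⟨⟨x, h1⟩, y, e, e1, e2, e3, e4, e5⟩ := sqneg_mon m (by rw [conj_mul, h, cn])
  refine ⟨⟨g⁻¹ * x * g, ?_⟩, g⁻¹ * y * g, g⁻¹ * e * g, ?_, fun k => e2 (one_of_cj k), fun k => e3 ?_, ?_, ?_⟩
  · calc _ = g⁻¹ * (x * (g * a * g⁻¹) * x⁻¹) * g := by group
      _ = g⁻¹ * negCo * g⁻¹⁻¹ * a := by rw [h1]; group
      _ = _ := by rw [cn]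
  · calc _ = g⁻¹ * (e * e) * g := by group
      _ = _ := by rw [e1]; group
  · rw [← cn g, ← k]; group
  · calc _ = g⁻¹ * (y * (g * a * g⁻¹) * y⁻¹) * g := by group
      _ = _ := by rw [e4]; group
  · exact (comm_cj.1 e5.symm).symm

theorem norm_Sg {g : Co0} (h : g ∈ 𝐍(Sg)) : g ∈ Mon := by
  have le : Mon ≤ 𝐍(Sg) := fun x hx => mem_normalizer_of_conj_mem fun y hy => conj_mem_Sg hx hy
  by_contra n
  have := normal_of_top_le_normalizer (isCoatom_Mon.2 _ (lt_of_le_of_ne le fun e => n (e ▸ h))).ge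
  rcases normal_cases negCo_mem_Sg with e | e
  · have := card_le_of_le e
    rw [card_Sg, card_center] at this
    omega
  · have := card_Sg
    rw [e, card_top, card_Co0] at this
    omega

theorem perm_one (h : ∀ c ∈ CS, σ • c = c) : σ = 1 := Equiv.ext fun i => by_contra fun n => by
  obtain ⟨c, hc, a, b⟩ := exists_CS_sep (Ne.symm n)
  exact b (h c hc ▸ apply_mem_smul_finset.2 a)

theorem act_Mon {g : Co0} (h : g ∈ 𝐍(Sg)) : ∃ σ ∈ M24, ∀ c ∈ CS, g * ep c * g⁻¹ = ep (σ • c) := by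
  obtain ⟨σ, d, hσ, hd, rfl⟩ := mem_Mon.1 (norm_Sg h)
  exact ⟨σ, hσ, fun c hc => mono_ep hc hσ hd⟩

theorem cent_Sg {a : Co0} (h : ∀ s ∈ Sg, Commute s a) : a * a = 1 := by
  obtain ⟨σ, d, hσ, hd, rfl⟩ := mem_Mon.1 (norm_Sg (g := a) (centralizer_le_normalizer _ h))
  obtain rfl : σ = 1 := perm_one fun c hc => ep_inj (smul_mem_CS hσ hc) hc
    ((mono_ep hc hσ hd).symm.trans (conj_of_comm (h _ (ep_mem c))))
  exact Sg_sq (mem_Sg.2 ⟨_, _, rfl⟩)

theorem jA' {X : Subgroup Co0} (h2 : ∀ g ∈ X, g * g = 1) (n : negCo ∈ X) (h3 : Nat.card X = 4096) :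
    ∃ g, cj[g] X = Sg := by
  have k : mk.ker = center Co0 := QuotientGroup.ker_mk' _
  have le : ∀ {X : Subgroup Co0}, negCo ∈ X → mk.ker ≤ X := fun n x hx => by
    rcases Leech.mem_center_iff.1 (k ▸ hx) with rfl | rfl
    exacts [one_mem _, n]
  obtain ⟨g, e⟩ := MonU.jA (X := X.map mk) (by rintro _ ⟨g, hg, rfl⟩; rw [← map_mul, h2 g hg, map_one]) (by
    have := (mk.ker.subgroupOf X).card_mul_index
    rw [Nat.card_congr (subgroupOfEquivOfLe (le n)).toEquiv, h3, ← relIndex, relIndex_ker, k, card_center] at this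
    omega)
  obtain ⟨g, rfl⟩ := mk_surj g
  refine ⟨g, ?_⟩
  rw [← map_cj] at e
  rw [← comap_map_eq_self (le (mem_cj.2 (by rwa [negCo_comm, inv_mul_cancel_right]))), e]
  exact comap_map_eq_self (le negCo_mem_Sg)

theorem no7 (hσ : σ ∈ M24) (h : σ ^ 7 = 1) (n : σ ≠ 1) (hd : d ∈ dodecads) : σ • d ≠ d := fun e => by
  obtain ⟨g, hg, rfl⟩ := M.tD hd
  have : Fact (Nat.Prime 7) := ⟨by norm_num⟩
  have m : (⟨g, hg⟩ : M24)⁻¹ * ⟨σ, hσ⟩ * (⟨g, hg⟩ : M24)⁻¹⁻¹ ∈ MulAction.stabilizer M24 M.sD :=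
    show (g⁻¹ * σ * g⁻¹⁻¹) • M.sD = M.sD by rw [inv_inv, mul_smul, mul_smul, e, inv_smul_smul]
  have o : orderOf (⟨σ, hσ⟩ : M24) = 7 := orderOf_eq_prime (Subtype.ext h) fun k => n (congrArg Subtype.val k)
  have := orderOf_dvd_natCard _ m
  rw [ord_cj, o, M.card12] at this
  omega

/-- an element of order seven -/
noncomputable def s7 : Equiv.Perm GolayPt := permOf 385096529977072870066129788435875478

/-- an element exchanging two octads -/
noncomputable def t2 : Equiv.Perm GolayPt := permOf 60409418525145327190282337509329415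

theorem s7_mem : s7 ∈ M24 := permOf_mem_M24 (by decide +kernel)

theorem t2_mem : t2 ∈ M24 := permOf_mem_M24 (by decide +kernel)

theorem s7_pow : s7 ^ 7 = 1 := Equiv.ext fun p => by
  have h : permCheck 385096529977072870066129788435875478 = true := by decide +kernel
  simp only [pow_succ, pow_zero, one_mul, Equiv.Perm.mul_apply, s7, permOf_apply h, Equiv.Perm.one_apply]
  revert p; decide +kernel

theorem dat : s7 • ofMask 5286147 = ofMask 5286147 ∧ s7 • ofMask 14285763 = ofMask 14285763 ∧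
    s7 • ofMask 5279 ≠ ofMask 5279 ∧ t2 • ofMask 14285763 = ofMask 14285763 ∧
    t2 • ofMask 5286147 = symmDiff (ofMask 14285763) (ofMask 5286147) := by
  simp only [s7, t2, permOf_smul_ofMask (show permCheck 385096529977072870066129788435875478 = true by decide +kernel),
    permOf_smul_ofMask (show permCheck 60409418525145327190282337509329415 = true by decide +kernel), ← ofMask_xor]
  refine ⟨congrArg ofMask (by decide +kernel), congrArg ofMask (by decide +kernel), fun e => ?_,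
    congrArg ofMask (by decide +kernel), congrArg ofMask (by decide +kernel)⟩
  exact absurd (eq_of_ofMask_eq (by decide +kernel) (by decide +kernel) e) (by decide +kernel)

theorem ep_conj (h : c ∈ CS) (k : d ∈ CS) (e : c.card = d.card) : IsConj (ep c) (ep d) := by
  have o : ∀ {c d}, c ∈ octads → d ∈ octads → ∃ g ∈ M24, g • c = d := fun a b => by
    obtain ⟨x, hx, rfl⟩ := M.tO a
    obtain ⟨y, hy, rfl⟩ := M.tO b
    exact ⟨y * x⁻¹, mul_mem hy (inv_mem hx), by rw [mul_smul, inv_smul_smul]⟩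
  obtain ⟨g, hg, rfl⟩ : ∃ g ∈ M24, g • c = d := by
    rcases card_of_mem_CS h with a | a | a | a | a
    · exact ⟨1, one_mem _, by rw [Finset.card_eq_zero.1 a, Finset.card_eq_zero.1 (e.symm.trans a), one_smul]⟩
    · exact o ⟨h, a⟩ ⟨k, e ▸ a⟩
    · obtain ⟨x, hx, rfl⟩ := M.tD (mem_dodecads.2 ⟨h, a⟩)
      obtain ⟨y, hy, rfl⟩ := M.tD (mem_dodecads.2 ⟨k, e ▸ a⟩)
      exact ⟨y * x⁻¹, mul_mem hy (inv_mem hx), by rw [mul_smul, inv_smul_smul]⟩
    · obtain ⟨g, hg, b⟩ := o (c := cᶜ) (d := dᶜ)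
        (mem_octads.2 ⟨compl_mem_CS h, by rw [Finset.card_compl, card_pts, a]⟩)
        (mem_octads.2 ⟨compl_mem_CS k, by rw [Finset.card_compl, card_pts, ← e, a]⟩)
      exact ⟨g, hg, compl_injective (by rwa [← smul_compl])⟩
    · exact ⟨1, one_mem _, by
        rw [one_smul, Finset.eq_univ_of_card c (a.trans card_pts.symm),
          Finset.eq_univ_of_card d ((e.symm.trans a).trans card_pts.symm)]⟩
  exact isConj_iff.2 ⟨_, mono_ep h hg empty_mem_CS⟩

end CF.StdZ.Co
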