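import Cfsg.Agent.StdZ.Cyc

/-! Models of a subgroup of index two of a group with a central involution inside involution centralisers. -/

set_option autoImplicit false

namespace CF.StdZ.E8

open Subgroup

variable {Γ G : Type*} [Group Γ] [Group G]

/-- the subgroup generated by the elements of odd order -/
def O2 (A : Subgroup G) : Subgroup G := closure {x | x ∈ A ∧ Odd (orderOf x)}

/-- the centraliser of an element -/
abbrev Cn (x : G) : Subgroup G := centralizer {x}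

/-- an element whose order is a power of two -/
def Tw (x : G) : Prop := ∃ n : ℕ, x ^ 2 ^ n = 1

theorem mem_Cn {x y : G} : y ∈ Cn x ↔ Commute y x := mem_centralizer_singleton_iff

theorem O2_le (A : Subgroup G) : O2 A ≤ A := (closure_le _).2 fun _ h => h.1

theorem O2_mono {A B : Subgroup G} (h : A ≤ B) : O2 A ≤ O2 B := closure_mono fun _ k => ⟨h k.1, k.2⟩

theorem odd_of_pow {x : G} {n : ℕ} (o : Odd n) (e : x ^ n = 1) : Odd (orderOf x) :=
  o.of_dvd_nat (orderOf_dvd_of_pow_eq_one e)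

theorem O2_conj {A B : Subgroup G} {g : G} (h : ∀ x ∈ A, g * x * g⁻¹ ∈ B) {x : G} (hx : x ∈ O2 A) :
    g * x * g⁻¹ ∈ O2 B :=
  (closure_le ((O2 B).comap (MulAut.conj g).toMonoidHom)).2
    (fun y hy => subset_closure ⟨h y hy.1, (ord_cj g y).symm ▸ hy.2⟩) hx

theorem Tw.of_sq {x : G} (h : x * x = 1) : Tw x := ⟨1, by rwa [pow_one, pow_two]⟩

theorem Tw.conj {x : G} (h : Tw x) (g : G) : Tw (g * x * g⁻¹) := h.imp fun n e => by rw [conj_pow, e]; simp

/-- a subgroup of index two with its central involution -/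
structure W0 (H : Subgroup Γ) (m : Γ) : Prop where
  idx : H.index = 2
  mH : m ∈ H
  mm : m * m = 1
  m1 : m ≠ 1
  mc : ∀ x, Commute m x
  cen : ∀ w, (∀ x ∈ H, Commute w x) → w = 1 ∨ w = m

/-- `c` acts as `w` -/
def Act (H : Subgroup Γ) (ι : Γ → G) (c : G) (w : Γ) : Prop := ∀ x ∈ H, c * ι x * c⁻¹ = ι (w * x * w⁻¹)

/-- a model -/
structure Mo (H : Subgroup Γ) (m : Γ) (z : G) (ι : Γ → G) : Prop where
  w0 : W0 H m
  mul : ∀ x ∈ H, ∀ y ∈ H, ι (x * y) = ι x * ι y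
  inj : ∀ x ∈ H, ι x = 1 → x = 1
  hz : ι m = z
  act : ∀ c, Commute z c → ∃ w, Act H ι c w
  uq : ∀ k, Act H ι k 1 → k * k = 1 → k = 1 ∨ k = z
  om : ∀ a b, Act H ι a 1 → Act H ι b 1 → Odd (orderOf a) → Odd (orderOf b) → Odd (orderOf (a * b))

variable {H : Subgroup Γ} {m : Γ}

theorem W0.cj (h : W0 H m) {x : Γ} (hx : x ∈ H) (g : Γ) : g * x * g⁻¹ ∈ H :=
  (normal_of_index_eq_two h.idx).conj_mem x hx g

theorem W0.cj_iff (h : W0 H m) {x : Γ} (g : Γ) : g * x * g⁻¹ ∈ H ↔ x ∈ H :=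
  ⟨fun k => by simpa [mul_assoc] using h.cj k g⁻¹, fun k => h.cj k g⟩

theorem W0.cm (h : W0 H m) (g : Γ) : g * m * g⁻¹ = m := conj_of_comm (h.mc g)

theorem W0.mul_iff (h : W0 H m) {x y : Γ} : x * y ∈ H ↔ (x ∈ H ↔ y ∈ H) := mul_mem_iff_of_index_two h.idx

theorem W0.msq (h : W0 H m) (x : Γ) : m * x * (m * x) = x * x := by
  rw [mul_assoc, ← mul_assoc x, ← (h.mc x).eq, ← mul_assoc, ← mul_assoc, h.mm, one_mul]

theorem act_one (ι : Γ → G) : Act H ι 1 1 := fun x _ => by simp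

theorem Act.cm {ι : Γ → G} {k : G} (h : Act H ι k 1) {x : Γ} (hx : x ∈ H) : Commute (ι x) k :=
  comm_of_conj (by simpa using h x hx)

theorem Act.comm {ι : Γ → G} {c : G} {w x : Γ} (h : Act H ι c w) (hx : x ∈ H) (k : Commute x w) :
    Commute (ι x) c := comm_of_conj (by rw [h x hx, conj_of_comm k])

namespace Mo

variable {z c d : G} {ι : Γ → G} {v w x y : Γ} (h : Mo H m z ι)
include h

theorem one : ι 1 = 1 := by simpa using h.mul 1 (one_mem _) 1 (one_mem _)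

theorem inv (hx : x ∈ H) : ι x⁻¹ = (ι x)⁻¹ :=
  eq_inv_of_mul_eq_one_left (by rw [← h.mul _ (inv_mem hx) _ hx, inv_mul_cancel, h.one])

theorem pow (hx : x ∈ H) (n : ℕ) : ι (x ^ n) = ι x ^ n := by
  induction n with
  | zero => simpa using h.one
  | succ n ih => rw [pow_succ, h.mul _ (pow_mem hx n) _ hx, ih, pow_succ]

theorem eq (hx : x ∈ H) (hy : y ∈ H) (e : ι x = ι y) : x = y :=
  inv_mul_eq_one.1 (h.inj _ (mul_mem (inv_mem hx) hy) (by rw [h.mul _ (inv_mem hx) _ hy, h.inv hx, e, inv_mul_cancel]))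

theorem self (hx : x ∈ H) : Act H ι (ι x) x := fun y hy => by
  rw [h.mul _ (mul_mem hx hy) _ (inv_mem hx), h.mul _ hx _ hy, h.inv hx]

theorem zz : z * z = 1 := by rw [← h.hz, ← h.mul _ h.w0.mH _ h.w0.mH, h.w0.mm, h.one]

theorem z1 : z ≠ 1 := fun e => h.w0.m1 (h.inj _ h.w0.mH (h.hz.trans e))

theorem zm (hx : x ∈ H) : ι (m * x) = z * ι x := by rw [h.mul _ h.w0.mH _ hx, h.hz]

theorem cz (a : Act H ι c w) : Commute z c := h.hz ▸ a.comm h.w0.mH (h.w0.mc w)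

theorem amul (a : Act H ι c w) (b : Act H ι d v) : Act H ι (c * d) (w * v) := fun x hx => by
  rw [← conj_conj', b x hx, a _ (h.w0.cj hx v), conj_conj']

theorem ainv (a : Act H ι c w) : Act H ι c⁻¹ w⁻¹ := fun x hx => by
  have := a _ (h.w0.cj hx w⁻¹)
  rw [conj_conj', mul_inv_cancel, one_mul, inv_one, mul_one] at this
  rw [← this]; group

theorem apow (a : Act H ι c w) (n : ℕ) : Act H ι (c ^ n) (w ^ n) := by
  induction n with
  | zero => simpa using act_one ι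
  | succ n ih => rw [pow_succ, pow_succ]; exact h.amul ih a

theorem acj (a : Act H ι c w) (b : Act H ι d v) : Act H ι (c * d * c⁻¹) (w * v * w⁻¹) :=
  h.amul (h.amul a b) (h.ainv a)

theorem am (a : Act H ι c w) : Act H ι c (m * w) := fun x hx => by
  rw [a x hx, ← conj_conj', conj_of_comm (h.w0.mc _).symm]

theorem az : Act H ι z 1 := by simpa [h.hz, h.w0.mm] using h.am (h.self h.w0.mH)

theorem uniq (a : Act H ι c w) (b : Act H ι c v) : v = w ∨ v = m * w := by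
  have := h.w0.cen (v * w⁻¹) fun x hx => (comm_of_conj (h.eq (h.w0.cj hx _) hx (by
    simpa using (h.amul b (h.ainv a) x hx).symm))).symm
  rwa [mul_inv_eq_one, mul_inv_eq_iff_eq_mul] at this

theorem comm' (a : Act H ι c w) (hx : x ∈ H) (k : Commute (ι x) c) : Commute x w :=
  comm_of_conj (h.eq (h.w0.cj hx _) hx (by rw [← a x hx, conj_of_comm k]))

theorem ker (a : Act H ι c x) (hx : x ∈ H) : Act H ι ((ι x)⁻¹ * c) 1 := by
  simpa using h.amul (h.ainv (h.self hx)) a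

theorem inv_eq (a : Act H ι c x) (hx : x ∈ H) (xx : x * x = 1) (cc : c * c = 1) : c = ι x ∨ c = ι (m * x) := by
  have k := h.ker a hx
  have e : c = ι x * ((ι x)⁻¹ * c) := by group
  generalize (ι x)⁻¹ * c = k' at k e
  rcases h.uq _ k (by
    rwa [e, (k.cm hx).symm.mul_mul_mul_comm, ← h.mul _ hx _ hx, xx, h.one, one_mul] at cc) with rfl | rfl
  · exact .inl (by rw [e, mul_one])
  · exact .inr (by rw [e, h.zm hx, (k.cm hx).eq])

theorem cj (g : G) : Mo H m (g * z * g⁻¹) fun x => g * ι x * g⁻¹ := by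
  have k : ∀ {c w}, Act H (fun x => g * ι x * g⁻¹) c w ↔ Act H ι (g⁻¹ * c * g) w := fun {c w} =>
    forall₂_congr fun x _ => ⟨fun e => by
      beta_reduce at e
      calc _ = g⁻¹ * (c * (g * ι x * g⁻¹) * c⁻¹) * g := by group
        _ = _ := by rw [e]; group, fun e => by beta_reduce; rw [← e]; group⟩
  refine ⟨h.w0, fun x hx y hy => by rw [h.mul x hx y hy, conj_mul], fun x hx e => h.inj x hx (conj_eq_one_iff.1 e),
    by rw [h.hz], fun c e => (h.act _ (comm_cj.1 e)).imp fun _ => k.2, fun c a e => ?_, fun a b p q s t => ?_⟩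
  · rcases h.uq _ (k.1 a) (by simp [mul_assoc, ← mul_assoc c, e]) with e | e
    exacts [.inl (one_of_cj e), .inr (by rw [← e]; group)]
  · have := h.om _ _ (k.1 p) (k.1 q) (by rwa [← ord_cj g⁻¹, inv_inv] at s) (by rwa [← ord_cj g⁻¹, inv_inv] at t)
    rwa [← ord_cj g, show g * (g⁻¹ * a * g * (g⁻¹ * b * g)) * g⁻¹ = a * b by group] at this

theorem tw_act (g : Γ) : Act H (fun x => ι (g⁻¹ * x * g)) c (g * w * g⁻¹) ↔ Act H ι c w :=
  ⟨fun a x hx => by simpa [mul_assoc] using a _ (h.w0.cj hx g), fun a x hx => by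
    simpa [mul_assoc] using a _ (h.w0.cj hx g⁻¹)⟩

theorem tw (g : Γ) : Mo H m z fun x => ι (g⁻¹ * x * g) := by
  have c : ∀ {x}, x ∈ H → g⁻¹ * x * g ∈ H := fun hx => by simpa using h.w0.cj hx g⁻¹
  have k : ∀ {c}, Act H (fun x => ι (g⁻¹ * x * g)) c 1 → Act H ι c 1 := fun a => (h.tw_act g).1 (by simpa using a)
  exact ⟨h.w0, fun x hx y hy => by rw [← h.mul _ (c hx) _ (c hy)]; congr 1; group,
    fun x hx e => one_of_cj (h.inj _ (c hx) e), by simpa [h.hz] using congrArg ι (h.w0.cm g⁻¹),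
    fun c e => (h.act c e).elim fun w a => ⟨_, (h.tw_act g).2 a⟩, fun c a => h.uq c (k a),
    fun a b p q => h.om a b (k p) (k q)⟩

theorem map_O2 [Finite Γ] {A : Subgroup Γ} {B : Subgroup G} (k : ∀ x ∈ H, x ∈ A → ι x ∈ B) (hx : x ∈ O2 (H ⊓ A)) :
    ι x ∈ O2 B := by
  induction hx using closure_induction with
  | mem x hx => exact subset_closure ⟨k x hx.1.1 hx.1.2, odd_of_pow hx.2 (by
      rw [← h.pow hx.1.1, pow_orderOf_eq_one, h.one])⟩
  | one => exact h.one ▸ one_mem _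
  | mul x y a b p q => exact h.mul _ (O2_le _ a).1 _ (O2_le _ b).1 ▸ mul_mem p q
  | inv x a p => exact h.inv (O2_le _ a).1 ▸ inv_mem p

theorem split (a : Act H ι d w) (o : Odd (orderOf c)) (p : Commute c z) (q : Commute c d) :
    ∃ y ∈ H ⊓ Cn w, Odd (orderOf y) ∧ ∃ k, Act H ι k 1 ∧ Odd (orderOf k) ∧ c = ι y * k := by
  obtain ⟨v, b⟩ := h.act c p.symm
  obtain ⟨n, hn⟩ := o
  have e : (c * c) ^ (n + 1) = c := by
    rw [← pow_two, ← pow_mul, show 2 * (n + 1) = 2 * n + 1 + 1 by ring, pow_succ, ← hn, pow_orderOf_eq_one, one_mul]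
  have b' := h.apow (h.amul b b) (n + 1)
  have m1 : (v * v) ^ (n + 1) ∈ H := pow_mem (h.w0.mul_iff.2 Iff.rfl) _
  have u1 : ((v * v) ^ (n + 1)) ^ (2 * n + 1) = 1 := by
    have := h.apow b (2 * n + 1)
    rw [← hn, pow_orderOf_eq_one, hn] at this
    rw [← pow_two, ← pow_mul, ← pow_mul, show 2 * ((n + 1) * (2 * n + 1)) = (2 * n + 1) * 2 * (n + 1) by ring,
      pow_mul, pow_mul, pow_two]
    rcases h.uniq (act_one ι) this with k | k <;> simp [k, h.w0.mm]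
  rw [e] at b'
  generalize (v * v) ^ (n + 1) = u at b' m1 u1
  have k := h.ker b' m1
  refine ⟨u, ⟨m1, mem_Cn.2 (comm_of_conj ?_)⟩, odd_of_pow ⟨n, rfl⟩ u1, _, k, odd_of_pow ⟨n, rfl⟩ ?_, by group⟩
  · refine (h.uniq b' (conj_of_comm q ▸ h.acj a b')).resolve_right fun e => h.w0.m1 ?_
    have := congrArg (· ^ (2 * n + 1)) e
    simp only [conj_pow, u1, (h.w0.mc u).mul_pow, pow_odd h.w0.mm ⟨n, rfl⟩] at this
    simpa using this.symm
  · rw [(b'.comm m1 rfl).inv_left.mul_pow, ← hn, pow_orderOf_eq_one, hn, inv_pow, ← h.pow m1, u1, h.one]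
    simp

theorem res (a : Act H ι d w) (hc : c ∈ O2 (Cn z ⊓ Cn d)) (t : Tw c) : ∃ y ∈ O2 (H ⊓ Cn w), c = ι y := by
  have : ∃ y ∈ O2 (H ⊓ Cn w), ∃ k, Act H ι k 1 ∧ Odd (orderOf k) ∧ c = ι y * k := by
    clear t
    induction hc using closure_induction with
    | mem x hx =>
      obtain ⟨y, p, q, r⟩ := h.split a hx.2 (mem_Cn.1 hx.1.1) (mem_Cn.1 hx.1.2)
      exact ⟨y, subset_closure ⟨p, q⟩, r⟩
    | one => exact ⟨1, one_mem _, 1, act_one ι, by simp, by simp [h.one]⟩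
    | mul _ _ _ _ p q =>
      obtain ⟨x, hx, k, a, b, rfl⟩ := p
      obtain ⟨y, hy, l, c, d, rfl⟩ := q
      exact ⟨_, mul_mem hx hy, _, by simpa using h.amul a c, h.om _ _ a c b d, by
        rw [h.mul _ (O2_le _ hx).1 _ (O2_le _ hy).1, (a.cm (O2_le _ hy).1).symm.mul_mul_mul_comm]⟩
    | inv _ _ p =>
      obtain ⟨x, hx, k, a, b, rfl⟩ := p
      exact ⟨_, inv_mem hx, _, by simpa using h.ainv a, by rwa [orderOf_inv], by
        rw [h.inv (O2_le _ hx).1, (a.cm (O2_le _ hx).1).mul_inv]⟩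
  obtain ⟨y, hy, k, b, o, rfl⟩ := this
  obtain ⟨n, e⟩ := t
  have m1 : y ∈ H := (O2_le _ hy).1
  rw [(b.cm m1).mul_pow, ← h.pow m1] at e
  have := h.apow b (2 ^ n)
  rw [eq_inv_of_mul_eq_one_right e, ← h.inv (pow_mem m1 _), one_pow] at this
  refine ⟨y, hy, (mul_eq_left.2 (eq_one_of_odd o (k := n + 1) ?_))⟩
  rw [pow_succ, pow_mul, eq_inv_of_mul_eq_one_right e, ← h.inv (pow_mem m1 _), ← h.pow (inv_mem (pow_mem m1 _)), pow_two]
  rcases h.uniq this (h.self (inv_mem (pow_mem m1 _))) with k | k <;> simp [k, h.w0.mm, h.one]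

theorem prime (a : Act H ι d w) {p q : G} (hp : p ∈ O2 (Cn z ⊓ Cn d)) (hq : q ∈ O2 (Cn z ⊓ Cn d)) (s : Tw p) (t : Tw q)
    {n : ℕ} (e : (p * q) ^ n = 1) (n1 : p * q ≠ 1) : ∃ y, y ^ n = 1 ∧ y ≠ 1 ∧ Commute y w := by
  obtain ⟨x, hx, rfl⟩ := h.res a hp s
  obtain ⟨y, hy, rfl⟩ := h.res a hq t
  have k := O2_le _ (mul_mem hx hy)
  rw [← h.mul _ (O2_le _ hx).1 _ (O2_le _ hy).1] at e n1
  exact ⟨_, h.inj _ (pow_mem k.1 n) (by rwa [h.pow k.1]), fun e => n1 (by rw [e, h.one]), mem_Cn.1 k.2⟩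

theorem ext (a : Act H ι c w) (n : w ∉ H) (ww : w * w = 1) (cc : c * c = 1) :
    ∃ κ : Γ →* G, Mo H m z κ ∧ κ w = c ∧ Function.Injective κ ∧ ∀ x, Act H κ (κ x) x := by
  classical
  have o : ∀ {x}, x ∉ H → x * w ∈ H := fun hx => h.w0.mul_iff.2 (iff_of_false hx n)
  have wi : w⁻¹ = w := inv_eq_of_mul_eq_one_right ww
  have a' : ∀ x ∈ H, c * ι x = ι (w * x * w) * c := fun x hx => by
    rw [← mul_inv_eq_iff_eq_mul, a x hx, wi]
  have c' : ∀ {x}, x ∈ H → w * x * w ∈ H := fun hx => by simpa [wi] using h.w0.cj hx w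
  let κ : Γ →* G := MonoidHom.mk' (fun x => if x ∈ H then ι x else ι (x * w) * c) fun x y => by
    by_cases hx : x ∈ H <;> by_cases hy : y ∈ H <;> simp only [h.w0.mul_iff, hx, hy, if_true, if_false, iff_self, iff_false,
      iff_true, not_true, not_false_iff]
    · exact h.mul _ hx _ hy
    · rw [mul_assoc x, h.mul _ hx _ (o hy), mul_assoc]
    · rw [mul_assoc _ c, a' _ hy, ← mul_assoc, ← h.mul _ (o hx) _ (c' hy)]
      simp [mul_assoc, ← mul_assoc w w, ww]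
    · rw [mul_assoc, ← mul_assoc c, a' _ (o hy), mul_assoc, cc, mul_one, ← h.mul _ (o hx) _ (c' (o hy))]
      simp [mul_assoc, ← mul_assoc w w, ww]
  have e : ∀ x ∈ H, κ x = ι x := fun x hx => if_pos hx
  have k : ∀ {c v}, Act H κ c v ↔ Act H ι c v := fun {c v} =>
    forall₂_congr fun x hx => by rw [e x hx, e _ (h.w0.cj hx v)]
  have s : ∀ x, Act H κ (κ x) x := fun x y _ => by simp
  have M : Mo H m z κ := ⟨h.w0, fun x _ y _ => map_mul κ x y, fun x hx p => h.inj x hx (e x hx ▸ p),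
    (e _ h.w0.mH).trans h.hz, fun c p => (h.act c p).imp fun _ => k.2, fun c p => h.uq c (k.1 p),
    fun a b p q => h.om a b (k.1 p) (k.1 q)⟩
  refine ⟨κ, M, (if_neg n).trans (by rw [ww, h.one, one_mul]), (injective_iff_map_eq_one κ).2 fun x p => ?_, s⟩
  refine (M.uniq (act_one _) (p ▸ s x)).resolve_right fun q => h.z1 ?_
  rw [← M.hz, ← p, q, mul_one]

end Mo

end CF.StdZ.E8
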