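import Cfsg.Agent.StdZ.E8A

/-! The central involution of the model is isolated. -/

set_option autoImplicit false

namespace CF.StdZ.E8

open Subgroup

variable {Γ G : Type*} [Group Γ] [Group G]

/-- conjugate up to the central involution -/
def Cm (m w x : Γ) : Prop := ∃ g, g * w * g⁻¹ = x ∨ g * w * g⁻¹ = m * x

/-- an element of order dividing `n` as a product of two elements of two-power order -/
def Pq (A : Subgroup Γ) (n : ℕ) : Prop := ∃ p ∈ O2 A, ∃ q ∈ O2 A, Tw p ∧ Tw q ∧ (p * q) ^ n = 1 ∧ p * q ≠ 1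

/-- no element of order `n` commutes -/
def No (n : ℕ) (x : Γ) : Prop := ∀ y, y ^ n = 1 → Commute y x → y = 1

/-- the facts on an inner involution of type four -/
structure WD (H : Subgroup Γ) (m a x : Γ) : Prop where
  mem : x ∈ H
  sq : x * x = 1
  neg : ∃ c ∈ H, c * x * c⁻¹ = m * x
  two : ∃ c ∈ H, Commute x (c * x * c⁻¹) ∧ c * x * c⁻¹ ≠ x ∧ Cm m (x * (c * x * c⁻¹)) a
  n5 : No 5 x
  n7 : No 7 x

/-- a conjugate of `f` whose product with `f` has the type of `a` -/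
def Fa (m a f x : Γ) : Prop := IsConj f x ∧ Commute f x ∧ x ≠ f ∧ Cm m (f * x) a

/-- the facts used -/
structure WF (H : Subgroup Γ) (m a d e j r f s b : Γ) (Q : Set Γ) : Prop where
  w0 : W0 H m
  cls : ∀ w, w * w = 1 ∨ w * w = m → w = 1 ∨ w = m ∨ Cm m w a ∨ Cm m w d ∨ Cm m w e ∨ Cm m w j ∨ Cm m w r ∨ Cm m w f
  aH : a ∈ H
  jH : j ∈ H
  rH : r ∉ H
  fH : f ∉ H
  aa : a * a = 1
  a1 : a ≠ 1
  jj : j * j = m
  rr : r * r = 1
  ff : f * f = 1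
  wd : WD H m a d
  we : WD H m a e
  f5 : No 5 f
  a7 : No 7 a
  oa : m ∉ O2 (Cn a)
  or : m ∉ O2 (Cn r)
  jO : j ∈ O2 (H ⊓ Cn j)
  j5 : Pq (H ⊓ Cn j) 5
  r7 : Pq (H ⊓ Cn r) 7
  rs : a = r * s
  b5 : Pq (H ⊓ (Cn r ⊓ Cn s ⊓ Cn b)) 5
  QO : ∀ q ∈ Q, q ∈ O2 (H ⊓ (Cn r ⊓ Cn s)) ∧ q * q = 1
  cQ : ∀ w, (∀ q ∈ Q, Commute w q) → w * w = 1 ∧ Commute w r
  ma : m * a ∈ O2 (H ⊓ (Cn r ⊓ Cn s))
  sw : ∃ γ ∈ H, γ * r * γ⁻¹ = s ∧ γ * s * γ⁻¹ = r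
  cs : Commute r s
  am : a ≠ m
  ab : Commute a b
  ba : b ≠ a
  b1 : ∃ c ∈ H, c * a * c⁻¹ = b
  b2 : ∃ c ∈ H, c * a * c⁻¹ = a * b
  gen : O2 (H ⊓ Cn r) ≤ closure {x | x ∈ O2 (H ⊓ Cn r) ∧ x * x = 1}
  inn : ∀ β : Γ → Γ, (∀ x ∈ O2 (H ⊓ Cn r), β x ∈ O2 (H ⊓ Cn r)) →
    (∀ x ∈ O2 (H ⊓ Cn r), ∀ y ∈ O2 (H ⊓ Cn r), β (x * y) = β x * β y) → (∀ x ∈ O2 (H ⊓ Cn r), β x = 1 → x = 1) →
    ∃ h ∈ O2 (H ⊓ Cn r), ∀ x ∈ O2 (H ⊓ Cn r), β x = h * x * h⁻¹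
  fc : ∃ x y u v, Fa m a f x ∧ Fa m a f y ∧ Fa m a f u ∧ Fa m a f v ∧ IsConj f (f * (x * y)) ∧ f * (x * y) ≠ f ∧
    IsConj (x * y) (u * v) ∧ u * v ≠ f ∧ Cm m (f * (u * v)) r ∧ f * (u * v) ≠ m

variable {H : Subgroup Γ} {m a d e j r f s b w x : Γ} {Q : Set Γ}

theorem Cm.mem (h : W0 H m) (c : Cm m w x) : w ∈ H ↔ x ∈ H := by
  obtain ⟨g, e | e⟩ := c <;> rw [← h.cj_iff g, e]
  simp [h.mul_iff, h.mH]

theorem Pq.mono {A B : Subgroup Γ} {n : ℕ} (h : Pq A n) (l : A ≤ B) : Pq B n :=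
  let ⟨p, a, q, b, c⟩ := h; ⟨p, O2_mono l a, q, O2_mono l b, c⟩

theorem No.cm {n : ℕ} (h : W0 H m) (k : No n x) (c : Cm m w x) : No n w := fun y e p => by
  obtain ⟨g, c⟩ := c
  refine conj_eq_one_iff.1 (k (g * y * g⁻¹) (by rw [conj_pow, e]; simp) ?_)
  rcases c with c | c
  · exact c ▸ p.conj g
  · have := (h.mc (g * y * g⁻¹)).symm.inv_right.mul_right (c ▸ p.conj g)
    rwa [inv_mul_cancel_left] at this

theorem Mo.retw {z c : G} {ι : Γ → G} (h : Mo H m z ι) (k : Act H ι c w) (p : Cm m w x) :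
    ∃ ι', Mo H m z ι' ∧ Act H ι' c x := by
  obtain ⟨g, e | e⟩ := p
  · exact ⟨_, h.tw g, e ▸ (h.tw_act g).2 k⟩
  · have := (h.tw g).am ((h.tw_act g).2 k)
    rw [e, ← mul_assoc, h.w0.mm, one_mul] at this
    exact ⟨_, h.tw g, this⟩

theorem Mo.pq [Finite Γ] {z t u : G} {ι κ : Γ → G} (h : Mo H m z ι) (k : Mo H m t κ) (a : Act H κ u w) {A : Subgroup Γ}
    {n : ℕ} (p : Pq (H ⊓ A) n) (l : ∀ x ∈ H, x ∈ A → ι x ∈ Cn t ⊓ Cn u) : ¬ No n w := fun o => by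
  obtain ⟨p, hp, q, hq, ⟨i, s⟩, ⟨i', s'⟩, e, n1⟩ := p
  have p' : p ∈ H := (O2_le _ hp).1
  have q' : q ∈ H := (O2_le _ hq).1
  obtain ⟨y, y1, y2, y3⟩ := k.prime a (h.map_O2 l hp) (h.map_O2 l hq) ⟨i, by rw [← h.pow p', s, h.one]⟩
    ⟨i', by rw [← h.pow q', s', h.one]⟩ (n := n) (by rw [← h.mul _ p' _ q', ← h.pow (mul_mem p' q'), e, h.one])
    fun e => n1 (h.inj _ (mul_mem p' q') (by rwa [h.mul _ p' _ q']))
  exact y2 (o y y1 y3)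

/-- the type occurs -/
def Ty (H : Subgroup Γ) (m : Γ) (z0 : G) (w : Γ) : Prop :=
  ∃ z t ι, IsConj z0 z ∧ IsConj z0 t ∧ t ≠ z ∧ Mo H m z ι ∧ Act H ι t w

variable {z0 z t u : G} {ι0 ι : Γ → G}

theorem Ty.cm (h : Ty H m z0 w) (p : Cm m w x) : Ty H m z0 x :=
  let ⟨z, t, _, a, b, c, M, k⟩ := h; let ⟨ι', M', k'⟩ := M.retw k p; ⟨z, t, ι', a, b, c, M', k'⟩

theorem cj_Z (h : IsConj z0 t) (g : G) : IsConj z0 (g * t * g⁻¹) := h.trans (isConj_iff.2 ⟨g, rfl⟩)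

theorem cn_le (M : Mo H m z ι) (k : Act H ι t w) : ∀ x ∈ H, x ∈ Cn w → ι x ∈ Cn t ⊓ Cn z := fun _ hx c =>
  ⟨mem_Cn.2 (k.comm hx (mem_Cn.1 c)), mem_Cn.2 (M.cz (M.self hx)).symm⟩

theorem WF.le_a (W : WF H m a d e j r f s b Q) : Cn r ⊓ Cn s ≤ Cn a := fun _ h =>
  mem_Cn.2 (W.rs ▸ (mem_Cn.1 h.1).mul_right (mem_Cn.1 h.2))

variable [Finite Γ] (W : WF H m a d e j r f s b Q) (M0 : Mo H m z0 ι0)
include W M0

omit W [Finite Γ] in
theorem sqZ (h : IsConj z0 t) : t * t = 1 := by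
  obtain ⟨g, rfl⟩ := isConj_iff.1 h
  rw [conj_mul, M0.zz]; simp

omit [Finite Γ] in
theorem types (M : Mo H m z ι) (ht : IsConj z0 t) (n : t ≠ z) (k : Act H ι t w) :
    Cm m w a ∨ Cm m w d ∨ Cm m w e ∨ Cm m w j ∨ Cm m w r ∨ Cm m w f := by
  have tt := sqZ M0 ht
  have n1 : ¬ Act H ι t 1 := fun k => (M.uq t k tt).elim (fun e => M0.z1 (by simpa [e] using ht)) n
  rcases W.cls w (by simpa using M.uniq (act_one ι) (tt ▸ M.amul k k)) with rfl | rfl | c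
  · exact absurd k n1
  · exact absurd (W.w0.mm ▸ M.am k) n1
  · exact c

omit [Finite Γ] in
theorem view (ht : IsConj z0 t) (hu : IsConj z0 u) (n : u ≠ t) (c : Commute t u) : ∃ κ, Mo H m t κ ∧
    (Act H κ u a ∨ Act H κ u d ∨ Act H κ u e ∨ Act H κ u j ∨ Act H κ u r ∨ Act H κ u f) := by
  obtain ⟨g, rfl⟩ := isConj_iff.1 ht
  obtain ⟨w, k⟩ := (M0.cj g).act u c
  rcases types W M0 (M0.cj g) hu n k with p | p | p | p | p | p <;> obtain ⟨κ, M, k⟩ := (M0.cj g).retw k p <;>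
    exact ⟨κ, M, by simp [k]⟩

theorem no_j : ¬ Ty H m z0 j := fun ⟨z, t, ι, hz, ht, n, M, k⟩ => by
  obtain ⟨κ, N, v⟩ := view W M0 ht hz n.symm (M.cz k).symm
  have l := cn_le M k
  have n5 := fun {x} (p : Act H κ z x) => M.pq N p W.j5 l
  have key : ∀ {x}, Act H κ z x → ∃ y ∈ H, ι j = κ y ∧ z = κ (y * y) ∧ (y * y = x ∨ y * y = m * x) := fun p => by
    obtain ⟨y, hy, e⟩ := N.res p (M.map_O2 l W.jO) ⟨2, by
      rw [← M.pow W.jH, show 2 ^ 2 = 2 * 2 by rfl, pow_mul, pow_two j, W.jj, pow_two, W.w0.mm, M.one]⟩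
    have hy : y ∈ H := (O2_le _ hy).1
    have : z = κ (y * y) := by rw [N.mul _ hy _ hy, ← e, ← M.mul _ W.jH _ W.jH, W.jj, M.hz]
    exact ⟨y, hy, e, this, N.uniq p (this ▸ N.self (mul_mem hy hy))⟩
  have out : ∀ {x}, Act H κ z x → x ∈ H := fun p => by
    obtain ⟨y, hy, -, -, e | e⟩ := key p
    exacts [e ▸ mul_mem hy hy, (mul_mem_cancel_left W.w0.mH).1 (e ▸ mul_mem hy hy)]
  rcases v with p | p | p | p | p | p
  · obtain ⟨y, hy, e, e', -⟩ := key p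
    refine M.z1 (e'.trans ((congrArg κ (W.cQ y fun q hq => ?_).1).trans N.one))
    have o := O2_mono (inf_le_inf_left H W.le_a) (W.QO q hq).1
    have qH : q ∈ H := (O2_le _ o).1
    obtain ⟨x, hx, e2⟩ := M.res k (N.map_O2 (cn_le N p) o) (.of_sq (by rw [← N.mul _ qH _ qH, (W.QO q hq).2, N.one]))
    refine N.comm' (N.self qH) hy ?_
    rw [← e, e2]
    exact (M.self (O2_le _ hx).1).comm W.jH (mem_Cn.1 (O2_le _ hx).2).symm
  · exact n5 p W.wd.n5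
  · exact n5 p W.we.n5
  · obtain ⟨y, hy, -, e, e'⟩ := key p
    have := M.zz
    rw [e, ← N.mul _ (mul_mem hy hy) _ (mul_mem hy hy)] at this
    refine W.w0.m1 (Eq.trans ?_ (N.inj _ (mul_mem (mul_mem hy hy) (mul_mem hy hy)) this))
    rcases e' with e' | e' <;> rw [e']
    exacts [W.jj.symm, by rw [W.w0.msq, W.jj]]
  · exact W.rH (out p)
  · exact W.fH (out p)

theorem no_ma (M : Mo H m z ι) (hz : IsConj z0 z) : ¬ IsConj z0 (ι (m * a)) := fun ht => by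
  have mH := mul_mem W.w0.mH W.aH
  have n : ι (m * a) ≠ z := fun e => W.a1 (by simpa using M.eq mH W.w0.mH (e.trans M.hz.symm))
  have k : Act H ι (ι (m * a)) a := by simpa [← mul_assoc, W.w0.mm] using M.am (M.self mH)
  obtain ⟨κ, N, v⟩ := view W M0 ht hz n.symm (M.cz k).symm
  have l := cn_le M k
  have n5 := fun {x} (p : Act H κ z x) => M.pq N p (W.b5.mono (inf_le_inf_left H (inf_le_left.trans W.le_a))) l
  have key : ∀ {x}, Act H κ z x → m ∈ O2 (Cn x) := fun p => by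
    obtain ⟨y, hy, e⟩ := N.res p (M.map_O2 l (O2_mono (inf_le_inf_left H W.le_a) W.ma)) (.of_sq (sqZ M0 ht))
    exact N.eq (O2_le _ hy).1 W.w0.mH (e.symm.trans N.hz.symm) ▸ O2_mono inf_le_right hy
  rcases v with p | p | p | p | p | p
  exacts [W.oa (key p), n5 p W.wd.n5, n5 p W.we.n5, no_j W M0 ⟨_, _, κ, ht, hz, n.symm, N, p⟩, W.or (key p), n5 p W.f5]

theorem no_r : ¬ Ty H m z0 r := fun ⟨z, t, ι', hz, ht, n, M', k'⟩ => by
  obtain ⟨ι, M, rfl, i, k⟩ := M'.ext k' W.rH W.rr (sqZ M0 ht)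
  clear M' k'
  obtain ⟨γ, γH, g1, g2⟩ := W.sw
  have hs : IsConj z0 (ι s) := by rw [← g1, map_mul, map_mul, map_inv]; exact cj_Z ht _
  have ns : ι s ≠ ι r := fun e => W.a1 (by rw [W.rs, i e, W.rr])
  have l : ∀ x ∈ H, x ∈ Cn r ⊓ Cn s → ι x ∈ Cn (ι r) ⊓ Cn (ι s) := fun x _ c =>
    ⟨mem_Cn.2 ((mem_Cn.1 c.1).map ι), mem_Cn.2 ((mem_Cn.1 c.2).map ι)⟩
  have ma : ι (m * a) = z * (ι r * ι s) := by rw [W.rs, map_mul, map_mul, M.hz]
  have mt : Tw (ι (m * a)) := .of_sq (by rw [← map_mul, W.w0.msq, W.aa, map_one])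
  obtain ⟨κ, N, p⟩ : ∃ κ, Mo H m (ι r) κ ∧ Act H κ (ι s) r := by
    obtain ⟨κ, N, v⟩ := view W M0 ht hz n.symm (M.cz (k r)).symm
    have n7 := fun {x} (p : Act H κ z x) => M.pq N p W.r7 (cn_le M (k r))
    obtain ⟨w, p, wH⟩ : ∃ w, Act H κ z w ∧ w ∉ H := by
      rcases v with p | p | p | p | p | p
      exacts [absurd W.a7 (n7 p), absurd W.wd.n7 (n7 p), absurd W.we.n7 (n7 p),
        absurd ⟨_, _, κ, ht, hz, n.symm, N, p⟩ (no_j W M0), ⟨_, p, W.rH⟩, ⟨_, p, W.fH⟩]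
    obtain ⟨v, q⟩ := N.act _ (W.cs.map ι)
    obtain ⟨y, hy, e⟩ := N.res q (M.map_O2 l W.ma) mt
    have yH : y ∈ H := (O2_le _ hy).1
    have vH : v ∉ H := fun vH => by
      have := N.uniq (N.self yH) (e ▸ ma ▸ N.amul p (N.amul N.az q))
      rw [one_mul] at this
      refine wH ((mul_mem_cancel_right vH).1 ?_)
      rcases this with e | e <;> rw [e]
      exacts [yH, mul_mem W.w0.mH yH]
    have n5 := M.pq N q W.b5 fun x hx c => l x hx c.1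
    rcases types W M0 N hs ns q with c | c | c | c | c | c
    exacts [absurd ((c.mem W.w0).2 W.aH) vH, absurd ((c.mem W.w0).2 W.wd.mem) vH, absurd ((c.mem W.w0).2 W.we.mem) vH,
      absurd ((c.mem W.w0).2 W.jH) vH, N.retw q c, absurd (W.f5.cm W.w0 c) n5]
  have SH : ∀ {x}, x ∈ O2 (H ⊓ Cn r) → x ∈ H := fun hx => (O2_le _ hx).1
  have l' : ∀ {x}, x ∈ O2 (H ⊓ Cn r) → κ x ∈ O2 (Cn (ι s) ⊓ Cn (ι r)) := N.map_O2 (cn_le N p)
  have le : closure {x | x ∈ O2 (H ⊓ Cn r) ∧ x * x = 1} ≤ O2 (H ⊓ Cn r) := (closure_le _).2 fun _ k => k.1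
  have nm : ∀ x ∈ O2 (H ⊓ Cn r), ∃ y ∈ O2 (H ⊓ Cn r), ι γ * κ x * (ι γ)⁻¹ = κ y := fun x hx => by
    have hx' := W.gen hx
    clear hx
    induction hx' using closure_induction with
    | mem x hx =>
      refine N.res p (O2_conj (fun y hy => mem_inf.2 ⟨mem_Cn.2 ?_, mem_Cn.2 ?_⟩) (l' hx.1)) (Tw.conj (.of_sq (by
        rw [← N.mul _ (SH hx.1) _ (SH hx.1), hx.2, N.one])) _)
      · rw [← g2, map_mul, map_mul, map_inv]; exact (mem_Cn.1 hy.1).conj _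
      · rw [← g1, map_mul, map_mul, map_inv]; exact (mem_Cn.1 hy.2).conj _
    | one => exact ⟨1, one_mem _, by simp [N.one]⟩
    | mul x y hx hy c d =>
      obtain ⟨u, hu, c⟩ := c
      obtain ⟨v, hv, d⟩ := d
      exact ⟨_, mul_mem hu hv, by rw [N.mul _ (SH (le hx)) _ (SH (le hy)), N.mul _ (SH hu) _ (SH hv), ← c, ← d, conj_mul]⟩
    | inv x hx c =>
      obtain ⟨u, hu, c⟩ := c
      exact ⟨_, inv_mem hu, by rw [N.inv (SH (le hx)), N.inv (SH hu), ← c, conj_inv]⟩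
  choose! β hβ e using nm
  obtain ⟨h, hh, c⟩ := W.inn β hβ (fun x hx y hy => N.eq (SH (hβ _ (mul_mem hx hy))) (mul_mem (SH (hβ _ hx)) (SH (hβ _ hy)))
    (by rw [N.mul _ (SH (hβ _ hx)) _ (SH (hβ _ hy)), ← e _ hx, ← e _ hy, ← e _ (mul_mem hx hy), N.mul _ (SH hx) _ (SH hy),
      conj_mul])) fun x hx c => N.inj _ (SH hx) (conj_eq_one_iff.1 (by rw [e _ hx, c, N.one]))
  have key : ∀ {x}, x ∈ O2 (H ⊓ (Cn r ⊓ Cn s)) → Tw (ι x) → κ h * ι x * (κ h)⁻¹ = ι (γ * x * γ⁻¹) := fun hx t => by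
    obtain ⟨y, hy, e'⟩ := N.res p (M.map_O2 l hx) t
    rw [map_mul, map_mul, map_inv, e', e _ hy, c _ hy, N.self (SH hh) _ (SH hy)]
  have c1 := O2_le _ (l' hh)
  have c2 : Commute z (κ h) := by
    have := key W.ma mt
    rw [← conj_mul, W.w0.cm, W.rs, ← conj_mul, g1, g2, ← W.cs.eq, ← W.rs] at this
    have := (comm_of_conj this).mul_left ((mem_Cn.1 c1.2).mul_right (mem_Cn.1 c1.1)).symm.inv_left
    rwa [ma, mul_inv_cancel_right] at this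
  obtain ⟨w, q⟩ := M.act _ c2
  have c3 := (W.cQ (γ⁻¹ * w) fun x hx => by
    have xH : x ∈ H := (O2_le _ (W.QO x hx).1).1
    have := i ((q x xH).symm.trans (key (W.QO x hx).1 (.of_sq (by rw [← map_mul, (W.QO x hx).2, map_one]))))
    refine (comm_of_conj ?_).symm
    rw [← conj_conj', this]; group).2
  have := M.uniq (k r) (conj_of_comm (mem_Cn.1 c1.2).symm ▸ M.acj q (k r))
  rw [show w * r * w⁻¹ = s by rw [← g1, ← congrArg (γ * · * γ⁻¹) (conj_of_comm c3.symm)]; group] at this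
  rcases this with e | e
  · exact ns (by rw [e])
  · exact W.am (by rw [W.rs, e, ← mul_assoc, ← (W.w0.mc r).eq, mul_assoc, W.rr, mul_one])

theorem no_a : ¬ Ty H m z0 a := fun ⟨z, t, ι, hz, ht, n, M, k⟩ => by
  obtain rfl := (M.inv_eq k W.aH W.aa (sqZ M0 ht)).resolve_right fun e => no_ma W M0 M hz (e ▸ ht)
  obtain ⟨c, hc, e1⟩ := W.b1
  obtain ⟨c', hc', e2⟩ := W.b2
  have bH : b ∈ H := e1 ▸ W.w0.cj W.aH c
  have hb : IsConj z0 (ι b) := by rw [← e1, ← M.self hc _ W.aH]; exact cj_Z ht _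
  have hab : IsConj z0 (ι a * ι b) := by rw [← M.mul _ W.aH _ bH, ← e2, ← M.self hc' _ W.aH]; exact cj_Z ht _
  have nb : ι b ≠ ι a := fun e => W.ba (M.eq bH W.aH e)
  obtain ⟨κ, N, v⟩ := view W M0 ht hb nb ((M.self bH).comm W.aH W.ab)
  have n5 := fun {x} (p : Act H κ (ι b) x) => M.pq N p W.b5 fun x hx c =>
    ⟨mem_Cn.2 (k.comm hx (mem_Cn.1 (W.le_a c.1))), mem_Cn.2 ((M.self bH).comm hx (mem_Cn.1 c.2))⟩
  rcases v with p | p | p | p | p | p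
  · rcases N.inv_eq p W.aH W.aa (sqZ M0 hb) with e | e
    exacts [no_ma W M0 N ht (by rwa [N.zm W.aH, ← e]), no_ma W M0 N ht (e ▸ hb)]
  exacts [n5 p W.wd.n5, n5 p W.we.n5, no_j W M0 ⟨_, _, κ, ht, hb, nb, N, p⟩, no_r W M0 ⟨_, _, κ, ht, hb, nb, N, p⟩,
    n5 p W.f5]

theorem inner (M : Mo H m t ι) (ht : IsConj z0 t) (hu : IsConj z0 u) (n : u ≠ t) (k : Act H ι u w) (wH : w ∈ H) :
    IsConj z0 (t * u) := by
  have T : Ty H m z0 w := ⟨_, _, ι, ht, hu, n, M, k⟩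
  have key : ∀ {x}, WD H m a x → Cm m w x → IsConj z0 (t * u) := fun {x} D ⟨g, p⟩ => by
    obtain ⟨c, hc, e⟩ := D.neg
    have c' : g⁻¹ * c * g ∈ H := by simpa using W.w0.cj hc g⁻¹
    have : g⁻¹ * c * g * w * (g⁻¹ * c * g)⁻¹ = m * w := by
      have : c * (g * w * g⁻¹) * c⁻¹ = m * (g * w * g⁻¹) := by
        rcases p with p | p <;> rw [p]
        exacts [e, by rw [← conj_mul, e, W.w0.cm]]
      calc _ = g⁻¹ * (c * (g * w * g⁻¹) * c⁻¹) * g := by group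
        _ = g⁻¹ * m * g⁻¹⁻¹ * w := by rw [this]; group
        _ = _ := by rw [W.w0.cm]
    have q := cj_Z hu (ι (g⁻¹ * c * g))
    rwa [← mul_inv_cancel_left (ι w) u, ← conj_mul, M.self c' _ wH, this,
      conj_of_comm ((M.ker k wH).cm c').symm, M.zm wH, mul_assoc, mul_inv_cancel_left] at q
  rcases types W M0 M hu n k with c | c | c | c | c | c
  exacts [absurd (T.cm c) (no_a W M0), key W.wd c, key W.we c, absurd (T.cm c) (no_j W M0), absurd (T.cm c) (no_r W M0),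
    absurd ((c.mem W.w0).1 wH) W.fH]

theorem no_f : ¬ Ty H m z0 f := fun ⟨z, t, ι', hz, ht, n, M', k'⟩ => by
  obtain ⟨ι, M, rfl, i, k⟩ := M'.ext k' W.fH W.ff (sqZ M0 ht)
  clear M' k'
  obtain ⟨g, hg⟩ := isConj_iff.1 ht
  have N := hg ▸ M0.cj g
  generalize (fun x => g * ι0 x * g⁻¹) = κ at N
  have cj : ∀ {x y}, IsConj z0 (ι x) → IsConj x y → IsConj z0 (ι y) := fun p q => p.trans (ι.map_isConj q)
  have no : ∀ {x y}, ¬ Ty H m z0 y → Cm m x y → x ≠ m → ¬ IsConj z0 (ι x) := fun p q n c =>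
    p (Ty.cm ⟨_, _, ι, hz, c, fun e => n (i (e.trans M.hz.symm)), M, k _⟩ q)
  have out : ∀ {x}, Fa m a f x → ∃ w, Act H κ (ι x) w ∧ w ∉ H := fun {x} ⟨p1, p2, p3, p4⟩ => by
    obtain ⟨w, q⟩ := N.act _ (p2.map ι)
    refine ⟨w, q, fun wH => no (no_a W M0) p4 (fun e => ?_) (map_mul ι f x ▸ inner W M0 N ht (cj ht p1) (i.ne p3) q wH)⟩
    obtain ⟨g, c | c⟩ := p4 <;> rw [e, W.w0.cm] at c
    exacts [W.am c.symm, W.a1 (by simpa using c)]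
  obtain ⟨x, y, u, v, hx, hy, hu, hv, c1, c2, c3, c4, c5, c6⟩ := W.fc
  obtain ⟨_, q1, n1⟩ := out hx
  obtain ⟨_, q2, n2⟩ := out hy
  obtain ⟨_, q3, n3⟩ := out hu
  obtain ⟨_, q4, n4⟩ := out hv
  have := inner W M0 N ht (cj ht c1) (i.ne c2) (by rw [map_mul, map_mul]; exact N.amul N.az (N.amul q1 q2))
    (by simp [W.w0.mul_iff, n1, n2])
  rw [← map_mul, ← mul_assoc, W.ff, one_mul] at this
  exact no (no_r W M0) c5 c6 (map_mul ι f _ ▸ inner W M0 N ht (cj this c3) (i.ne c4) (map_mul ι u v ▸ N.amul q3 q4)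
    (by simp [W.w0.mul_iff, n3, n4]))

theorem no_d (D : WD H m a x) : ¬ Ty H m z0 x := fun ⟨z, t, ι, hz, ht, n, M, k⟩ => by
  obtain ⟨c, hc, c1, c2, c3⟩ := D.two
  have x' := W.w0.cj D.mem c
  have k' : Act H ι (ι c * t * (ι c)⁻¹) (c * x * c⁻¹) := M.acj (M.self hc) k
  have e : t * (ι c * t * (ι c)⁻¹) = ι (x * (c * x * c⁻¹)) ∧ Commute t (ι c * t * (ι c)⁻¹) ∧ ι c * t * (ι c)⁻¹ ≠ t := by
    have cm := (M.self x').comm D.mem c1
    rcases M.inv_eq k D.mem D.sq (sqZ M0 ht) with rfl | rfl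
    · rw [M.self hc _ D.mem, M.mul _ D.mem _ x']
      exact ⟨rfl, cm, fun e => c2 (M.eq x' D.mem e)⟩
    · rw [M.self hc _ (mul_mem W.w0.mH D.mem), ← conj_mul, W.w0.cm, M.zm x', M.zm D.mem, M.mul _ D.mem _ x']
      have z1 := M.cz (M.self D.mem)
      have z2 := M.cz (M.self x')
      exact ⟨by rw [z1.symm.mul_mul_mul_comm, M.zz, one_mul], ((Commute.refl z).mul_right z2).mul_left
        (z1.symm.mul_right cm), fun e => c2 (M.eq x' D.mem (mul_left_cancel e))⟩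
  obtain ⟨g, hg⟩ := isConj_iff.1 ht
  have N := hg ▸ M0.cj g
  obtain ⟨w, q⟩ := N.act _ e.2.1
  have T : Ty H m z0 w := ⟨_, _, _, ht, cj_Z ht _, e.2.2, N, q⟩
  have wH : w ∈ H := by
    rcases types W M0 N (cj_Z ht _) e.2.2 q with c | c | c | c | c | c
    exacts [(c.mem W.w0).2 W.aH, (c.mem W.w0).2 W.wd.mem, (c.mem W.w0).2 W.we.mem, (c.mem W.w0).2 W.jH,
      absurd (T.cm c) (no_r W M0), absurd (T.cm c) (no_f W M0)]
  have := inner W M0 N ht (cj_Z ht _) e.2.2 q wH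
  rw [e.1] at this
  refine no_a W M0 (Ty.cm ⟨_, _, ι, hz, this, fun e => ?_, M, M.self (mul_mem D.mem x')⟩ c3)
  obtain ⟨g, c | c⟩ := c3 <;> rw [M.eq (mul_mem D.mem x') W.w0.mH (e.trans M.hz.symm), W.w0.cm] at c
  exacts [W.am c.symm, W.a1 (by simpa using c)]

theorem isol (g : G) (c : Commute z0 (g * z0 * g⁻¹)) : g * z0 * g⁻¹ = z0 := by
  by_contra n
  obtain ⟨κ, N, v⟩ := view W M0 (IsConj.refl _) (cj_Z (IsConj.refl _) g) n c
  have T : ∀ {x}, Act H κ (g * z0 * g⁻¹) x → Ty H m z0 x := fun p =>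
    ⟨_, _, κ, IsConj.refl _, cj_Z (IsConj.refl _) g, n, N, p⟩
  rcases v with p | p | p | p | p | p
  exacts [no_a W M0 (T p), no_d W M0 W.wd (T p), no_d W M0 W.we (T p), no_j W M0 (T p), no_r W M0 (T p), no_f W M0 (T p)]

end CF.StdZ.E8
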