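import Cfsg.Agent.StdZ.E8B
import Cfsg.Agent.StdZ.Cert
import Cfsg.Agent.Comp.PG

/-! Certificates for the facts on the model. -/

set_option autoImplicit false

namespace CF.StdZ.E8

open Subgroup CF.Comp CF.Bt

variable {Γ : Type*} [Group Γ] (eq ne : List ℕ → List ℕ → Bool) (mem : List ℕ → Bool)

/-- words with the halves of their odd exponents -/
abbrev OC : Type := List (List ℕ × ℕ)

/-- the product of the words -/
noncomputable def cat (l : OC) : List ℕ := List.rec [] (fun c _ r => lapp c.1 r) l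

/-- a product of elements of odd order which commute with `cs` -/
noncomputable def oOK (cs : List (List ℕ)) (x : List ℕ × OC) : Bool := Bool.rec false (eq x.1 (cat x.2))
  (lall (fun c => lall (fun t => t) [mem c.1, eq (wpow c.1 (2 * c.2 + 1)) [], comAll eq [c.1] cs]) x.2)

/-- certificate for `Pq` -/
noncomputable def pqOK (cs : List (List ℕ)) (n : ℕ) (p q : List ℕ × OC) : Bool := lall (fun t => t)
  [oOK eq mem cs p, oOK eq mem cs q, eq (wpow p.1 (2 ^ 3)) [], eq (wpow q.1 (2 ^ 3)) [], eq (wpow (lapp p.1 q.1) n) [],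
    ne (lapp p.1 q.1) []]

/-- `x` conjugates `a` to `b` -/
noncomputable def cjW (x a b : List ℕ) : Bool := eq (lapp x a) (lapp b x)

/-- certificate for `Cm` -/
noncomputable def cmOK (m x w y : List ℕ) : Bool := Bool.rec (cjW eq x w (lapp m y)) true (cjW eq x w y)

/-- certificate for `WD` -/
noncomputable def wdOK (m a x c c' y g : List ℕ) : Bool := lall (fun t => t)
  [mem x, eq (lapp x x) [], mem c, cjW eq c x (lapp m x), mem c', cjW eq c' x y, cjW eq x y y, ne y x,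
    cmOK eq m g (lapp x y) a]

/-- certificate for `Fa` -/
noncomputable def faOK (m a f x c g : List ℕ) : Bool := lall (fun t => t)
  [cjW eq c f x, cjW eq f x x, ne x f, cmOK eq m g (lapp f x) a]

variable {eq ne mem} {f : ℕ → Γ} {H : Subgroup Γ} (he : Eqv f eq) (hn : Nev f ne) (hm : ∀ w, mem w = true → ev f w ∈ H)
include he

theorem cjW_spec {x a b : List ℕ} (h : cjW eq x a b = true) : ev f x * ev f a * (ev f x)⁻¹ = ev f b := he.conj h

theorem cjW_comm {x a : List ℕ} (h : cjW eq x a a = true) : Commute (ev f x) (ev f a) := (comm_of_conj (he.conj h)).symm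

theorem pow_spec {x : List ℕ} {n : ℕ} (h : eq (wpow x n) [] = true) : ev f x ^ n = 1 :=
  (ev_wpow f x n).symm.trans (he _ _ h)

theorem cmOK_spec {m x w y : List ℕ} (h : cmOK eq m x w y = true) : Cm (ev f m) (ev f w) (ev f y) :=
  ⟨ev f x, (or_of_rec h).imp (cjW_spec he) fun k => (cjW_spec he k).trans (ev_lapp _ _ _)⟩

include hn in
theorem faOK_spec {m a t x c g : List ℕ} (h : faOK eq ne m a t x c g = true) : Fa (ev f m) (ev f a) (ev f t) (ev f x) := by
  simp only [faOK, lall_iff, List.forall_mem_cons] at h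
  obtain ⟨h1, h2, h3, h4, -⟩ := h
  exact ⟨isConj_iff.2 ⟨_, cjW_spec he h1⟩, cjW_comm he h2, hn _ _ h3, ev_lapp f t x ▸ cmOK_spec he h4⟩

include hm

theorem oOK_spec {cs : List (List ℕ)} {A : Subgroup Γ} (hA : ∀ y, (∀ c ∈ cs, Commute y (ev f c)) → y ∈ A)
    {x : List ℕ × OC} (h : oOK eq mem cs x = true) : ev f x.1 ∈ O2 (H ⊓ A) := by
  obtain ⟨x, l⟩ := x
  obtain ⟨a, b⟩ := and_of_rec h
  rw [he _ _ b]
  clear h b
  induction l with
  | nil => exact one_mem _
  | cons c t ih =>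
    simp only [lall_iff, List.forall_mem_cons] at a
    obtain ⟨⟨h1, h2, h3, -⟩, a⟩ := a
    refine (ev_lapp f _ _).symm ▸ mul_mem (subset_closure ⟨⟨hm _ h1, hA _ fun w hw => ?_⟩,
      odd_of_pow ⟨_, rfl⟩ (pow_spec he h2)⟩) (ih (lall_iff.2 fun c hc => lall_iff.2 (by
        simpa only [List.forall_mem_cons] using a c hc)))
    exact (he.comAll h3 (ev_mem_clo f List.mem_cons_self) _ (ev_mem_clo f hw)).symm

include hn

theorem pqOK_spec {cs : List (List ℕ)} {A : Subgroup Γ} (hA : ∀ y, (∀ c ∈ cs, Commute y (ev f c)) → y ∈ A) {n : ℕ}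
    {p q : List ℕ × OC} (h : pqOK eq ne mem cs n p q = true) : Pq (H ⊓ A) n := by
  simp only [pqOK, lall_iff, List.forall_mem_cons] at h
  obtain ⟨h1, h2, h3, h4, h5, h6, -⟩ := h
  exact ⟨_, oOK_spec he hm hA h1, _, oOK_spec he hm hA h2, ⟨3, pow_spec he h3⟩, ⟨3, pow_spec he h4⟩,
    ev_lapp f _ _ ▸ pow_spec he h5, ev_lapp f _ _ ▸ hn _ _ h6⟩

theorem wdOK_spec {m a x c c' y g : List ℕ} (h : wdOK eq ne mem m a x c c' y g = true) (n5 : No 5 (ev f x))
    (n7 : No 7 (ev f x)) : WD H (ev f m) (ev f a) (ev f x) := by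
  simp only [wdOK, lall_iff, List.forall_mem_cons] at h
  obtain ⟨h1, h2, h3, h4, h5, h6, h7, h8, h9, -⟩ := h
  refine ⟨hm _ h1, ev_lapp f _ _ ▸ he _ _ h2, ⟨_, hm _ h3, (cjW_spec he h4).trans (ev_lapp _ _ _)⟩, ⟨_, hm _ h5, ?_⟩, n5, n7⟩
  rw [cjW_spec he h6]
  exact ⟨cjW_comm he h7, hn _ _ h8, ev_lapp f _ _ ▸ cmOK_spec he h9⟩

omit he hn hm

theorem no_of_card {x : Γ} {n N : ℕ} (h : Nat.card (Cn x) = N) (c : n.Coprime N) : No n x := fun y e k =>
  orderOf_eq_one_iff.1 (Nat.eq_one_of_dvd_coprimes c (orderOf_dvd_of_pow_eq_one e)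
    (h ▸ orderOf_dvd_natCard _ (mem_Cn.2 k)))

theorem finite_pg {nets : List Net} {n : ℕ} (h : Wf n nets) : Finite (PG nets) := by
  have s : ∀ g : PG nets, Supp n g.1 := fun g =>
    (closure_le (suppGrp n)).2 (Set.range_subset_iff.2 h.supp) g.2
  exact Finite.of_injective (fun g : PG nets => fun i : Fin n => (⟨g.1 i, (s g).lt i.2⟩ : Fin n)) fun a b e =>
    (pg_faithful h).eq_of_smul trivial trivial fun i hi => congrArg Fin.val (congrFun e ⟨i, hi⟩)

variable {Ω : Type*} [MulAction Γ Ω] {n : ℕ} {D : Dom Ω n} {nets : List Net}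

theorem fix_of_odd {x : Γ} {p : Ω} (o : Odd (orderOf x)) {k : ℕ} (h : x ^ 2 ^ k • p = p) : x • p = p := by
  obtain ⟨i, e⟩ := exists_pow_eq_self_of_coprime ((Nat.coprime_two_left.2 o).pow_left k)
  exact e ▸ pow_mem (MulAction.mem_stabilizer_iff.2 h) i

/-- the square moves a point differently -/
noncomputable def sqNe (R Q : ℕ) (bs : List (ℕ × ℕ)) (v : ℕ) : Bool :=
  lany (fun b => Bool.rec true false (Nat.beq (labN R Q v 2 b.1) b.2)) bs

/-- the elements whose square is the identity or `m` are conjugate to the representatives -/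
noncomputable def clM (nets : List Net) (n k : ℕ) (m : List ℕ) (as bs : List (ℕ × ℕ)) (c : List Lvl)
    (reps : List (List ℕ)) (F : FD) : Bool :=
  force (repl n k) fun R => force (full (Nat.pred n)) fun Q => lall (fun t => t) [labOK n k R Q,
    lall (fun b => Bool.rec false (mapW nets [] b.2 b.1) (Nat.blt b.1 n && Nat.blt b.2 n)) as,
    lall (fun b => Bool.rec false (mapW nets m b.2 b.1) (Nat.blt b.1 n && Nat.blt b.2 n)) bs,
    enumOK nets n k (fun v => Bool.rec (fusAt nets n k R Q F.M 4 reps F.tbl v) true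
      (Bool.rec false (sqNe R Q bs v) (sqNe R Q as v))) c F.Ts]

theorem sqNe_spec (hR : Reps D nets f) {k R Q : ℕ} (hL : LabOK n k R Q) {m : List ℕ} {bs : List (ℕ × ℕ)}
    (h : lall (fun b => Bool.rec false (mapW nets m b.2 b.1) (Nat.blt b.1 n && Nat.blt b.2 n)) bs = true) {g : Γ} {v : ℕ}
    (p : Pl D k g v) (q : sqNe R Q bs v = true) : g * g ≠ ev f m := fun e => by
  obtain ⟨b, hb, q⟩ := lany_iff.1 q
  obtain ⟨h1, h2⟩ := and_of_rec (lall_iff.1 h b hb)
  rw [Bool.and_eq_true, Nat.blt_eq, Nat.blt_eq] at h1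
  obtain ⟨h3, h4⟩ := p.labN hL 2 h1.1
  rw [pow_two, e, ← hR.mapW h1.2 h2, inv_smul_smul] at h4
  rw [D.inj _ h3 _ h1.2 h4, Nat.beq_refl] at q
  exact absurd q (by simp)

theorem clM_spec {c : List Lvl} (hE : Exact D nets f c ⊤) {k : ℕ} (hk : n ≤ 2 ^ k) {a l : ℕ}
    (hc : Nat.card Γ = 2 ^ a * l) (hl : ¬ 2 ∣ l) {P : PD} (h1 : pOK nets n k 2 P a = true) {m : List ℕ}
    {as bs : List (ℕ × ℕ)} {reps : List (List ℕ)} {F : FD} (h : clM nets n k m as bs P.c reps F = true)
    (mm : ev f m * ev f m = 1) (mc : ∀ x, Commute (ev f m) x) {g : Γ} (hg : g * g = 1 ∨ g * g = ev f m) (g1 : g ≠ 1) :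
    ∃ w ∈ reps, ∃ x : Γ, x * g * x⁻¹ = ev f w := by
  have := Exact.finite_top hE
  obtain ⟨-, a2, a3⟩ := pOK_spec hE hk two_ne_zero h1
  simp only [clM, force_eq, lall_iff (l := [_, _, _, _]), List.forall_mem_cons] at h
  obtain ⟨b1, b2, b3, b4, -⟩ := h
  have hL := labOK_spec b1
  have g4 : g ^ 2 ^ 2 = 1 := by
    rw [show 2 ^ 2 = 2 * 2 by rfl, pow_mul, pow_two g, pow_two]
    rcases hg with e | e <;> simp [e, mm]
  obtain ⟨x, -, hx⟩ := exists_conj_mem (P := clo f P.qs) (H := ⊤) le_top Nat.prime_two (by rw [card_top, hc, a2]) hl trivial g4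
  obtain ⟨v, p, q⟩ := enum_sound a3 hL.pos b4 _ hx
  rcases or_of_rec q with q | q
  · obtain ⟨q1, q2⟩ := and_of_rec q
    rcases hg with e | e
    · exact absurd (by rw [conj_mul, e]; simp) (sqNe_spec hE.reps hL b2 p q1)
    · exact absurd (by rw [conj_mul, e, conj_of_comm (mc x)]) (sqNe_spec hE.reps hL b3 p q2)
  · obtain ⟨y, -, r, e⟩ := p.fusAt hE.reps hL hE.faithful (fun _ => trivial) trivial q (by
      rw [conj_pow, show g ^ 4 = 1 from g4]; simp)
    rw [conj_conj'] at e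
    rcases nth_ev_cases f reps r with k | ⟨w, hw, k⟩
    · exact absurd (conj_eq_one_iff.1 (e.trans k)) g1
    · exact ⟨w, hw, _, e.trans k⟩

end CF.StdZ.E8
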