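import Cfsg.Agent.StdZ.E8D
import Cfsg.Agent.StdZ.Sp
import Cfsg.Agent.Schur.O82

/-! The facts hold in the reflection group on 240 roots. -/

set_option autoImplicit false
set_option maxRecDepth 100000

namespace CF.StdZ.E8

open Subgroup CF.Comp CF.Bt CF.Schur

/-- the reflection group -/
abbrev WW : Type := PG N0

instance finW : Finite WW := finite_pg (wf_of_wfAll wf)

/-- its letters -/
noncomputable def g0 : ℕ → WW := slp (pg N0) SW 9

/-- the rotation subgroup -/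
noncomputable def HH : Subgroup WW := clo g0 (gensW 8)

/-- minus the identity -/
noncomputable abbrev mm : WW := ev g0 [27]

theorem reps : Reps (pD N0 240) NN g0 :=
  (pg_reps (wf_of_wfAll wf)).extend (k := 8) (by decide) (pg_one rfl) (slp_of_slpOK hW)

theorem he : Eqv g0 (sameW NN 240 8) := eqv_sameW reps (by decide) (pg_faithful (wf_of_wfAll wf))

theorem hn : Nev g0 (difW NN 240 8) := nev_difW reps (by decide) 8

theorem hH (w : List ℕ) (h : mem w = true) : ev g0 w ∈ HH :=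
  clo_le_of_slpIn (vs := [w]) (lall_iff.2 fun _ e => List.mem_singleton.1 e ▸ h) w List.mem_cons_self

theorem top : clo g0 (gensW 9) = ⊤ := (clo_slp (lettersLe_gensW 9) SW).trans (pg_top rfl)

theorem hm' : type_of% (lall_iff.1 hm) := lall_iff.1 hm

theorem mc (x : WW) : Commute mm x :=
  (he.comAll (hm' _ List.mem_cons_self) (ev_mem_clo g0 List.mem_cons_self) x (top.ge trivial)).symm

theorem m2 : mm * mm = 1 := (ev_lapp g0 [27] [27]).symm.trans (he [27, 27] [] (hm' _ (by simp)))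

theorem m1 : mm ≠ 1 := hn _ [] (hm' _ (by simp))

theorem mH : mm ∈ HH := hH _ (hm' _ (by simp))

theorem r2 : ev g0 [17] * ev g0 [17] = 1 := (ev_lapp g0 [17] [17]).symm.trans (he [17, 17] [] (hm' _ (by simp)))

instance nm : (zpowers mm).Normal := ⟨fun _ ⟨i, e⟩ g => by rw [← e, conj_of_comm ((mc g).zpow_left i)]; exact ⟨i, rfl⟩⟩

theorem mem_m {x : WW} : x ∈ zpowers mm ↔ x = 1 ∨ x = mm :=
  ⟨eq_of_card_le_two (by rw [Nat.card_zpowers, ord2 m2 m1]) (mem_zpowers _) m1, by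
    rintro (rfl | rfl)
    exacts [one_mem _, mem_zpowers _]⟩

/-- the images of the words in the central quotient -/
noncomputable abbrev gq (T : List (List ℕ)) (i : ℕ) : WW ⧸ zpowers mm := QuotientGroup.mk' _ (evs g0 T i)

theorem ev_gq (T : List (List ℕ)) (w : List ℕ) : ev (gq T) w = QuotientGroup.mk' _ (ev g0 (subst T w)) := by
  rw [← ev_evs, map_ev]

theorem relM_spec {T : List (List ℕ)} (h : relM T = true) :
    (∀ i, evs g0 T i ∈ HH) ∧ ev (gq T) [1] ≠ 1 ∧ ∀ ρ ∈ O82.relsp, ev (gq T) ρ = 1 := by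
  simp only [relM, lall_iff (l := [_, _, _, _, _]), List.forall_mem_cons] at h
  obtain ⟨h1, -, h3, h4, h5, -⟩ := h
  refine ⟨fun i => ?_, fun e => ?_, fun ρ hρ => ?_⟩
  · rcases nth_mem_or [] T i with k | k
    exacts [hH _ (lall_iff.1 h1 _ k), by rw [evs, k]; exact one_mem _]
  · exact (mem_m.1 ((QuotientGroup.eq_one_iff _).1 ((ev_single _ 0).symm.trans e))).elim (hn _ _ h3) (hn _ _ h4)
  · rw [ev_gq]
    exact (QuotientGroup.eq_one_iff _).2 (mem_m.2 ((or_of_rec (lall_iff.1 h5 ρ hρ)).imp (he _ _) (he _ _)))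

theorem H_le : HH ≤ (clo (gq Y0) (gensW 8)).comap (QuotientGroup.mk' _) := clo_le.2 fun w hw => by
  have : ∀ w ∈ gensW 8, subst Y0 w = w := by decide +kernel
  rw [mem_comap, ← this w hw, ← ev_gq]
  exact ev_mem_clo _ hw

theorem cardH : Nat.card HH ≤ 2 * 174182400 := by
  have := QuotientGroup.card_preimage_mk (zpowers mm) (clo (gq Y0) (gensW 8) : Set _)
  refine (card_le_of_le H_le).trans (this.le.trans ?_)
  rw [Nat.card_zpowers, ord2 m2 m1]
  exact Nat.mul_le_mul_left 2 (O82.bndp (relM_spec hY0).2.2).2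

theorem mem_gensW' {n : ℕ} {w : List ℕ} (h : w ∈ gensW n) : ∃ i < n, w = [2 * i + 1] := by
  induction n with
  | zero => exact absurd h List.not_mem_nil
  | succ n ih =>
    rcases List.mem_cons.1 h with e | e
    exacts [⟨n, n.lt_succ_self, e⟩, (ih e).imp fun _ k => ⟨k.1.trans n.lt_succ_self, k.2⟩]

theorem H_or (x : WW) : x ∈ HH ∨ x * ev g0 [17] ∈ HH := by
  have : HH ⊔ zpowers (ev g0 [17]) = ⊤ := (clo_cons _ _).symm.trans top
  obtain ⟨e, k, y, hy, rfl⟩ := exists_of_mem_sup_zpowers (mem_norm_of_gens fun w hw => by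
    obtain ⟨i, hi, rfl⟩ := mem_gensW' hw
    obtain ⟨a, b⟩ := and_of_rec (allFrom_zero.1 hnr i hi)
    exact cjW_spec he a ▸ hH _ b) two_ne_zero (by rw [pow_two, r2]; exact one_mem _) (this.ge (mem_top x))
  interval_cases e
  exacts [.inl (by rwa [pow_zero, mul_one]), .inr (by rwa [pow_one, mul_assoc, r2, mul_one])]

theorem le_of_geOK {G Ω : Type*} [Group G] [MulAction G Ω] [Finite G] {n s : ℕ} {D : Comp.Dom Ω n} {nets : List Net}
    {f : ℕ → G} (h : Reps D nets f) (hn : n < 16777215) {c : List Lvl} (k : geOK nets n c s = true) : s ≤ Nat.card G :=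
  ((Nat.le_of_ble_eq_true (and_of_rec k).2).trans
    (h.chain_le (H := ⊤) hn (and_of_rec k).1 fun _ _ => trivial)).trans card_top.le

theorem le_card : 696729600 ≤ Nat.card WW := le_of_geOK reps (by decide) hC

theorem rH : ev g0 [17] ∉ HH := fun h => by
  have : HH = ⊤ := eq_top_iff.2 fun x _ => (H_or x).elim id (mul_mem_cancel_right h).1
  have := le_card.trans (card_top.symm.le.trans (this ▸ cardH))
  omega

theorem idx : HH.index = 2 := index_eq_two_iff.2 ⟨ev g0 [17], fun x => by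
  rcases H_or x with h | h
  exacts [.inr ⟨h, fun k => rH ((mul_mem_cancel_left h).1 k)⟩, .inl ⟨h, fun k => rH ((mul_mem_cancel_left k).1 h)⟩]⟩

theorem cardW : Nat.card WW = 696729600 := by
  have := HH.card_mul_index
  have := cardH
  have := le_card
  rw [idx] at *
  omega

theorem hE : Exact (pD N0 240) NN g0 C ⊤ := exact_of_ge reps (by decide) (fun _ _ => trivial) (card_top.trans cardW).le hC

theorem cQ {w : WW} (h : ∀ q ∈ qs, Commute w (ev g0 q.1)) :
    w * w = 1 ∧ Commute w (ev g0 [17]) ∧ ((∀ x ∈ HH, Commute w x) → w = 1 ∨ w = mm) := by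
  have k := hz
  simp only [lall_iff (l := [_, _, _]), List.forall_mem_cons] at k
  obtain ⟨k1, k2, k3, -⟩ := k
  obtain ⟨z, hz, rfl⟩ := cent_list he hn k1 k2 (cleOK_spec hE (k := 8) (by decide) (by decide) cardW kQ) (x := w)
    fun x hx => (clo_le (H := Cn w)).2 (fun v hv => by
      obtain ⟨q, hq, rfl⟩ := List.mem_map.1 (lmap_eq Prod.fst qs ▸ hv)
      exact mem_Cn.2 (h q hq).symm) hx w rfl ▸ rfl
  have := lall_iff.1 k3 z hz
  simp only [lall_iff, List.forall_mem_cons] at this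
  obtain ⟨a, b, c, -⟩ := this
  simp only [lany_iff, List.mem_cons, List.not_mem_nil, or_false, exists_eq_or_imp, exists_eq_left] at c
  refine ⟨ev_lapp g0 z z ▸ he _ _ a, cjW_comm he b, fun p => ?_⟩
  rcases c with c | c | ⟨x, hx, c⟩
  exacts [.inl (he _ _ c), .inr (he _ _ c), absurd (by rw [ev_lapp, ev_lapp]; exact p _ (ev_mem_clo _ hx)) (hn _ _ c)]

theorem qO {q : List ℕ × OC} (h : q ∈ ma :: qs) :
    ev g0 q.1 ∈ O2 (HH ⊓ (Cn (ev g0 [17]) ⊓ Cn (ev g0 sw))) ∧ ev g0 q.1 * ev g0 q.1 = 1 :=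
  have k := and_of_rec (lall_iff.1 hq q h)
  ⟨oOK_spec he hH (fun _ c => mem_inf.2 ⟨mem_Cn.2 (c _ (by simp)), mem_Cn.2 (c _ (by simp))⟩) k.1, ev_lapp g0 _ _ ▸ he _ _ k.2⟩

theorem w0 : W0 HH mm := ⟨idx, mH, m2, m1, mc, fun _ h =>
  (cQ fun q k => h _ (O2_le _ (qO (List.mem_cons_of_mem _ k)).1).1).2.2 h⟩

theorem pt_ne {i j : ℕ} (hi : i < 240) (hj : j < 240) (n : i ≠ j) : (pD N0 240).pt i ≠ (pD N0 240).pt j :=
  fun e => n ((pD N0 240).inj _ hi _ hj e)

theorem mv {w : List ℕ} {k : ℕ} (h : Nat.beq (fixS NN 240 8 w) (2 ^ k - 1) = true) (hk : k ≤ 240) {x : WW}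
    (c : Commute x (ev g0 w)) {i : ℕ} (hi : i < k) : ∃ j < k, x • (pD N0 240).pt i = (pD N0 240).pt j := by
  have e := set_fixS reps (k := 8) (by decide) w
  rw [Nat.eq_of_beq_eq_true h] at e
  have p := e.le (((pD N0 240).pt_mem_set (hi.trans_le hk)).2 (by simpa using hi))
  obtain ⟨j, -, a, b⟩ := Comp.Dom.mem_set.1 (e.ge (show x • (pD N0 240).pt i ∈ _ from
    ⟨reps.smul_full (Exact.le_range hE trivial) p.1, by rw [← mul_smul, ← c.eq, mul_smul, p.2]⟩))
  exact ⟨j, by simpa using a, b.symm⟩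

theorem m01 : mm • (pD N0 240).pt 0 = (pD N0 240).pt 1 := reps.mapW (by decide) (hm' _ (by simp))

theorem m23 : mm • (pD N0 240).pt 2 = (pD N0 240).pt 3 := reps.mapW (by decide) (hm' _ (by simp))

theorem msm (x : WW) (p : Via (PG N0).subtype) : x • mm • p = mm • x • p := by rw [← mul_smul, ← (mc x).eq, mul_smul]

theorem mms (p : Via (PG N0).subtype) : mm • mm • p = p := by rw [← mul_smul, m2, one_smul]

theorem fix_pm {x : WW} (o : Odd (orderOf x)) {p : Via (PG N0).subtype} {k : ℕ}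
    (h : x ^ 2 ^ k • p = p ∨ x ^ 2 ^ k • p = mm • p) : x • p = p := by
  refine h.elim (fix_of_odd o) fun e => fix_of_odd o (k := k + 1) ?_
  rw [pow_succ, pow_mul, pow_two, mul_smul, e, msm, e, mms]

theorem fix_r {x : WW} (o : Odd (orderOf x)) (c : Commute x (ev g0 [17])) : x • (pD N0 240).pt 0 = (pD N0 240).pt 0 := by
  obtain ⟨j, hj, e⟩ := mv (w := [27, 17]) (k := 2) (hm' _ (by simp)) (by decide)
    (ev_lapp g0 [27] [17] ▸ (mc x).symm.mul_right c) (i := 0) (by decide)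
  refine fix_pm o (k := 0) ?_
  rw [pow_zero, pow_one, m01, e]
  interval_cases j <;> simp

theorem fix_a {x : WW} (o : Odd (orderOf x)) (c : Commute x (ev g0 aw)) : x • (pD N0 240).pt 0 = (pD N0 240).pt 0 := by
  have k := fun {i} => mv (w := lapp [27] aw) (k := 4) (i := i) (hm' _ (by simp)) (by decide)
    (ev_lapp g0 [27] aw ▸ (mc x).symm.mul_right c)
  obtain ⟨i, hi, e⟩ := k (i := 0) (by decide)
  obtain ⟨j, hj, e'⟩ := k (i := 2) (by decide)
  have n := fun {p} (a : x • (pD N0 240).pt 0 = p) (b : x • (pD N0 240).pt 2 = p) =>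
    pt_ne (i := 0) (j := 2) (by decide) (by decide) (by decide) (MulAction.injective x (a.trans b.symm))
  have n' := fun {p} (a : x • (pD N0 240).pt 0 = p) (b : x • (pD N0 240).pt 2 = mm • p) =>
    pt_ne (i := 1) (j := 2) (by decide) (by decide) (by decide) (MulAction.injective x (by
      beta_reduce; rw [← m01, msm, a, b]))
  have m32 : (pD N0 240).pt 2 = mm • (pD N0 240).pt 3 := by rw [← m23, mms]
  by_cases h : i < 2
  · refine fix_pm o (k := 0) ?_
    rw [pow_zero, pow_one, m01, e]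
    interval_cases i <;> simp
  refine fix_pm o (k := 1) ?_
  rw [pow_one, pow_two, mul_smul, e]
  interval_cases i <;> interval_cases j
  exacts [.inl e', .inr (e'.trans m01.symm), (n e e').elim, (n' e (e'.trans m23.symm)).elim,
    .inr (by rw [← m23, msm, e']), .inl (by rw [← m23, msm, e', ← m01, mms]), (n' e (e'.trans m32)).elim, (n e e').elim]

theorem m_not {y : WW} (h : ∀ x, Odd (orderOf x) → Commute x y → x • (pD N0 240).pt 0 = (pD N0 240).pt 0) :
    mm ∉ O2 (Cn y) := fun k => pt_ne (i := 1) (j := 0) (by decide) (by decide) (by decide) (m01.symm.trans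
  ((closure_le (MulAction.stabilizer WW ((pD N0 240).pt 0))).2 (fun x hx => h x hx.2 (mem_Cn.1 hx.1)) k))

theorem range_le_closure {S Γ : Type*} [Group S] [Group Γ] [IsSimpleGroup S] (φ : S →* Γ) {P : Γ → Prop}
    (hP : ∀ x g, P x → P (g * x * g⁻¹)) {x : Γ} (hx : x ∈ φ.range) (p : P x) (n : x ≠ 1) :
    φ.range ≤ closure {y | y ∈ φ.range ∧ P y} := by
  obtain ⟨x, rfl⟩ := hx
  have e : normalClosure {x} = ⊤ := (normalClosure_normal.eq_bot_or_eq_top).resolve_left fun e =>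
    n (by rw [mem_bot.1 (e.le (subset_normalClosure rfl)), map_one])
  rintro _ ⟨y, rfl⟩
  refine (closure_le ((Subgroup.closure {y | y ∈ φ.range ∧ P y}).comap φ)).2
    (fun u hu => Subgroup.subset_closure ⟨⟨u, rfl⟩, ?_⟩) (e.ge (mem_top y))
  obtain ⟨_, rfl, k⟩ := Group.mem_conjugatesOfSet_iff.1 hu
  obtain ⟨g, rfl⟩ := isConj_iff.1 k
  simpa using hP _ (φ g) p

open Recog.Co3 in
theorem exists_Sp : ∃ φ : Sp →* WW, Function.Injective φ ∧ O2 (HH ⊓ Cn (ev g0 [17])) = φ.range ∧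
    φ.range ≤ closure {x | x ∈ φ.range ∧ x * x = 1} := by
  have := simple_Sp6
  have k := hS
  simp only [lall_iff (l := [_, _, _, _, _, _, _, _, _]), List.forall_mem_cons] at k
  obtain ⟨k1, k2, k3, k4, k5, k6, k7, k8, k9, -⟩ := k
  obtain ⟨x, hx, ht⟩ := exists_gen
  obtain ⟨φ, h1, h2, -⟩ := (S62.bndp (ug_rels _)).exists_inj hx ht card_Sp6 (g := evs g0 HS) (w := [1])
    (fun r hr => (ev_evs _ _).trans (he _ _ (lall_iff.1 k9 r hr))) (by decide +kernel)
    (fun e => hn _ _ k5 ((ev_single _ 0).symm.trans e))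
  have le : φ.range ≤ clo g0 HS := h2.le.trans (clo_le.2 fun w _ => (ev_evs (f := g0) HS w).symm ▸ ev_subst_mem_clo _ _ _)
  have i : ∀ i < 6, evs g0 HS i ∈ φ.range := fun i hi => h2 ▸ ev_single (evs g0 HS) i ▸ ev_mem_clo _ (mem_gensW hi)
  have l1 : φ.range ≤ HH := le.trans (clo_le.2 fun w hw => hH _ (lall_iff.1 k1 w hw))
  have l2 : φ.range ≤ stabIn ⊤ ((pD N0 240).pt 0) ⊓ HH :=
    le_inf (le.trans (clo_le.2 fun w hw => ⟨trivial, reps.fixW (by decide) (lall_iff.1 k3 w hw)⟩)) l1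
  have l3 : φ.range ≤ HH ⊓ Cn (ev g0 [17]) := le_inf l1 (le.trans ((he.comAll k4).trans
    (centralizer_le (Set.singleton_subset_iff.2 (ev_mem_clo g0 List.mem_cons_self)))))
  have c1 : Nat.card (stabIn ⊤ ((pD N0 240).pt 0) : Subgroup WW) = 2903040 :=
    (Exact.tail hE).card.trans (Nat.eq_of_beq_eq_true hC1)
  have e : φ.range = stabIn ⊤ ((pD N0 240).pt 0) ⊓ HH := eq_of_le_of_card_le l2 (by
    rw [← Nat.card_congr (φ.ofInjective h1).toEquiv, card_Sp6]
    have a := card_dvd_of_le (inf_le_left : stabIn ⊤ ((pD N0 240).pt 0) ⊓ HH ≤ _)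
    have b : Nat.card (stabIn ⊤ ((pD N0 240).pt 0) ⊓ HH : Subgroup WW) ≠ 2903040 := fun b => by
      have := (eq_of_le_of_card_le inf_le_left (c1.trans b.symm).le).ge (show ev g0 sw ∈ _ from
        ⟨trivial, reps.fixW (by decide) (hm' _ (by simp))⟩)
      refine rH ((mul_mem_cancel_right (mem_inf.1 this).2).1 ?_)
      rw [← ev_lapp, ← he aw _ (hm' _ (by simp))]
      exact hH _ (hm' _ (by simp))
    rw [c1] at a
    obtain ⟨k, a⟩ := a
    rcases k with _ | _ | k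
    · omega
    · omega
    · nlinarith)
  refine ⟨φ, h1, le_antisymm ((closure_le _).2 fun x hx => e.ge ⟨⟨trivial, fix_r hx.2 (mem_Cn.1 hx.1.2)⟩, hx.1.1⟩)
    ((range_le_closure φ (P := fun x => Odd (orderOf x)) (fun x g => (ord_cj g x).symm ▸ id) (i 1 (by decide))
      (odd_of_pow (n := 3) (by decide) (pow_spec he k8)) (hn _ _ k6)).trans (O2_mono l3)),
    range_le_closure φ (P := fun x => x * x = 1) (fun x g e => by rw [conj_mul, e]; simp) (i 0 (by decide))
      ((pow_two _).symm.trans (pow_spec he k7)) (hn _ _ k5)⟩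

theorem inner_of {S Γ : Type*} [Group S] [Group Γ] [Finite S] (ho : Nat.card (Cfsg.Out S) = 1) {φ : S →* Γ}
    (i : Function.Injective φ) (β : Γ → Γ) (h1 : ∀ x ∈ φ.range, β x ∈ φ.range)
    (h2 : ∀ x ∈ φ.range, ∀ y ∈ φ.range, β (x * y) = β x * β y) (h3 : ∀ x ∈ φ.range, β x = 1 → x = 1) :
    ∃ h ∈ φ.range, ∀ x ∈ φ.range, β x = h * x * h⁻¹ := by
  choose γ e using fun x => h1 (φ x) ⟨x, rfl⟩
  let α : S →* S := MonoidHom.mk' γ fun x y => i (by rw [map_mul, e, e, e, map_mul, h2 _ ⟨x, rfl⟩ _ ⟨y, rfl⟩])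
  have j : Function.Injective α := (injective_iff_map_eq_one α).2 fun x k =>
    i ((h3 _ ⟨x, rfl⟩ (by rw [← e, show γ x = 1 from k, map_one])).trans (map_one φ).symm)
  have : (Cfsg.Inn S).index = 1 := ho
  obtain ⟨s, k⟩ : MulEquiv.ofBijective α ⟨j, Finite.injective_iff_surjective.1 j⟩ ∈ Cfsg.Inn S :=
    index_eq_one.1 this ▸ mem_top _
  refine ⟨φ s, ⟨s, rfl⟩, ?_⟩
  rintro _ ⟨x, rfl⟩
  rw [← e, ← map_inv, ← map_mul, ← map_mul]
  exact congrArg φ (DFunLike.congr_fun k x).symm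

theorem wf0 : WF HH mm (ev g0 aw) (ev g0 dw) (ev g0 ew) (ev g0 jw) (ev g0 [17]) (ev g0 fw) (ev g0 sw) (ev g0 bw)
    {x | ∃ q ∈ qs, ev g0 q.1 = x} := by
  have k := hm
  have l := hf
  simp only [lall_iff, List.forall_mem_cons] at k l
  obtain ⟨-, -, -, -, a1, a2, a3, a4, a5, a6, a7, -, a8, a9, b1, b2, b3, b4, b5, b6, b7, b8, b9, c1, c2, -⟩ := k
  obtain ⟨l1, l2, l3, l4, l5, l6, -⟩ := l
  have ce := fun {a C c m} h => (ceqOK_spec hE (k := 8) (by decide) (by decide) cardW (a := a) (C := C) (c' := c)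
    (m := m) h).2
  obtain ⟨φ, i, e, gen⟩ := exists_Sp
  obtain ⟨j1, j2⟩ := and_of_rec (a := pqOK (sameW NN 240 8) (difW NN 240 8) mem [jw] 5 pj qj)
    (b := oOK (sameW NN 240 8) mem [jw] (jw, jo)) hj
  have l1 := cjW_spec he l1
  have l2 := hn _ _ l2
  have l3 := cjW_spec he l3
  have l4 := hn _ _ l4
  have l5 := cmOK_spec he l5
  have l6 := hn _ _ l6
  simp only [ev_lapp] at l1 l2 l3 l4 l5 l6
  refine ⟨w0, fun w hw => ?_, hH _ a1, hH _ a2, rH, fun h => rH ((mul_mem_cancel_left (hH _ a3)).1 ?_),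
    ev_lapp g0 _ _ ▸ he _ _ a5, hn _ _ a6, ev_lapp g0 _ _ ▸ he _ _ a7, r2, ev_lapp g0 _ _ ▸ he _ _ a8,
    wdOK_spec he hn hH wd (no_of_card (ce kdw) (by decide)) (no_of_card (ce kdw) (by decide)),
    wdOK_spec he hn hH we (no_of_card (ce kew) (by decide)) (no_of_card (ce kew) (by decide)),
    no_of_card (ce kfw) (by decide), no_of_card (ce kaw) (by decide), m_not fun _ => fix_a, m_not fun _ => fix_r,
    oOK_spec he hH (fun _ c => mem_Cn.2 (c _ List.mem_cons_self)) j2,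
    pqOK_spec he hn hH (fun _ c => mem_Cn.2 (c _ List.mem_cons_self)) j1,
    pqOK_spec he hn hH (fun _ c => mem_Cn.2 (c _ List.mem_cons_self)) h7, (he _ _ a9).trans (ev_lapp _ _ _),
    pqOK_spec he hn hH (fun _ c => Subgroup.mem_inf.2 ⟨Subgroup.mem_inf.2 ⟨mem_Cn.2 (c _ (by simp)), mem_Cn.2 (c _ (by simp))⟩,
      mem_Cn.2 (c _ (by simp))⟩) h5, fun _ ⟨q, hq, e⟩ => e ▸ qO (List.mem_cons_of_mem _ hq),
    fun w h => ⟨(cQ fun q hq => h _ ⟨q, hq, rfl⟩).1, (cQ fun q hq => h _ ⟨q, hq, rfl⟩).2.1⟩,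
    ev_lapp g0 [27] aw ▸ (qO List.mem_cons_self).1, ⟨_, hH _ b1, cjW_spec he b2, cjW_spec he b3⟩, cjW_comm he b4,
    hn _ _ b5, cjW_comm he b6, hn _ _ b7, ⟨_, hH _ b8, cjW_spec he b9⟩,
    ⟨_, hH _ c1, (cjW_spec he c2).trans (ev_lapp _ _ _)⟩, e ▸ gen, e ▸ inner_of Sp.out_Sp i,
    _, _, _, _, faOK_spec he hn hf0, faOK_spec he hn hf1, faOK_spec he hn hf2, faOK_spec he hn hf3,
    isConj_iff.2 ⟨_, l1⟩, l2, isConj_iff.2 ⟨_, l3⟩, l4, l5, l6⟩
  · refine or_iff_not_imp_left.2 fun n => ?_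
    obtain ⟨v, hv, x, e⟩ := clM_spec hE (k := 8) (by decide) (a := 14) (l := 42525) (cardW.trans (by norm_num)) (by norm_num) pP fF m2 mc hw n
    simp only [R, List.mem_cons, List.not_mem_nil, or_false] at hv
    have t : ∀ {y}, x * w * x⁻¹ = y → Cm mm w y := fun e => ⟨x, .inl e⟩
    have u : ∀ {y}, x * w * x⁻¹ = ev g0 (lapp [27] y) → Cm mm w (ev g0 y) := fun e => ⟨x, .inr (e.trans (ev_lapp _ _ _))⟩
    rcases hv with rfl | rfl | rfl | rfl | rfl | rfl | rfl | rfl | rfl | rfl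
    · exact .inl (by simpa [mul_assoc] using (congrArg (x⁻¹ * · * x⁻¹⁻¹) e).trans (w0.cm _))
    all_goals first | simp only [t e, true_or, or_true] | simp only [u e, true_or, or_true]
  · rwa [← ev_lapp, ← he _ _ a4]

end CF.StdZ.E8
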