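import Cfsg.Agent.StdZ.HeL
import Cfsg.Agent.StdZ.Gen

/-! Standard subgroups `2²·L₃(4)`: frames. -/

set_option autoImplicit false
set_option maxRecDepth 100000
set_option synthInstance.maxSize 4000

namespace CF.StdZ.He

open Cfsg Subgroup Function F4
open CF.StdZ.On (V)

variable {G : Type*} [Group G] {ρ σ τ : L0 →* G} {a e k : L0} {c d g : G} {v v' : V} {p m : PP} {γ : MulAut L0}

/-- an element of the Sylow subgroup -/
noncomputable abbrev ph (ρ : L0 →* G) (p : PP) : G := ρ (φ0 p)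

/-- an involution of the centre -/
noncomputable abbrev Z (ρ : L0 →* G) : G := ph ρ (vv i)

/-- another one -/
noncomputable abbrev J (ρ : L0 →* G) : G := ph ρ (vv w)

/-- the centraliser of the standard subgroup -/
noncomputable abbrev K (ρ : L0 →* G) : Subgroup G := centralizer (ρ.range : Set G)

/-- a conjugate frame -/
noncomputable def cg (g : G) (ρ : L0 →* G) : L0 →* G := (MulAut.conj g).toMonoidHom.comp ρ

/-- a twisted frame -/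
noncomputable def tw (ρ : L0 →* G) (γ : MulAut L0) : L0 →* G := ρ.comp γ.toMonoidHom

theorem ph_mul (ρ : L0 →* G) (p m : PP) : ph ρ (p * m) = ph ρ p * ph ρ m := by simp only [ph, map_mul]

theorem ph_inv (ρ : L0 →* G) (p : PP) : ph ρ p⁻¹ = (ph ρ p)⁻¹ := by simp only [ph, map_inv]

theorem ph_one (ρ : L0 →* G) : ph ρ 1 = 1 := by simp only [ph, map_one]

theorem ph_sq (h : p * p = 1) : ph ρ p * ph ρ p = 1 := by rw [← ph_mul, h, ph_one]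

theorem ph_cm (h : Commute p m) : Commute (ph ρ p) (ph ρ m) := (h.map φ0).map ρ

theorem mem_K : c ∈ K ρ ↔ ∀ a, Commute (ρ a) c := ⟨fun h a => h _ ⟨a, rfl⟩, fun h _ ⟨a, e⟩ => e ▸ h a⟩

theorem K_cj (h : ∀ a, σ a = g * ρ (γ a) * g⁻¹) : c ∈ K σ ↔ g⁻¹ * c * g ∈ K ρ := by
  simp only [mem_K, h, comm_cj]
  exact ⟨fun h a => by simpa using h (γ⁻¹ a), fun h a => h _⟩

theorem K_cg : c ∈ K (cg g ρ) ↔ g⁻¹ * c * g ∈ K ρ := K_cj (γ := 1) fun _ => rfl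

theorem K_tw : c ∈ K (tw ρ γ) ↔ c ∈ K ρ := by
  simpa using K_cj (σ := tw ρ γ) (ρ := ρ) (γ := γ) (g := 1) (c := c) fun _ => by simp [tw]

theorem K_nm (h : ∀ a, g * ρ a * g⁻¹ = ρ (γ a)) : g * c * g⁻¹ ∈ K ρ ↔ c ∈ K ρ := by
  simpa [mul_assoc] using K_cj (σ := ρ) (ρ := ρ) (γ := γ⁻¹) (g := g) (c := g * c * g⁻¹) fun a => by simp [h]

theorem K_in : c ∈ K (cg (ρ k) ρ) ↔ c ∈ K ρ := by
  rw [← K_tw (γ := MulAut.conj k) (ρ := ρ), show cg (ρ k) ρ = tw ρ (MulAut.conj k) from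
    MonoidHom.ext fun a => by simp [cg, tw]]

theorem cenK (h : a ∈ center L0) : ρ a ∈ K ρ := mem_K.2 fun e => Commute.map (mem_center_iff.1 h e) ρ

theorem vK (t : F4) : ph ρ (vv t) ∈ K ρ := cenK (vcen t)

theorem cV (t : F4) (a : L0) : Commute (ph ρ (vv t)) (ρ a) := (mem_K.1 (vK t) a).symm

theorem cVK (t : F4) (h : c ∈ K ρ) : Commute (ph ρ (vv t)) c := mem_K.1 h _

theorem V_in (k : L0) (t : F4) : ph (cg (ρ k) ρ) (vv t) = ph ρ (vv t) := conj_of_comm (cV t k)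

/-- the element acts as an inner automorphism -/
def R (ρ : L0 →* G) (c : G) (a : L0) : Prop := (ρ a)⁻¹ * c ∈ K ρ

/-- the element acts as the product of an inner and an outer automorphism -/
def Ac (ρ : L0 →* G) (c : G) (k : L0) (v : V) : Prop := ∀ a, c * ρ a * c⁻¹ = ρ (k * bb v a * k⁻¹)

theorem R.self (ρ : L0 →* G) (a : L0) : R ρ (ρ a) a := by simp [R]

theorem R_one : R ρ c 1 ↔ c ∈ K ρ := by simp [R]

theorem R.ex (h : R ρ c a) : ∃ κ ∈ K ρ, c = ρ a * κ := ⟨_, h, by group⟩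

theorem R.mk {κ : G} (h : κ ∈ K ρ) (a : L0) : R ρ (ρ a * κ) a := by simpa [R] using h

theorem R.mul (h : R ρ c a) (l : R ρ d e) : R ρ (c * d) (a * e) := by
  obtain ⟨x, hx, rfl⟩ := h.ex
  obtain ⟨z, hz, rfl⟩ := l.ex
  rw [(mem_K.1 hx e).symm.mul_mul_mul_comm, ← map_mul]
  exact .mk (mul_mem hx hz) _

theorem R.inv (h : R ρ c a) : R ρ c⁻¹ a⁻¹ := by
  obtain ⟨x, hx, rfl⟩ := h.ex
  rw [(mem_K.1 hx a).eq, mul_inv_rev, ← map_inv]
  exact .mk (inv_mem hx) _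

theorem R.of_q (h : R ρ c a) (l : qc a = qc e) : R ρ c e := by
  have k := mul_mem (inv_mem (cenK (ρ := ρ) (qc_eq.1 l))) h
  rwa [map_mul, map_inv, mul_inv_rev, inv_inv, mul_assoc, mul_inv_cancel_left] at k

theorem R.mem (h : R ρ c a) (l : a ∈ center L0) : c ∈ K ρ := R_one.1 (h.of_q ((qc_one.2 l).trans (map_one qc).symm))

theorem R.memp (h : R ρ c (φ0 p)) (l : p ∈ VP) : c ∈ K ρ := h.mem (φcen.2 l)

theorem R.mulp (h : R ρ c (φ0 p)) (l : R ρ d (φ0 m)) : R ρ (c * d) (φ0 (p * m)) := map_mul φ0 p m ▸ h.mul l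

theorem R.invp (h : R ρ c (φ0 p)) : R ρ c⁻¹ (φ0 p⁻¹) := map_inv φ0 p ▸ h.inv

theorem R.cV (h : R ρ c a) (t : F4) : Commute (ph ρ (vv t)) c := by
  obtain ⟨x, hx, rfl⟩ := h.ex
  exact (He.cV t a).mul_right (cVK t hx)

theorem R.cP (h : R ρ c (φ0 p)) (l : Cn p) (m : PP) : Commute c (ph ρ m) := by
  obtain ⟨x, hx, rfl⟩ := h.ex
  exact (ph_cm (l.comm m)).mul_left (mem_K.1 hx _).symm

theorem R_in : R (cg (ρ k) ρ) c a ↔ R ρ c (k * a * k⁻¹) := by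
  rw [R, K_in, R, map_mul, map_mul, map_inv]; rfl

theorem Ac_zero : Ac ρ c k 0 ↔ R ρ c k := by
  simp only [Ac, R, mem_K, bb_zero, map_mul, map_inv]
  refine forall_congr' fun a => ⟨fun h => comm_of_conj ?_, fun h => ?_⟩
  · calc _ = (ρ k)⁻¹ * (c * ρ a * c⁻¹) * ρ k := by group
      _ = _ := by rw [h]; group
  · conv_rhs => rw [← conj_of_comm h]
    group

theorem Ac.of_q (h : Ac ρ c a v) (l : qc a = qc e) : Ac ρ c e v := fun x => by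
  rw [h, show e = a * (a⁻¹ * e) by group, ← conj_conj', conj_of_comm (mem_center_iff.1 (qc_eq.1 l) _)]

theorem Ac.mul (h : Ac ρ c a v) (l : Ac ρ d e v') : Ac ρ (c * d) (a * bb v e) (v + v') := fun x => by
  rw [← conj_conj', l, h, ← bb_mul]
  simp only [map_mul, map_inv]; group

theorem Ac.inv (h : Ac ρ c a v) : Ac ρ c⁻¹ (bb v a⁻¹) v := fun x => by
  rw [inv_inv, mul_assoc, inv_mul_eq_iff_eq_mul, eq_comm, ← mul_inv_eq_iff_eq_mul, h]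
  simp only [map_mul, map_inv, bbb]; group

theorem Ac.nK (h : Ac ρ c a v) (l : d ∈ K ρ) : c * d * c⁻¹ ∈ K ρ :=
  (K_nm (γ := MulAut.conj a * bb v) h).2 l

theorem Ac.R (h : Ac ρ c a v) (l : R ρ d e) : R ρ (c * d * c⁻¹) (a * bb v e * a⁻¹) := by
  obtain ⟨x, hx, rfl⟩ := l.ex
  rw [← conj_mul, h]
  exact .mk (h.nK hx) _

/-- the element induces an inner automorphism -/
def In (ρ : L0 →* G) (c : G) : Prop := ∃ a, R ρ c a

theorem In_tw : In (tw ρ γ) c ↔ In ρ c :=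
  ⟨fun ⟨a, h⟩ => ⟨γ a, K_tw.1 h⟩, fun ⟨a, h⟩ => ⟨γ⁻¹ a, K_tw.2 (by simpa [tw, R] using h)⟩⟩

theorem In_in : In (cg (ρ k) ρ) c ↔ In ρ c :=
  ⟨fun ⟨_, h⟩ => ⟨_, R_in.1 h⟩, fun ⟨a, h⟩ => ⟨k⁻¹ * a * k, R_in.2 (by simpa [mul_assoc] using h)⟩⟩

open _root_.Classical in
/-- the outer automorphism induced by an element -/
noncomputable def cl (ρ : L0 →* G) (c : G) : V := if h : ∃ v k, Ac ρ c k v then h.choose else 0

/-- conjugate frames -/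
def Cj (ρ σ : L0 →* G) : Prop := ∃ (g : G) (γ : MulAut L0), ∀ a, σ a = g * ρ (γ a) * g⁻¹

theorem Cj.symm (h : Cj ρ σ) : Cj σ ρ := let ⟨g, γ, e⟩ := h; ⟨g⁻¹, γ⁻¹, fun a => by simp [e, mul_assoc]⟩

theorem Cj.trans (h : Cj ρ σ) (l : Cj σ τ) : Cj ρ τ :=
  let ⟨g, γ, e⟩ := h; let ⟨x, δ, f⟩ := l; ⟨x * g, γ * δ, fun a => by rw [f, e, conj_conj']; rfl⟩

theorem cj_cg (g : G) (ρ : L0 →* G) : Cj ρ (cg g ρ) := ⟨g, 1, fun _ => rfl⟩

theorem cj_tw (ρ : L0 →* G) (γ : MulAut L0) : Cj ρ (tw ρ γ) := ⟨1, γ, fun _ => by simp [tw]⟩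

theorem Cj.rfl : Cj ρ ρ := cj_tw ρ 1

/-- conjugates of the involutions of the centre -/
def Cz (ρ : L0 →* G) (c : G) : Prop := ∃ σ, Cj ρ σ ∧ Z σ = c

theorem Cz.conj (h : Cz ρ c) (g : G) : Cz ρ (g * c * g⁻¹) :=
  let ⟨σ, l, e⟩ := h; ⟨cg g σ, l.trans (cj_cg _ _), e ▸ rfl⟩

theorem Cz.of_cj (h : Cz σ c) (l : Cj ρ σ) : Cz ρ c := let ⟨τ, n, e⟩ := h; ⟨τ, l.trans n, e⟩

theorem exists_tw (ρ : L0 →* G) {t : F4} (h : t ≠ o) : ∃ γ, Z (tw ρ γ) = ph ρ (vv t) :=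
  (exists_diag h (m := i) (by decide)).imp fun γ e => congrArg ρ ((e _).trans (by cases t <;> rfl))

theorem cz_v (ρ : L0 →* G) {t : F4} (h : t ≠ o) : Cz ρ (ph ρ (vv t)) :=
  (exists_tw ρ h).elim fun γ e => ⟨_, cj_tw ρ γ, e⟩

theorem Cz.co (h : Cz ρ (ph ρ p)) (l : Co p m) : Cz ρ (ph ρ m) := by
  obtain ⟨k, e⟩ := l
  simpa only [ph, ← e, map_mul, map_inv] using h.conj (ρ k)

/-- a frame: the image is a standard subgroup -/
structure Fr (ρ : L0 →* G) : Prop where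
  inj : Injective ρ
  te : ∀ s ∈ K ρ, orderOf s = 2 → ∀ g, g * s * g⁻¹ ∈ K ρ → ∃ γ : MulAut L0, ∀ a, g * ρ a * g⁻¹ = ρ (γ a)

namespace Fr

variable (h : Fr ρ)
include h

theorem pinj (l : ph ρ p = ph ρ m) : p = m := φ0_inj (h.inj l)

theorem ord (l : p * p = 1) (n : p ≠ 1) : orderOf (ph ρ p) = 2 :=
  ord2 (ph_sq l) fun e => n (h.pinj (e.trans (ph_one ρ).symm))

theorem ov {t : F4} (n : t ≠ o) : orderOf (ph ρ (vv t)) = 2 := h.ord (cn_vv t).sq (by revert t; decide)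

theorem oz : orderOf (Z ρ) = 2 := h.ov (by decide)

theorem KZ (l : ρ a ∈ K ρ) : a ∈ center L0 := mem_center_iff.2 fun e => h.inj (by
  rw [map_mul, map_mul, (mem_K.1 l e).eq])

theorem KP (l : ph ρ p ∈ K ρ) : p ∈ VP := φcen.1 (h.KZ l)

theorem Rq (l : R ρ c a) (n : R ρ c e) : qc a = qc e := qc_eq.2 (h.KZ (by
  simpa [mul_assoc] using mul_mem l (inv_mem n)))

theorem Rp (l : R ρ c (φ0 p)) (n : R ρ c (φ0 m)) : p⁻¹ * m ∈ VP := qc_φ.1 (h.Rq l n)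

theorem RK (l : R ρ c (φ0 p)) (n : c ∈ K ρ) : p ∈ VP := by
  simpa using h.Rp (p := 1) (by rw [map_one]; exact R_one.2 n) l

theorem of_cj (l : Cj ρ σ) : Fr σ := by
  obtain ⟨g, γ, e⟩ := l
  refine ⟨fun a x f => γ.injective (h.inj (by simpa [e] using f)), fun s hs o x hx => ?_⟩
  obtain ⟨δ, f⟩ := h.te _ ((K_cj e).1 hs) (by rw [← o]; simpa using ord_cj g⁻¹ s) (g⁻¹ * x * g)
    (by simpa [mul_assoc] using (K_cj e).1 hx)
  exact ⟨γ⁻¹ * δ * γ, fun a => by simp [e, ← f, mul_assoc]⟩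

theorem same (l : Cj ρ σ) (m : c ∈ K ρ) (n : c ∈ K σ) (o : orderOf c = 2) : d ∈ K ρ ↔ d ∈ K σ := by
  obtain ⟨g, γ, e⟩ := l
  obtain ⟨δ, f⟩ := h.te c m o g⁻¹ (by simpa using (K_cj e).1 n)
  rw [K_cj e, ← K_nm f, inv_inv]

theorem act (l : Commute (Z ρ) c) : ∃ v k, Ac ρ c k v := by
  obtain ⟨γ, e⟩ := h.te _ (vK i) h.oz c (by rw [conj_of_comm l]; exact vK i)
  obtain ⟨v, k, f⟩ := actL (γ := γ) (h.inj ((e _).symm.trans (conj_of_comm l)))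
  exact ⟨v, k, fun a => f a ▸ e a⟩

theorem cl_eq (e : Ac ρ c k v) : cl ρ c = v := by
  have m : ∃ v k, Ac ρ c k v := ⟨v, k, e⟩
  obtain ⟨a, f⟩ := m.choose_spec
  rw [cl, dif_pos m]
  have := f.mul e.inv
  exact (by decide : ∀ v w : V, v + w = 0 → v = w) _ _ <| uniqL fun x => h.Rq (.self _ _) (by
    rw [← this]; simpa using R.self ρ x)

theorem spec (l : Commute (Z ρ) c) : ∃ k, Ac ρ c k (cl ρ c) := by
  obtain ⟨v, a, e⟩ := h.act l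
  exact ⟨a, h.cl_eq e ▸ e⟩

theorem cl_mul (n : Commute (Z ρ) c) (l : Commute (Z ρ) d) : cl ρ (c * d) = cl ρ c + cl ρ d :=
  (h.spec n).elim fun _ a => (h.spec l).elim fun _ e => h.cl_eq (a.mul e)

theorem cl_inv (l : Commute (Z ρ) c) : cl ρ c⁻¹ = cl ρ c := (h.spec l).elim fun _ a => h.cl_eq a.inv

theorem cl_in (l : In ρ c) : cl ρ c = 0 := l.elim fun _ e => h.cl_eq (Ac_zero.2 e)

theorem cl_ρ (a : L0) : cl ρ (ρ a) = 0 := h.cl_in ⟨_, .self _ _⟩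

theorem cl_sq (l : Commute (Z ρ) c) : cl ρ (c * c) = 0 := by rw [h.cl_mul l l, (by decide : ∀ v : V, v + v = 0)]

theorem cl_conj (n : Commute (Z ρ) c) (l : Commute (Z ρ) d) : cl ρ (c * d * c⁻¹) = cl ρ d := by
  rw [h.cl_mul (n.mul_right l) n.inv_right, h.cl_mul n l, h.cl_inv n]
  exact (by decide : ∀ v w : V, v + w + v = w) _ _

theorem nK (n : Commute (Z ρ) c) (l : d ∈ K ρ) : c * d * c⁻¹ ∈ K ρ := (h.spec n).elim fun _ a => a.nK l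

theorem dec (n : Commute (Z ρ) c) (e : cl ρ c = 0) : In ρ c := (h.spec n).imp fun _ a => Ac_zero.1 (e ▸ a)

theorem vact (n : Commute (Z ρ) c) (t : F4) :
    c * ph ρ (vv t) * c⁻¹ = ph ρ (vv (if (cl ρ c).2 = 0 then t else cj t)) := by
  obtain ⟨a, e⟩ := h.spec n
  rw [e, bbv, mem_center_iff.1 (vcen _), mul_inv_cancel_right]

theorem cV0 (n : Commute (Z ρ) c) (e : (cl ρ c).2 = 0) (t : F4) : Commute (ph ρ (vv t)) c :=
  comm_of_conj (by rw [h.vact n, if_pos e])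

theorem cV1 (n : Commute (Z ρ) c) (e : (cl ρ c).2 ≠ 0) : c * J ρ * c⁻¹ = J ρ * Z ρ := by
  rw [h.vact n, if_neg e, ← ph_mul]; rfl

theorem cl2 (n : Commute (Z ρ) c) (e : Commute (J ρ) c) : (cl ρ c).2 = 0 := by_contra fun f =>
  ne_of h.oz (by simpa [conj_of_comm e] using h.cV1 n f)

theorem jor (n : Commute (Z ρ) c) : Commute (J ρ) c ∨ c * J ρ * c⁻¹ = J ρ * Z ρ :=
  (em _).imp (h.cV0 n · w) (h.cV1 n)

theorem loc (t : R ρ d (φ0 (uu i))) (n : Commute (Z ρ) c) (l : Commute d c) : ∃ p, Ac ρ c (φ0 p) (cl ρ c) := by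
  obtain ⟨a, e⟩ := h.spec n
  have := e.R t
  rw [conj_of_comm l, bbu] at this
  obtain ⟨p, rfl⟩ := cenu (h.Rq this t)
  exact ⟨p, e⟩

theorem loc0 (t : R ρ d (φ0 (uu i))) (n : In ρ c) (l : Commute d c) : ∃ p, R ρ c (φ0 p) :=
  (h.loc t (n.elim fun _ e => e.cV i) l).imp fun _ e => Ac_zero.1 (h.cl_in n ▸ e)

theorem cenV {x : G} (t : R ρ d (φ0 (uu i))) (r : R ρ x (φ0 m)) (m1 : Cn m) (m2 : cj m.u ≠ m.u)
    (n : Commute (Z ρ) c) (j : Commute (J ρ) c) (l : Commute d c) (l' : Commute x c) : ∃ p, R ρ c (φ0 p) := by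
  obtain ⟨p, e⟩ := h.loc t n l
  rcases (by decide : ∀ v : V, v.2 = 0 → v = 0 ∨ v = (1, 0)) _ (h.cl2 n j) with f | f <;> rw [f] at e
  · exact ⟨p, Ac_zero.1 e⟩
  · have := e.R r
    rw [conj_of_comm l', b10, ← map_inv, ← map_mul, ← map_mul, conj_of_comm (Cn.comm
      ((by decide +kernel : ∀ m, Cn m → Cn (fld (gr m))) m m1) p)] at this
    exact absurd (h.Rp this r) ((by decide +kernel : ∀ m, Cn m → cj m.u ≠ m.u → (fld (gr m))⁻¹ * m ∉ VP) m m1 m2)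

theorem red (n : Commute (Z ρ) c) (l : c * c ∈ K ρ) (f : cl ρ c ≠ 0) : ∃ r, Ac (cg (ρ r) ρ) c 1 (cl ρ c) := by
  obtain ⟨a, e⟩ := h.spec n
  have := e.mul e
  rw [(by decide : ∀ v : V, v + v = 0)] at this
  obtain ⟨r, f⟩ := redL f (qc_one.1 (h.Rq (Ac_zero.1 this) (R_one.2 l)))
  refine ⟨r, fun x => ?_⟩
  show c * (ρ r * ρ x * (ρ r)⁻¹) * c⁻¹ = ρ r * ρ _ * (ρ r)⁻¹
  rw [← map_inv ρ r, ← map_mul, ← map_mul, e.of_q f]
  simp only [map_mul, map_inv, map_one]; group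

theorem fix (l : ∀ a, c * ρ a * c⁻¹ = ρ (γ a)) (cc : c * c = 1) : ∃ γ, Commute (Z (tw ρ γ)) c := by
  have k := fun t => cenL.1 ((characteristic_iff_le_comap.1 inferInstance γ) (vcen t))
  choose π k using k
  have k : ∀ t, c * ph ρ (vv t) * c⁻¹ = ph ρ (vv (π t)) := fun t => (l _).trans (congrArg ρ (k t))
  have a : π b = π i + π w := congrArg PP.v (h.pinj (by
    rw [← k, show vv b = vv i * vv w from rfl, ph_mul, ← conj_mul, k, k, ← ph_mul]) : vv (π b) = vv (π i) * vv (π w))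
    |>.trans (by show π i + π w + o * cj o = _; cases π i <;> cases π w <;> rfl)
  have z : π o = o := congrArg PP.v (h.pinj (by rw [← k, show vv o = 1 from rfl, ph_one]; simp) : vv (π o) = vv o)
  have s : ∀ t, π (π t) = t := fun t => congrArg PP.v (h.pinj (by rw [← k, ← k, conj_conj', cc]; simp) :
    vv (π (π t)) = vv t)
  obtain ⟨t, n, e⟩ : ∃ t, t ≠ o ∧ π t = t := by
    have e : π = fun t => F4.casesOn t o (π i) (π w) (π i + π w) := funext fun t => by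
      cases t
      exacts [z, rfl, rfl, a]
    rw [e] at s ⊢
    generalize π i = x, π w = y at s ⊢
    revert x y
    decide +kernel
  obtain ⟨δ, f⟩ := exists_tw ρ n
  exact ⟨δ, f ▸ comm_of_conj (by rw [k, e])⟩

end Fr

/-- a pair in which the involutions induce inner automorphisms -/
structure Ip (ρ σ : L0 →* G) : Prop where
  fr : Fr ρ
  cj : Cj ρ σ
  nk : Z σ ∉ K ρ
  inn : In ρ (Z σ)

theorem Fr.no_inv (h : Fr ρ) (l : Cj ρ σ) (n : Z σ ∉ K ρ) (a : c ∈ K ρ) (e : c ∈ K σ) : orderOf c ≠ 2 :=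
  fun o => n ((h.same l a e o).2 (vK i))

theorem Fr.nk (h : Fr ρ) (l : Cj ρ σ) (n : Z σ ∉ K ρ) : Z ρ ∉ K σ := fun e => h.no_inv l n (vK i) e h.oz

theorem Fr.ip (h : Fr ρ) (z : Cz ρ c) (n : c ∉ K ρ) (l : In ρ c) : ∃ τ, Ip ρ τ ∧ Z τ = c :=
  let ⟨τ, a, e⟩ := z; ⟨τ, ⟨h, a, e ▸ n, e ▸ l⟩, e⟩

theorem Fr.pair1 (h : Fr ρ) (l : Cj ρ σ) (n : Z σ ∉ K ρ) (c1 : Commute (Z ρ) (Z σ)) (c2 : Commute (Z ρ) (J σ)) :
    ∃ ρ σ : L0 →* G, Ip ρ σ := by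
  have f := h.of_cj l
  have c : ∀ t, Commute (Z ρ) (ph σ (vv t)) := fun t => (f.cV0 c1.symm (f.cl2 c1.symm c2.symm) t).symm
  by_contra x
  have k : ∀ t, t ≠ o → cl ρ (ph σ (vv t)) ≠ 0 := fun t ht e =>
    (h.ip ((cz_v σ ht).of_cj l) (fun a => h.no_inv l n a (vK t) (f.ov ht)) (h.dec (c t) e)).elim fun _ a => x ⟨_, _, a.1⟩
  have a : cl ρ (ph σ (vv b)) = _ := (congrArg _ (ph_mul σ (vv i) (vv w))).trans (h.cl_mul c1 c2)
  obtain ⟨t, t', ht, e, e'⟩ : ∃ t t', t ≠ o ∧ (cl ρ (ph σ (vv t))).2 = 0 ∧ (cl ρ (ph σ (vv t'))).2 ≠ 0 := by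
    rcases (by decide +kernel : ∀ x y : V, x ≠ 0 → y ≠ 0 → x + y ≠ 0 → (x.2 = 0 ∧ y.2 ≠ 0) ∨ (y.2 = 0 ∧ x.2 ≠ 0) ∨
      ((x + y).2 = 0 ∧ x.2 ≠ 0)) _ _ (k i (by decide)) (k w (by decide)) (a ▸ k b (by decide)) with e | e | e
    exacts [⟨i, w, by decide, e⟩, ⟨w, i, by decide, e⟩, ⟨b, i, by decide, a ▸ e⟩]
  obtain ⟨γ, z⟩ := exists_tw σ ht
  have l' := l.trans (cj_tw σ γ)
  have f' := h.of_cj l'
  have d1 : Commute (Z (tw σ γ)) (Z ρ) := z ▸ (c t).symm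
  have d2 : Commute (Z (tw σ γ)) (J ρ) := z ▸ (h.cV0 (c t) e w).symm
  have := f'.cl_conj (z ▸ cV t _ : Commute _ (ph σ (vv t'))) d2
  rw [h.cV1 (c t') e', f'.cl_mul d2 d1] at this
  exact x ⟨_, _, f', l'.symm, fun m => h.nk l n (K_tw.1 m), f'.dec d1 (by simpa using this)⟩

theorem Fr.pair2 (h : Fr ρ) (l : Cj ρ σ) (n : Z σ ∉ K ρ) (c1 : Commute (Z ρ) (Z σ)) : ∃ ρ σ : L0 →* G, Ip ρ σ := by
  have f := h.of_cj l
  rcases f.jor c1.symm with c2 | c2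
  · exact h.pair1 l n c1 c2.symm
  by_cases c3 : (cl ρ (Z σ)).2 = 0
  · exact f.pair1 l.symm (h.nk l n) c1.symm (h.cV0 c1 c3 w).symm
  obtain ⟨r, e⟩ := h.red c1 (sq_of f.oz ▸ one_mem _) fun e => c3 (e ▸ rfl)
  have z := V_in (ρ := ρ) r i
  have l := (cj_cg (ρ r) ρ).symm.trans l
  have h := h.of_cj (cj_cg (ρ r) ρ)
  change Z _ = Z ρ at z
  rw [← z] at c1 c2
  generalize cg (ρ r) ρ = τ at *
  have e : ∀ a, Z σ * τ a * (Z σ)⁻¹ = τ (bb (cl ρ (Z σ)) a) := fun a => by simpa using e a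
  have cm : ∀ {a}, bb (cl ρ (Z σ)) a = a → Commute (Z σ) (τ a) := fun t => (comm_of_conj (by rw [e, t])).symm
  obtain ⟨s, x, n1, c4, n2, n3⟩ : ∃ s x : PP, s * vv i ∉ VP ∧ Commute (Z σ) (ph τ s) ∧ cl σ (ph τ s) = 0 ∧
      ph τ x * Z σ * (ph τ x)⁻¹ = ph τ s * Z τ * Z σ := by
    have k : ∀ {θ : PP →* PP} {s x : PP}, (∀ p, bb (cl ρ (Z σ)) (φ0 p) = φ0 (θ p)) → x * θ x⁻¹ = s * vv i →
        ph τ x * Z σ * (ph τ x)⁻¹ = ph τ s * Z τ * Z σ := fun {θ s x} t u => by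
      rw [← ph_mul, ← u, ph_mul, show ph τ (θ x⁻¹) = τ _ from congrArg τ (t _).symm, ← e, map_inv, map_inv]; group
    rcases (by decide : ∀ v : V, v.2 ≠ 0 → v = (0, 1) ∨ v = (1, 1)) _ c3 with t | t <;> rw [t] at cm k
    · have := cm (b01 (fx i * gy i))
      exact ⟨fx i * gy i * (fx i * gy i), uu w, by decide, ph_mul τ _ _ ▸ this.mul_right this, by
        rw [ph_mul, f.cl_sq this], k b01 (by decide)⟩
    · have a1 := cm (b11 (uu b))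
      have a2 := cm b11h
      have := f.cl_conj a2 a1
      rw [← map_inv, ← map_mul, ← map_mul, h0_φ] at this
      have a3 := cm (b11 (uu w))
      change cl σ (ph τ (uu w)) = _ at this
      exact ⟨uu b * uu w, fx i * gy i, by decide, cm (b11 (uu i)), by
        rw [ph_mul, f.cl_mul a1 a3, ← this]; exact (by decide : ∀ v : V, v + v = 0) _, k b11 (by decide)⟩
  have c5 := f.cV0 c4 (by rw [n2]; rfl) w
  have : ph τ (s * vv i) = (J σ)⁻¹ * (ph τ x * Z σ * (ph τ x)⁻¹) * (J σ)⁻¹⁻¹ := by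
    have c6 := (cV (ρ := σ) i (φ0 (vv w))).eq
    rw [n3, inv_inv, mul_assoc, eq_inv_mul_iff_mul_eq, ph_mul, ← mul_assoc, c5.eq, mul_assoc, mul_assoc, mul_assoc,
      c6, ← c2, ← mul_assoc (Z τ), ← mul_assoc (Z τ), sq_of h.oz, one_mul, inv_eq_of_mul_eq_one_right (sq_of h.oz)]
  exact (h.ip (c := ph τ (s * vv i)) (this ▸ (Cz.conj ⟨σ, l, rfl⟩ _).conj _) (mt h.KP n1) ⟨_, .self _ _⟩).elim
    fun _ a => ⟨_, _, a.1⟩

end CF.StdZ.He
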