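import Cfsg.Agent.StdZ.HeA

/-! Standard subgroups `2²·L₃(4)`: pairs of frames. -/

set_option autoImplicit false
set_option maxRecDepth 100000
set_option synthInstance.maxSize 4000

namespace CF.StdZ.He

open Cfsg Subgroup Function F4
open CF.StdZ.On (V)

variable {G : Type*} [Group G] {ρ σ τ : L0 →* G} {a e k : L0} {c d g : G} {v v' : V} {p m n : PP} {γ : MulAut L0}

theorem Z_in (ρ : L0 →* G) (k : L0) : Z (cg (ρ k) ρ) = Z ρ := V_in k i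

theorem Fr.cmK (h : Fr ρ) (l : R ρ c (φ0 p)) (r : R ρ d (φ0 m)) :
    c * d * c⁻¹ * d⁻¹ ∈ K ρ ↔ p.x * m.y = m.x * p.y := by
  have := ((l.mulp r).mulp l.invp).mulp r.invp
  have k : ∀ x y : F4, x + y + x + y = o := by decide
  refine Iff.trans ⟨h.RK this, this.memp⟩ ?_
  exact (by decide +kernel : ∀ x y u x' y' u' : F4, u + u' + x * y' + (u + x * y) + (x + x') * y + (u' + x' * y') +
    (x + x' + x) * y' = o ↔ x * y' = x' * y) p.x p.y p.u m.x m.y m.u |> Iff.trans ⟨fun e => congrArg PP.u e, fun e =>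
      PP.ext (k ..) (k ..) e rfl⟩

theorem Fr.tri (h : Fr ρ) {x : G} (l : R ρ c (φ0 p)) (r : R ρ d (φ0 m)) (s : R ρ x (φ0 n)) (q : ¬ Cn p)
    (e1 : c * d * c⁻¹ * d⁻¹ ∈ K ρ) (e2 : c * x * c⁻¹ * x⁻¹ ∈ K ρ) : d * x * d⁻¹ * x⁻¹ ∈ K ρ :=
  (h.cmK r s).2 ((by decide +kernel : ∀ x y x1 y1 x2 y2 : F4, ¬ (x = o ∧ y = o) → x * y1 = x1 * y →
    x * y2 = x2 * y → x1 * y2 = x2 * y1) _ _ _ _ _ _ q ((h.cmK l r).1 e1) ((h.cmK l s).1 e2))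

/-- the second involution is in normal form -/
structure N1 (ρ σ : L0 →* G) : Prop extends Ip ρ σ where
  tu : R ρ (Z σ) (φ0 (uu i))

namespace Ip

variable (h : Ip ρ σ)
include h

theorem fe : Fr σ := h.fr.of_cj h.cj

theorem cm : Commute (Z ρ) (Z σ) := h.inn.elim fun _ e => e.cV i

theorem no_inv (a : c ∈ K ρ) (e : c ∈ K σ) : orderOf c ≠ 2 := h.fr.no_inv h.cj h.nk a e

theorem odd [Finite G] (a : c ∈ K ρ) (r : c ∈ K σ) : Odd (orderOf c) := by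
  rw [← Nat.not_even_iff_odd]
  intro e
  exact h.no_inv (pow_mem a _) (pow_mem r _) (orderOf_pow_orderOf_div (orderOf_pos c).ne' (even_iff_two_dvd.1 e))

theorem inl (k : L0) : Ip (cg (ρ k) ρ) σ :=
  ⟨h.fr.of_cj (cj_cg _ _), (cj_cg _ _).symm.trans h.cj, mt K_in.1 h.nk, In_in.2 h.inn⟩

theorem inr (k : L0) : Ip ρ (cg (σ k) σ) :=
  ⟨h.fr, h.cj.trans (cj_cg _ _), (Z_in σ k).symm ▸ h.nk, (Z_in σ k).symm ▸ h.inn⟩

theorem n1 : ∃ k, N1 (cg (ρ k) ρ) σ := by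
  obtain ⟨a, e⟩ := h.inn
  obtain ⟨k, f⟩ := cls (a := a) (qc_one.1 (h.fr.Rq (e.mul e) (R_one.2 (sq_of h.fe.oz ▸ one_mem _))))
    fun m => h.nk (e.mem m)
  refine ⟨k⁻¹, h.inl _, R_in.2 (e.of_q ?_)⟩
  simp only [map_mul, map_inv] at f ⊢
  rw [← f]; group

end Ip

theorem N1.cP (h : N1 ρ σ) (p : PP) : Commute (Z σ) (ph ρ p) := h.tu.cP (cn_uu i) p

theorem Ip.symm (h : Ip ρ σ) : Ip σ ρ := by
  obtain ⟨k, l⟩ := h.n1
  refine ⟨h.fe, h.cj.symm, h.fr.nk h.cj h.nk, h.fe.dec h.cm.symm ?_⟩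
  rw [← Z_in ρ k, Z, show vv i = fx i * gy w * (fx i * gy w) * (fx w * gy i * (fx w * gy i)) from by decide, ph_mul,
    h.fe.cl_mul (l.cP _) (l.cP _), ph_mul, ph_mul _ (_ * _), h.fe.cl_sq (l.cP _), h.fe.cl_sq (l.cP _), add_zero]

theorem Ip.twr (h : Ip ρ σ) (γ : MulAut L0) : Ip ρ (tw σ γ) :=
  Ip.symm ⟨h.fe.of_cj (cj_tw _ _), (cj_tw _ _).symm.trans h.cj.symm, mt K_tw.1 h.symm.nk, In_tw.2 h.symm.inn⟩

namespace N1

variable (h : N1 ρ σ)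
include h

theorem j : ∃ p, Cn p ∧ cj p.u ≠ p.u ∧ R ρ (J σ) (φ0 p) := by
  obtain ⟨γ, e⟩ := exists_tw σ (t := w) (by decide)
  obtain ⟨p, r⟩ := h.fr.loc0 (c := J σ) h.tu ((show _ = J σ from e) ▸ (h.twr γ).inn) (cV i _)
  have q : Cn p := by_contra fun q => by
    obtain ⟨a, -, c, -, f⟩ := (by decide +kernel : ∀ p, ¬ Cn p → ∃ a ∈ [fx i, gy i], ∃ c ∈ [fx w, gy w],
      a * p * a⁻¹ * p⁻¹ ≠ 1 ∧ c * p * c⁻¹ * p⁻¹ ≠ 1 ∧ a * p * a⁻¹ * p⁻¹ ≠ c * p * c⁻¹ * p⁻¹) p q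
    have k : ∀ a, a * p * a⁻¹ * p⁻¹ ≠ 1 → ph ρ (a * p * a⁻¹ * p⁻¹) = Z σ := fun a n => by
      have : ph ρ (a * p * a⁻¹ * p⁻¹) = ph ρ a * J σ * (ph ρ a)⁻¹ * (J σ)⁻¹ := by
        obtain ⟨κ, m, f⟩ := r.ex
        rw [f, ← conj_mul, conj_of_comm (mem_K.1 m _).symm]
        simp only [ph, map_mul, map_inv]; group
      rcases h.fe.jor (h.cP a) with t | t
      · exact absurd (h.fr.pinj (by rw [this, conj_of_comm t, mul_inv_cancel, ph_one])) n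
      · rw [this, t, conj_of_comm (cV i _)]
    exact f.2.2 (h.fr.pinj ((k a f.1).trans (k c f.2.1).symm))
  refine ⟨p, q, fun f => ?_, r⟩
  rcases (by decide +kernel : ∀ p, Cn p → cj p.u = p.u → p ∈ VP ∨ uu i * p ∈ VP) p q f with t | t
  · exact h.no_inv (r.memp t) (vK w) (h.fe.ov (by decide))
  · exact h.no_inv ((h.tu.mulp r).memp t) (ph_mul σ .. ▸ vK b) (ph_mul σ .. ▸ h.fe.ov (t := b) (by decide))

theorem all (t : F4) : ∃ p, Cn p ∧ R ρ (ph σ (vv t)) (φ0 p) := by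
  obtain ⟨p, q, -, r⟩ := h.j
  cases t
  exacts [⟨1, ⟨rfl, rfl⟩, R_one.2 ((ph_one σ).symm ▸ one_mem _) |> fun e => (map_one φ0).symm ▸ e⟩,
    ⟨_, cn_uu i, h.tu⟩, ⟨p, q, r⟩,
    ⟨uu i * p, (by decide +kernel : ∀ p, Cn p → Cn (uu i * p)) p q, ph_mul σ (vv i) (vv w) ▸ h.tu.mulp r⟩]

theorem cV (t : F4) (p : PP) : Commute (ph σ (vv t)) (ph ρ p) := (h.all t).elim fun _ e => e.2.cP e.1 p

theorem zv (r : R ρ c (φ0 m)) (q : Cn m) : ∃ t, ph σ (vv t) * c ∈ K ρ := by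
  obtain ⟨p, l, f, s⟩ := h.j
  rcases (by decide +kernel : ∀ u v u' v', cj u ≠ u → zz u' v' ∈ VP ∨ uu i * zz u' v' ∈ VP ∨
    zz u v * zz u' v' ∈ VP ∨ uu i * zz u v * zz u' v' ∈ VP) p.u p.v m.u m.v f with t | t | t | t <;>
    rw [← show m = zz m.u m.v from PP.ext q.1 q.2 rfl rfl] at t
  · exact ⟨o, by rw [show vv o = 1 from rfl, ph_one, one_mul]; exact r.memp t⟩
  · exact ⟨i, (h.tu.mulp r).memp t⟩
  all_goals rw [← show p = zz p.u p.v from PP.ext l.1 l.2 rfl rfl] at t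
  · exact ⟨w, (s.mulp r).memp t⟩
  · exact ⟨b, ph_mul σ (vv i) (vv w) ▸ ((h.tu.mulp s).mulp r).memp t⟩

theorem cen (l : ∀ t, Commute (ph ρ (vv t)) c) (r : ∀ t, Commute (ph σ (vv t)) c) : ∃ p, R ρ c (φ0 p) :=
  h.j.elim fun _ e => h.fr.cenV h.tu e.2.2 e.1 e.2.1 (l i) (l w) (r i) (r w)

end N1

/-- both involutions are in normal form -/
structure N2 (ρ σ : L0 →* G) : Prop extends N1 ρ σ where
  ut : R σ (Z ρ) (φ0 (uu i))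

theorem N1.n2 (h : N1 ρ σ) : ∃ k, N2 ρ (cg (σ k) σ) :=
  h.symm.n1.imp fun k l => ⟨⟨h.inr k, (Z_in σ k).symm ▸ h.tu⟩, l.tu⟩

namespace N2

variable (h : N2 ρ σ)
include h

theorem symm : N2 σ ρ := ⟨⟨h.toIp.symm, h.ut⟩, h.tu⟩

theorem th (p : PP) : ∃ m, R σ (ph ρ p) (φ0 m) := h.symm.cen (h.cV · p) fun t => cV t _

theorem kv (l : c ∈ K ρ) (r : Commute (Z σ) c) : ∃ t, ph ρ (vv t) * c ∈ K σ := by
  have j : Commute (J σ) c := (h.fe.jor r).resolve_right fun e => h.nk (by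
    obtain ⟨p, -, -, s⟩ := h.j
    obtain ⟨κ, m, f⟩ := s.ex
    have : Z σ = κ⁻¹ * (c * κ * c⁻¹) := by
      rw [← mul_right_inj (J σ), ← e, f, ← conj_mul, conj_of_comm (mem_K.1 l _)]; group
    exact this ▸ mul_mem (inv_mem m) (mul_mem (mul_mem l m) (inv_mem l)))
  obtain ⟨m, s⟩ := h.symm.cen (h.fe.cV0 r (h.fe.cl2 r j)) (cVK · l)
  refine h.symm.zv s (by_contra fun q => h.symm.nk ?_)
  have k : ∀ p n, ph ρ (p * n * p⁻¹ * n⁻¹) ∈ K σ := fun p n => by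
    obtain ⟨_, a⟩ := h.th p
    obtain ⟨_, e⟩ := h.th n
    simp only [ph_mul, ph_inv]
    refine h.fe.tri s a e q ?_ ?_ <;> rw [conj_of_comm (mem_K.1 l _), mul_inv_cancel] <;> exact one_mem _
  rw [Z, show vv i = fx i * gy w * (fx i)⁻¹ * (gy w)⁻¹ * (fx w * gy i * (fx w)⁻¹ * (gy i)⁻¹) from by decide, ph_mul]
  exact mul_mem (k _ _) (k _ _)

variable [Finite G]

theorem two' (l : c ∈ K ρ) (r : Commute (Z σ) c) {j : ℕ} (e : c ^ 2 ^ j = 1) : ∃ t, c = ph ρ (vv t) :=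
  (h.kv l r).imp fun t a => by
    have := eq_one_of_odd (h.odd (mul_mem (vK t) l) a) (k := j + 1) (by
      rw [(cVK t l).mul_pow, pow_succ 2 j, pow_mul c, e, mul_comm, pow_mul, sq, ph_sq (cn_vv t).sq]; simp)
    exact (eq_inv_of_mul_eq_one_right this).trans (inv_eq_of_mul_eq_one_right (ph_sq (cn_vv t).sq))

theorem tz : ∃ t, Z σ = ph ρ (zz i t) := by
  obtain ⟨κ, m, e⟩ := h.tu.ex
  have c := mem_K.1 m (φ0 (uu i))
  obtain ⟨t, rfl⟩ := h.two' m (e ▸ c.mul_left (Commute.refl κ)) (j := 1) (by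
    have := sq_of h.fe.oz
    rwa [e, c.symm.mul_mul_mul_comm, ph_sq (cn_uu i).sq, one_mul, ← sq] at this)
  exact ⟨t, e.trans ((ph_mul ..).symm.trans (by cases t <;> rfl))⟩

theorem cK (l : c ∈ K ρ) : Commute (Z σ) c := h.tz.elim fun _ e => e ▸ mem_K.1 l _

theorem two (l : c ∈ K ρ) {j : ℕ} (e : c ^ 2 ^ j = 1) : ∃ t, c = ph ρ (vv t) := h.two' l (h.cK l) e

theorem nc (q : ¬ Cn p) (s : p * p = 1) (r : R σ (ph ρ p) (φ0 m)) : ¬ Cn m := fun l => by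
  obtain ⟨t, a⟩ := h.symm.zv r l
  obtain ⟨x, e⟩ := h.symm.two a (j := 1) (by
    rw [pow_one, (cV t _).mul_pow, sq, sq, ph_sq s, ph_sq (cn_vv t).sq, one_mul])
  rw [← ph_mul] at e
  have k : ∀ n, vv t * p * n = n * (vv t * p) := fun n => h.fr.pinj (by rw [ph_mul, ph_mul _ n, e, (h.cV x n).eq])
  exact q ((by decide +kernel : ∀ t p, vv t * p * fx i = fx i * (vv t * p) → vv t * p * gy i = gy i * (vv t * p) →
    Cn p) t p (k _) (k _))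

theorem tz0 : Z σ = ph ρ (uu i) := by
  obtain ⟨t, e⟩ := h.tz
  obtain rfl | ⟨x, y, x', y', s, f1, f2, f3, f4, f5⟩ := (by decide +kernel : ∀ t, t = o ∨ ∃ x y x' y' s,
    ¬ Cn (fx x) ∧ ¬ Cn (gy y) ∧ s ≠ o ∧ fx x * gy y * (fx x)⁻¹ * (gy y)⁻¹ = zz i t ∧
    fx x' * gy y * (fx x')⁻¹ * (gy y)⁻¹ * (gy y' * fx x * (gy y')⁻¹ * (fx x)⁻¹) = vv s) t
  · exact e
  obtain ⟨_, a1⟩ := h.th (fx x)
  obtain ⟨_, a2⟩ := h.th (gy y)
  obtain ⟨_, a3⟩ := h.th (fx x')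
  obtain ⟨_, a4⟩ := h.th (gy y')
  have c : ph ρ (fx x) * ph ρ (gy y) * (ph ρ (fx x))⁻¹ * (ph ρ (gy y))⁻¹ ∈ K σ := by
    rw [← ph_inv, ← ph_inv, ← ph_mul, ← ph_mul, ← ph_mul, f4, ← e]; exact vK i
  have z : ∀ {p n : PP}, Commute n p → ph ρ p * ph ρ n * (ph ρ p)⁻¹ * (ph ρ n)⁻¹ ∈ K σ := fun t => by
    rw [conj_of_comm (ph_cm t), mul_inv_cancel]; exact one_mem _
  obtain ⟨k1, k2, k3, k4⟩ : (∀ s, fx s * fx s = 1) ∧ (∀ s, gy s * gy s = 1) ∧ (∀ s t, fx s * fx t = fx t * fx s) ∧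
    ∀ s t, gy s * gy t = gy t * gy s := by decide
  have := mul_mem (h.fe.tri a1 a3 a2 (h.nc f1 (k1 _) a1) (z (k3 _ _)) c) (h.fe.tri a2 a4 a1 (h.nc f2 (k2 _) a2)
    (z (k4 _ _)) (by simpa [mul_assoc] using inv_mem c))
  simp only [← ph_inv, ← ph_mul, f5] at this
  exact absurd (h.fr.ov f3) (h.no_inv (vK s) this)

end N2

variable [Finite G]

theorem Ip.nf (h : Ip ρ σ) : ∃ k, Z σ = ρ (k * φ0 (uu i) * k⁻¹) := by
  obtain ⟨k, a⟩ := h.n1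
  obtain ⟨l, e⟩ := a.n2
  exact ⟨k, (Z_in σ l).symm.trans (e.tz0.trans (by rw [map_mul, map_mul, map_inv]; rfl))⟩

theorem Ip.oddK (h : Ip ρ σ) (l : c ∈ K ρ) (q : Odd (orderOf c)) : c ∈ K σ := by
  obtain ⟨k, a⟩ := h.n1
  obtain ⟨x, e⟩ := a.n2
  obtain ⟨t, f⟩ := e.kv (K_in.2 l) (e.cK (K_in.2 l))
  obtain ⟨j, r⟩ := exists_pow_eq_self_of_coprime (x := c) (n := 2) (Nat.coprime_two_left.2 q)
  have := pow_mem (K_in.1 f) 2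
  rw [(cVK t (K_in.2 l)).mul_pow, sq, ph_sq (cn_vv t).sq, one_mul] at this
  exact r ▸ pow_mem this j

theorem Fr.sing (h : Fr ρ) (z : Cz ρ (ph ρ p)) : Sg p := by
  obtain ⟨σ, l, e⟩ := z
  have f := (h.of_cj l).oz
  rw [e] at f
  by_cases q : p ∈ VP
  · exact (by decide +kernel : ∀ p ∈ VP, p ≠ 1 → Sg p) p q fun t => ne_of f (t ▸ ph_one ρ)
  obtain ⟨t, ⟨k, a⟩, r⟩ := nf (h.pinj (by rw [ph_mul, sq_of f, ph_one])) q
  have x : ph ρ p = ph (cg (ρ k⁻¹) ρ) (zz i t) := by simp [ph, cg, ← a, mul_assoc]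
  obtain ⟨y, s⟩ := N1.n2 ⟨Ip.inl ⟨h, l, e ▸ mt h.KP q, e ▸ ⟨_, .self _ _⟩⟩ k⁻¹, (e.trans x).symm ▸
    (R.self _ _).of_q (qc_φ.2 ((by decide : ∀ t, (zz i t)⁻¹ * uu i ∈ VP) t))⟩
  exact r.1 (congrArg PP.v (s.fr.pinj (x.symm.trans (e.symm.trans ((Z_in σ y).symm.trans s.tz0)))))

namespace N2

variable (h : N2 ρ σ)
include h

theorem vs (t : F4) : ∃ u, ph σ (vv t) = ph ρ (uu u) := by
  obtain rfl | q := em (t = o)
  · exact ⟨o, (ph_one σ).trans (ph_one ρ).symm⟩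
  obtain ⟨p, l, r⟩ := h.all t
  obtain ⟨κ, m, e⟩ := r.ex
  have c := mem_K.1 m (φ0 p)
  obtain ⟨x, rfl⟩ := h.two m (j := 1) (by
    have := ph_sq (ρ := σ) (cn_vv t).sq
    rwa [e, c.symm.mul_mul_mul_comm, ph_sq l.sq, one_mul, ← sq] at this)
  have e : ph σ (vv t) = ph ρ (p * vv x) := e.trans (ph_mul ..).symm
  exact ((by decide +kernel : ∀ p x, Cn p → Sg (p * vv x) → p * vv x ∉ VP → ∃ u, p * vv x = uu u) p x l
    (h.fr.sing (e ▸ (cz_v σ q).of_cj h.cj)) fun f => h.no_inv (e ▸ cenK (φcen.2 f)) (vK t) (h.fe.ov q)).elim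
    fun u f => ⟨u, by rw [e, f]⟩

theorem uK (u : F4) : ph ρ (uu u) ∈ K σ := by
  obtain ⟨x, e⟩ := h.vs w
  have a : ph ρ (uu i) ∈ K σ := h.tz0 ▸ vK i
  have c : ph ρ (uu x) ∈ K σ := e ▸ vK w
  rcases (by decide : ∀ x u, x ≠ o → x ≠ i → uu u = 1 ∨ u = i ∨ u = x ∨ uu u = uu i * uu x) x u
    (fun f => ne_of (h.fe.ov (t := w) (by decide)) (e.trans (f ▸ ph_one ρ)))
    (fun f => absurd (h.fe.pinj (e.trans (f ▸ h.tz0.symm))) (by decide)) with f | rfl | rfl | f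
  exacts [f ▸ (ph_one ρ).symm ▸ one_mem _, a, c, by rw [f, ph_mul]; exact mul_mem a c]

theorem Ku (l : c ∈ K σ) (e : c * c = 1) : ∃ u, c = ph ρ (uu u) :=
  (h.symm.two l (j := 1) (by rw [pow_one, sq, e])).elim fun t f => f ▸ h.vs t

end N2

theorem Ip.swap (h : Ip τ ρ) (l : Ip τ σ) (c : Commute (Z ρ) (Z σ)) (q : Z σ ∉ K ρ) :
    ∃ k, τ k * Z σ * (τ k)⁻¹ ∈ K ρ ∧ ∃ x ∈ K ρ, τ k * x * (τ k)⁻¹ = Z σ := by
  obtain ⟨k, a⟩ := h.n1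
  obtain ⟨y, a⟩ := a.n2
  have l := l.inl k
  suffices ∃ e, cg (τ k) τ e * Z σ * (cg (τ k) τ e)⁻¹ ∈ K ρ ∧ ∃ x ∈ K ρ, cg (τ k) τ e * x * (cg (τ k) τ e)⁻¹ = Z σ from
    this.elim fun e t => ⟨k * e * k⁻¹, by rw [map_mul, map_mul, map_inv]; exact t⟩
  generalize cg (τ k) τ = τ at *
  obtain ⟨r, e⟩ := l.nf
  obtain ⟨p, f⟩ := a.fr.loc0 a.tu l.inn ((Z_in ρ y).symm ▸ c)
  obtain ⟨t, f⟩ := cenL.1 (qc_eq.1 (a.fr.Rq f (by rw [e]; exact .self _ _)))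
  have e : Z σ = ph τ (p * vv t) := by rw [e, ph, map_mul φ0, ← f, mul_inv_cancel_left]
  have s := a.fr.sing ⟨σ, l.cj, e⟩
  obtain ⟨x, u, f1, f2⟩ := swp s fun z => by
    rcases (by decide +kernel : ∀ p, Sg p → Cn p → p ∈ VP ∨ p = uu p.u) _ s z with z | z
    exacts [l.nk (e ▸ cenK (φcen.2 z)), q (e ▸ z ▸ K_in.1 (a.uK _))]
  refine ⟨x, ?_, _, K_in.1 (a.uK u), ?_⟩
  · rw [e, ← map_inv, ← map_mul, ← map_mul, f1]; exact K_in.1 (a.uK u)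
  · rw [e, ← map_inv, ← map_mul, ← map_mul, f2]

end CF.StdZ.He
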