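import Cfsg.Agent.StdZ.HeB

/-! Standard subgroups `2²·L₃(4)`: the normaliser of the Sylow subgroup. -/

set_option autoImplicit false
set_option maxRecDepth 100000
set_option synthInstance.maxSize 4000

namespace CF.StdZ.He

open Cfsg Subgroup Function F4
open CF.StdZ.On (V)

variable {G : Type*} [Group G] [Finite G] {ρ σ τ : L0 →* G} {a e k : L0} {c d g s t : G} {p m n : PP}
  {γ : MulAut L0} {θ : PP →* PP}

/-- a frame in which the central root elements are conjugate to the involutions of the centre -/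
structure Gd (ρ : L0 →* G) : Prop where
  fr : Fr ρ
  cz : Cz ρ (ph ρ (uu i))

theorem Ip.gd (h : Ip ρ σ) : ∃ τ : L0 →* G, Gd τ := by
  obtain ⟨k, a⟩ := h.n1
  obtain ⟨l, e⟩ := a.n2
  exact ⟨_, e.fr, _, e.cj, e.tz0⟩

/-- the action on the Sylow subgroup -/
structure Sw (ρ : L0 →* G) (s : G) (θ : PP →* PP) : Prop where
  act : ∀ p, s * ph ρ p * s⁻¹ = ph ρ (θ p)
  odd : ∀ x ∈ K ρ, Odd (orderOf x) → Commute x s

omit [Finite G] in
theorem Sw.mulZ (h : Sw ρ s θ) (q : Cn p) : Sw ρ (ph ρ p * s) θ :=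
  ⟨fun m => by rw [← conj_conj', h.act, conj_of_comm (ph_cm (q.comm _).symm)],
    fun x l o => (mem_K.1 l _).symm.mul_right (h.odd x l o)⟩

namespace Gd

variable (h : Gd ρ)
include h

theorem n2 : ∃ σ, N2 ρ σ := by
  obtain ⟨σ, a, e⟩ := h.fr.ip h.cz (mt h.fr.KP (by decide)) ⟨_, .self _ _⟩
  exact (N1.n2 ⟨a, e ▸ .self _ _⟩).elim fun _ l => ⟨_, l⟩

theorem two (l : c ∈ K ρ) {j : ℕ} (e : c ^ 2 ^ j = 1) : ∃ t, c = ph ρ (vv t) := h.n2.elim fun _ n => n.two l e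

theorem czS (q : Sg p) : Cz ρ (ph ρ p) := by
  by_cases l : p ∈ VP
  · rw [show p = _ from l]
    exact cz_v ρ ((by decide +kernel : ∀ p ∈ VP, Sg p → p.v ≠ o) p l q)
  · obtain ⟨t, ⟨k, a⟩, r⟩ := nf ((by decide +kernel : ∀ p, Sg p → p * p = 1) p q) l
    obtain rfl := r.2 q
    exact h.cz.co ⟨k⁻¹, by rw [show uu i = zz i o from rfl, ← a]; group⟩

theorem ofR (r : R ρ c (φ0 p)) {j : ℕ} (e : c ^ 2 ^ j = 1) : ∃ m, c = ph ρ m := by
  obtain ⟨κ, l, rfl⟩ := r.ex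
  obtain ⟨t, rfl⟩ := h.two l (j := j + 2) (by
    have := congrArg (· ^ 2 ^ 2) e
    simp only [← pow_mul, ← pow_add, one_pow] at this
    rwa [(mem_K.1 l _).mul_pow, ← map_pow, ← map_pow, add_comm, pow_add, pow_mul, p4, one_pow, map_one, map_one,
      one_mul, ← pow_add, add_comm] at this)
  exact ⟨_, (ph_mul ..).symm⟩

omit [Finite G] in
theorem cenR (l : ∀ p, Cn p → Commute (ph ρ p) c) : ∃ p, R ρ c (φ0 p) :=
  h.fr.cenV (.self _ _) (.self _ _) (cn_uu w) (by decide) (l _ (cn_vv i)) (l _ (cn_vv w)) (l _ (cn_uu i))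
    (l _ (cn_uu w))

theorem cenZ (l : ∀ p, Cn p → Commute (ph ρ p) c) {j : ℕ} (e : c ^ 2 ^ j = 1) : ∃ m, c = ph ρ m :=
  (h.cenR l).elim fun _ r => h.ofR r e

theorem cenP (l : ∀ p, Commute (ph ρ p) c) : ∃ p, Cn p ∧ ∃ x ∈ K ρ, Odd (orderOf x) ∧ c = ph ρ p * x := by
  obtain ⟨p, r⟩ := h.cenR fun p _ => l p
  obtain ⟨κ, m, rfl⟩ := r.ex
  obtain ⟨σ, n⟩ := h.n2
  obtain ⟨t, a⟩ := n.kv m (n.cK m)
  have k : ∀ x, x * p = p * x := fun x => h.fr.pinj (by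
    rw [ph_mul, ph_mul]; simpa using ((l x).mul_right (mem_K.1 m _).inv_right).eq)
  exact ⟨p * vv t, (by decide +kernel : ∀ p t, fx i * p = p * fx i → gy i * p = p * gy i → Cn (p * vv t)) p t (k _) (k _),
    _, mul_mem (vK t) m, n.odd (mul_mem (vK t) m) a, by
      rw [ph_mul, mul_assoc, ← mul_assoc (ph ρ (vv t)), ph_sq (cn_vv t).sq, one_mul]⟩

theorem tw (e : ∀ a, γ (φ0 a) = φ0 (θ a)) (q : Sg (θ (uu i))) : Gd (tw ρ γ) :=
  ⟨h.fr.of_cj (cj_tw _ _), (congrArg ρ (e _) ▸ h.czS q : Cz ρ (ρ (γ _))).of_cj (cj_tw _ _).symm⟩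

theorem img (f : Commute (ph ρ (fx i)) s) (e : s * ph ρ p * s⁻¹ = ph ρ m) (q : Sg p) :
    Sg m ∧ (fx i * m = m * fx i → fx i * p = p * fx i) :=
  ⟨h.fr.sing (e ▸ (h.czS q).conj s), fun l => h.fr.pinj (by
    have := congrArg (ph ρ) l
    rw [ph_mul, ph_mul, ← e, ← conj_of_comm f, conj_mul, conj_mul] at this
    rw [ph_mul, ph_mul]; simpa using this)⟩

theorem swap2 (f : ∀ t, Commute (ph ρ (fx t)) s) (N : ∀ p, ∃ m, s * ph ρ p * s⁻¹ = ph ρ m) {u μ : F4}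
    (z : s * Z ρ * s⁻¹ = ph ρ (uu u)) (e : s * ph ρ (gy i) * s⁻¹ = ph ρ (gy μ)) (q : μ ≠ o) (p : PP) :
    s * ph ρ p * s⁻¹ = ph ρ (dl i μ (sw p)) := by
  obtain ⟨m, l⟩ := N (gy w)
  have a := h.img (f i) l (by decide)
  have k : ∀ θ : PP →* PP, (∀ t, θ (fx t) = fx t) → θ (gy i) = gy μ → θ (gy w) = m → ∀ p,
      s * ph ρ p * s⁻¹ = ph ρ (θ p) := fun θ h1 h2 h3 =>
    hom_ext (φ := ((cg s ρ).comp φ0)) (ψ := (ρ.comp φ0).comp θ) (fun t => (conj_of_comm (f t)).trans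
      (congrArg (ph ρ) (h1 t).symm)) (e.trans (congrArg (ph ρ) h2.symm)) (l.trans (congrArg (ph ρ) h3.symm))
  rcases (by decide +kernel : ∀ μ m, μ ≠ o → Sg m → Sg (gy μ * m) → fx i * m ≠ m * fx i →
    m = dl i μ (gy w) ∨ m = dl i μ (sw (gy w))) μ m q a.1 (h.img (p := gy i * gy w) (f i)
      (by rw [ph_mul, ← conj_mul, e, l, ph_mul]) (by decide)).1 (mt a.2 (by decide)) with r | r
  · exact absurd (h.fr.pinj (z.symm.trans (k (dl i μ) (by cases μ <;> decide) (by cases μ <;> rfl) r.symm _)))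
      ((by decide : ∀ u μ, μ ≠ o → uu u ≠ dl i μ (vv i)) u μ q)
  · exact k ((dl i μ).comp sw) (by cases μ <;> decide) (by cases μ <;> rfl) r.symm p

theorem swap : ∃ s μ, μ ≠ o ∧ Sw ρ s ((dl i μ).comp sw) := by
  obtain ⟨σ, n⟩ := h.n2
  obtain ⟨x, hx⟩ := x1_φ
  have hx : ∀ t, ρ x * ph ρ (uu t) * (ρ x)⁻¹ = ph ρ (fx t) := fun t => by
    rw [← map_inv, ← map_mul, ← map_mul]; exact congrArg ρ (hx o t o)
  have zt : Z (cg (ρ x) σ) = ph ρ (fx i) := (congrArg (ρ x * · * (ρ x)⁻¹) n.tz0).trans (hx i)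
  have p1 : Ip ρ (cg (ρ x) σ) := ⟨h.fr, n.cj.trans (cj_cg _ _), zt ▸ mt h.fr.KP (by decide), zt ▸ ⟨_, .self _ _⟩⟩
  have p2 : Ip σ (cg (ρ x) σ) := ⟨n.fe, cj_cg _ _, zt ▸ fun l => (n.Ku l (ph_sq (by decide))).elim fun u e =>
    absurd (h.fr.pinj e) (by cases u <;> decide), zt ▸ (n.th _).elim fun _ e => ⟨_, e⟩⟩
  obtain ⟨k, A, y, hy, B⟩ := p2.symm.swap p1.symm n.cm.symm n.symm.nk
  have cf : ∀ t, Commute (ph ρ (fx t)) (cg (ρ x) σ k) := fun t =>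
    (mem_K.1 (K_cg.2 (by rw [← hx]; simpa [mul_assoc] using n.uK t)) k).symm
  have co : ∀ y ∈ K ρ, Odd (orderOf y) → Commute y (cg (ρ x) σ k) := fun y l o => (mem_K.1 (p1.oddK l o) k).symm
  generalize cg (ρ x) σ k = s at *
  have A' : ∀ {d}, d ∈ K σ → s⁻¹ * d * s ∈ K ρ := fun l => K_cg.1 ((n.fe.same (n.cj.symm.trans (cj_cg s ρ)) A
    (K_cg.2 (by simpa [mul_assoc] using vK i)) ((ord_cj _ _).trans h.fr.oz)).1 l)
  have B' : ∀ {d}, d ∈ K ρ → s⁻¹ * d * s ∈ K σ := fun l => K_cg.1 ((h.fr.same (n.cj.trans (cj_cg s σ)) (vK i)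
    (K_cg.2 (by rw [← show _ = ph ρ (vv i) from B]; simpa [mul_assoc] using hy)) h.fr.oz).1 l)
  have N : ∀ p, ∃ m, s * ph ρ p * s⁻¹ = ph ρ m := fun p => h.cenZ (fun m q => by
    rw [(by decide +kernel : ∀ m, Cn m → m = uu m.u * vv m.v) m q, ph_mul]
    refine (Commute.mul_right (comm_cj.2 (mem_K.1 (A' (n.uK _)) _)) (comm_cj.2 ?_)).symm
    obtain ⟨u, e⟩ := n.Ku (B' (vK m.v)) (by
      rw [← inv_inv s, inv_inv s⁻¹, conj_mul, ph_sq (cn_vv _).sq]; simp)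
    exact e ▸ ph_cm ((cn_uu u).comm p).symm) (j := 2) (by rw [conj_pow, ← map_pow, ← map_pow, p4]; simp)
  obtain ⟨u, z⟩ := n.Ku A (by rw [conj_mul, sq_of h.fr.oz]; simp)
  obtain ⟨m, e⟩ := N (gy i)
  have a := h.img (cf i) e (by decide)
  obtain ⟨r, μ, q, f⟩ := (by decide +kernel : ∀ m, Sg m → fx i * m ≠ m * fx i → ∃ r μ, μ ≠ o ∧
    fx r * m * (fx r)⁻¹ = gy μ) m a.1 (mt a.2 (by decide))
  have k : ∀ {p m}, s * ph ρ p * s⁻¹ = ph ρ m → ph ρ (fx r) * s * ph ρ p * (ph ρ (fx r) * s)⁻¹ =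
      ph ρ (fx r * m * (fx r)⁻¹) := fun e => by rw [← conj_conj', e, ph_mul, ph_mul, ph_inv]
  exact ⟨ph ρ (fx r) * s, μ, q, h.swap2 (u := u) (fun t => (ph_cm ((by decide : ∀ s t, fx s * fx t = fx t * fx s) t r :)
    ).mul_right (cf t)) (fun p => (N p).elim fun _ e => ⟨_, k e⟩) ((k z).trans (congrArg _
      (conj_of_comm ((cn_uu u).comm _)))) (f ▸ k e) q, fun y l o => (mem_K.1 l _).symm.mul_right (co y l o)⟩

theorem exists_sw : ∃ (τ : L0 →* G) (s t : G), Gd τ ∧ Sw τ s sw ∧ Sw τ t sv := by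
  obtain ⟨s, μ, h1, a⟩ := h.swap
  obtain ⟨t, ν, h2, c⟩ := (h.tw b11 (by decide)).swap
  obtain ⟨l, m, h3, h4, e1, e2, e3⟩ := (by decide +kernel : ∀ μ ν, μ ≠ o → ν ≠ o → ∃ l m, l ≠ o ∧ m ≠ o ∧
    Sg (dl l m (uu i)) ∧ (∀ p, dl i μ (sw (dl l m p)) = dl l m (sw p)) ∧
    ∀ p, gr (dl i ν (sw (gr (dl l m p)))) = dl l m (sv p)) μ ν h1 h2
  obtain ⟨γ, e⟩ := exists_diag h3 h4
  have k : ∀ p, ph (He.tw ρ γ) p = ph ρ (dl l m p) := fun p => congrArg ρ (e p)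
  have k' : ∀ p, ph (He.tw ρ (bb (1, 1))) p = ph ρ (gr p) := fun p => congrArg ρ (b11 p)
  refine ⟨_, s, t, h.tw e e1, ⟨fun p => by rw [k, k, a.act, ← e2]; rfl, fun x l => a.odd x (K_tw.1 l)⟩,
    fun p => ?_, fun x l => c.odd x (K_tw.2 (K_tw.1 l))⟩
  have := c.act (gr (dl l m p))
  rwa [k', k', (by decide +kernel : ∀ p, gr (gr p) = p), ← k, MonoidHom.comp_apply, e3 p, ← k] at this

theorem inv1 (a : Sw ρ s θ) (h1 : ∀ p, θ (θ p) = p) (h2 : ∀ p, Cn p → θ p = p → ∃ m, Cn m ∧ m * θ m = p) :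
    ∃ t, Sw ρ t θ ∧ t * t = 1 := by
  have c : ∀ p, Commute (ph ρ p) (s * s) := fun p => comm_of_conj (by rw [← conj_conj', a.act, a.act, h1])
  obtain ⟨p, q, x, l, ⟨j, o⟩, e⟩ := h.cenP c
  have a' : Sw ρ (s ^ (2 * j + 1)) θ := ⟨fun m => by
    rw [pow_succ', pow_mul, sq, ← conj_conj', conj_of_comm ((c m).pow_right j), a.act],
    fun x l o => (a.odd x l o).pow_right _⟩
  have e : s ^ (2 * j + 1) * s ^ (2 * j + 1) = ph ρ p := by
    rw [← (Commute.refl s).mul_pow, e, (mem_K.1 l _).mul_pow, pow_odd (ph_sq q.sq) ⟨j, rfl⟩, ← o, pow_orderOf_eq_one,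
      mul_one]
  generalize s ^ (2 * j + 1) = t at *
  obtain ⟨m, r, f⟩ := h2 p q (h.fr.pinj (by rw [← a'.act, ← e]; group))
  exact ⟨_, a'.mulZ r, by
    rw [show ph ρ m * t * (ph ρ m * t) = ph ρ m * (t * ph ρ m * t⁻¹) * (t * t) by group, a'.act, e, ← ph_mul, f,
      ph_sq q.sq]⟩

theorem inv2 (a : Sw ρ s sw) (c : Sw ρ t sv) (ss : s * s = 1) (tt : t * t = 1) :
    ∃ x, Sw ρ x sw ∧ x * x = 1 ∧ Commute x t := by
  have si := inv_eq_of_mul_eq_one_right ss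
  have ti := inv_eq_of_mul_eq_one_right tt
  obtain ⟨p, q, x, l, o, e⟩ := h.cenP (c := s * t * (s * t)) fun p => comm_of_conj (by
    rw [← conj_conj', ← conj_conj', ← conj_conj', c.act, a.act, c.act, a.act,
      (by decide +kernel : ∀ p, sw (sv (sw (sv p))) = p)])
  have e1 : s * (s * t * (s * t)) * s⁻¹ = (s * t * (s * t))⁻¹ := by
    simp only [mul_inv_rev, si, ti, ← mul_assoc, ss, one_mul]
  have e2 : t * (s * t * (s * t)) * t⁻¹ = (s * t * (s * t))⁻¹ := by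
    simp only [mul_inv_rev, si, ti, mul_assoc, tt, mul_one]
  obtain rfl : x = 1 := eq_one_of_odd o (k := 3) (by
    rw [e, ← conj_mul, a.act, conj_of_comm (a.odd x l o)] at e1
    have : x * x = ph ρ ((sw p)⁻¹ * p⁻¹) := by
      rw [ph_mul, ph_inv, ph_inv, eq_inv_mul_iff_mul_eq, ← mul_assoc, e1, ← (mem_K.1 l _).symm.eq]; group
    rw [pow_succ' 2 2, pow_mul, sq, this, ← map_pow, ← map_pow, p4, map_one, map_one])
  rw [mul_one] at e
  rw [e, ← ph_inv] at e1 e2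
  have k : ∀ {x}, x * x = 1 → x * t * (x * t) = 1 → Commute x t := fun {x} xx f => by
    have := inv_eq_of_mul_eq_one_right f
    rwa [mul_inv_rev, ti, inv_eq_of_mul_eq_one_right xx, eq_comm] at this
  rcases (by decide +kernel : ∀ p, Cn p → sw p = p⁻¹ → sv p = p⁻¹ → p = 1 ∨ p = zz i i) p q
    (h.fr.pinj ((a.act p).symm.trans e1)) (h.fr.pinj ((c.act p).symm.trans e2)) with rfl | rfl
  · exact ⟨s, a, ss, k ss (e.trans (ph_one ρ))⟩
  · have f : ph ρ (zz w w) * s * (ph ρ (zz w w) * s) = 1 := by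
      rw [show ph ρ (zz w w) * s * (ph ρ (zz w w) * s) = ph ρ (zz w w) * (s * ph ρ (zz w w) * s⁻¹) * (s * s) by group,
        a.act, ss, mul_one, ← ph_mul]; exact ph_one ρ
    refine ⟨_, a.mulZ (cn_zz w w), f, k f ?_⟩
    rw [show ph ρ (zz w w) * s * t * (ph ρ (zz w w) * s * t) =
      ph ρ (zz w w) * (s * (t * ph ρ (zz w w) * t⁻¹) * s⁻¹) * (s * t * (s * t)) by group, c.act, a.act, e,
      ← ph_mul, ← ph_mul]; exact ph_one ρ

theorem exists_SS : ∃ (τ : L0 →* G) (ψ : SS →* G), Gd τ ∧ Injective ψ ∧ ∀ p, ψ (inc p) = ph τ p := by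
  obtain ⟨τ, s, t, h, a, c⟩ := h.exists_sw
  obtain ⟨s, a, ss⟩ := h.inv1 a (by decide +kernel) (by decide +kernel)
  obtain ⟨t, c, tt⟩ := h.inv1 c (by decide +kernel) (by decide +kernel)
  obtain ⟨s, a, ss, st⟩ := h.inv2 a c ss tt
  have e : ∀ p, lift2 (τ.comp φ0) s t ss tt st a.act c.act (inc p) = ph τ p := fun p =>
    show ph τ p * (1 * 1) = _ by simp
  exact ⟨τ, _, h, inj_of fun p m f => h.fr.pinj ((e p).symm.trans (f.trans (e m))), e⟩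

end Gd

end CF.StdZ.He
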