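import Cfsg.Agent.StdZ.RuD
import Cfsg.Agent.StdZ.Cert
import Cfsg.Agent.Schur.Ru

/-! Computations in the Rudvalis group. -/

set_option autoImplicit false
set_option maxRecDepth 1000000

namespace CF.StdZ.Ru

open CF.Comp CF.Bt CF.Comp.Ru CF.Schur.Pc CF.Schur.Ru

noncomputable def NN : List Net := lapp K0 (lapp K1 Y)
noncomputable def aw : List ℕ := wpow [1, 3, 3, 2, 4, 4] 6
noncomputable def bw : List ℕ := wpow [1, 3, 2, 4] 5
noncomputable def cw (p : List ℕ) : List ℕ := lapp (lapp p aw) (winv p)

/-- the trace of a packed matrix -/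
noncomputable def trK (A j : ℕ) : ℕ := Nat.rec 0 (fun i r => Nat.add r (P5.ent A (Nat.add (Nat.mul 28 i) i))) j

/-- the trace of a word -/
noncomputable def trW (w : List ℕ) (r : ℕ) : Bool := P5.ev M5 w fun A => Nat.beq (Nat.mod (trK A 28) 5) r

/-- a fourth power is not trivial or a square has a fixed point -/
noncomputable def sqF (R Q v : ℕ) : Bool :=
  Bool.rec (powNe R Q 220 4 v) true
    (lany (fun i => Bool.rec false (Nat.beq (labN R Q v 2 i) i) (Nat.ble (Nat.succ i) 220)) pts)

theorem h1 : slpOK NN 4060 12 (lapp KW YW) 2 = true := by decide +kernel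
theorem h2 : geOK NN 4060 KC 145926144000 = true := by decide +kernel
theorem h3 : pcOK (sameW NN 4060 12) 2 qs pc = true := by decide +kernel
theorem h4 : selIs 4060 l 220 = true := by decide +kernel
theorem h5 : relOK NN Z qs l 220 = true := by decide +kernel
theorem h6 : geOK Z 220 c2 16384 = true := by decide +kernel
theorem h7 : labOK 220 8 (repl 220 8) (full 219) = true := by decide +kernel
theorem h8 : clE Z 220 8 2 c2 (lmap Prod.fst fus) ⟨M, tbl, Ts⟩ = true := by decide +kernel
theorem h9 : (force (repl 220 8) fun R => force (full 219) fun Q => enumOK Z 220 8 (sqF R Q) c2 Ts) = true := by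
  decide +kernel
theorem h10 : lall (fun t : List ℕ × List ℕ × ℕ => sameW NN 4060 12 (lapp t.2.1 (subst qs t.1))
  (lapp (nth aw [aw, bw] t.2.2) t.2.1)) fus = true := by decide +kernel
theorem h11 : stdS NN 4060 12 KC ts ts [] [] TF TK T 2 = true := by decide +kernel
theorem h12 : memAll (sameW NN 4060 12) qs ts us = true := by decide +kernel
theorem h13 : comAll (sameW NN 4060 12) [a0] ts = true := by decide +kernel
theorem h14 : lall (fun t : List ℕ × List ℕ => sameW NN 4060 12 t.1 t.2) [(lapp r aw, lapp a0 r), (lapp aw aw, []),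
  (lapp bw bw, []), (lapp (cw p1) aw, lapp aw (cw p1)), (lapp (cw p2) aw, lapp aw (cw p2)), (lapp aw u1, lapp u1 aw),
  (lapp aw u2, lapp u2 aw), (lapp u1 (cw p1), lapp (lapp (cw p1) aw) u1),
  (lapp u2 (cw p2), lapp (lapp (cw p2) aw) u2)] = true := by decide +kernel
theorem h15 : Nat.beq (fixS NN 4060 12 bw) 0 = true := by decide +kernel
theorem h16 : difW NN 4060 12 aw [] = true := by decide +kernel
theorem h17 : lall (fun t : List ℕ × ℕ => trW t.1 t.2) [(aw, 1), (lapp aw aw, 3), (lapp bw bw, 2), (cw p1, 1), (cw p2, 1),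
  (lapp (cw p1) aw, 1), (lapp (cw p2) aw, 4)] = true := by decide +kernel
theorem h18 : lall (balanced 2) [aw, bw, cw p1, cw p2] = true := by decide +kernel

end CF.StdZ.Ru
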